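import Cfsg.Agent.H604.TcEncOdd_mg
import Cfsg.Agent.S0493
set_option linter.all false

-- part: H412/Tc/SemiGrp
section
/-!
# Semilinear maps and solvable extensions
-/

set_option autoImplicit false

namespace Cfsg.Agent.H412.Tc

open scoped commutatorElement

theorem aut_comm {K : Type*} [Field K] [Finite K] (σ τ : K ≃+* K) : σ * τ = τ * σ := by
  let Γ : Subgroup (K ≃+* K) := ⊤
  have : Finite (K ≃+* K) :=
    Finite.of_injective (fun f : K ≃+* K => (f : K → K)) DFunLike.coe_injective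
  have hc : IsCyclic Γ := by
    let e := FixedPoints.toAlgAutMulEquiv Γ K
    exact isCyclic_of_surjective e.symm.toMonoidHom e.symm.surjective
  obtain ⟨g, hg⟩ := hc.exists_generator
  obtain ⟨i, hi⟩ := Subgroup.mem_zpowers_iff.1 (hg ⟨σ, Subgroup.mem_top σ⟩)
  obtain ⟨j, hj⟩ := Subgroup.mem_zpowers_iff.1 (hg ⟨τ, Subgroup.mem_top τ⟩)
  have h1 : (⟨σ, Subgroup.mem_top σ⟩ * ⟨τ, Subgroup.mem_top τ⟩ : Γ) =
      ⟨τ, Subgroup.mem_top τ⟩ * ⟨σ, Subgroup.mem_top σ⟩ := by
    rw [← hi, ← hj, ← zpow_add, ← zpow_add, add_comm]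
  exact congrArg Subtype.val h1

/-- A group all of whose commutators lie in a solvable subgroup is solvable. -/
theorem solvable_ext {G : Type*} [Group G] {N M : Subgroup G} (hM : Group.IsSolvable M)
    (h : ∀ x ∈ N, ∀ y ∈ N, x * y * x⁻¹ * y⁻¹ ∈ M) : Group.IsSolvable N := by
  let C : Subgroup N := ⁅(⊤ : Subgroup N), ⊤⁆
  have h1 : C.map N.subtype ≤ M := by
    rw [Subgroup.map_le_iff_le_comap, Subgroup.commutator_le]
    intro x _ y _
    exact h x x.2 y y.2
  have h2 : Group.IsSolvable (C.map N.subtype) := solvable_of_le h1 hM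
  have h3 : Group.IsSolvable C :=
    Group.isSolvable_of_isSolvable_injective (f := N.subtype.subgroupMap C) (fun a b hab => by
      apply Subtype.ext
      have h4 := congrArg Subtype.val hab
      exact N.subtype_injective h4)
  refine (Group.isSolvable_iff_subgroup_quotient C).2 ⟨h3, ?_⟩
  refine Group.isSolvable_of_comm ?_
  intro a b
  obtain ⟨a, rfl⟩ := QuotientGroup.mk_surjective a
  obtain ⟨b, rfl⟩ := QuotientGroup.mk_surjective b
  rw [← QuotientGroup.mk_mul, ← QuotientGroup.mk_mul, QuotientGroup.eq]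
  have h4 : (a * b)⁻¹ * (b * a) = ⁅b⁻¹, a⁻¹⁆ := by
    rw [commutatorElement_def]; group
  rw [h4]
  exact Subgroup.commutator_mem_commutator (Subgroup.mem_top _) (Subgroup.mem_top _)

section

variable {K V : Type*} [Field K] [AddCommGroup V] [Module K V]

theorem Semi.mul {g h : GV V} (hg : Semi K g) (hh : Semi K h) : Semi K (g * h) := by
  obtain ⟨σ, hσ⟩ := hg
  obtain ⟨τ, hτ⟩ := hh
  exact ⟨σ * τ, fun c v => by rw [mul_smul, hτ, hσ, mul_smul]; rfl⟩

theorem Semi.inv {g : GV V} (hg : Semi K g) : Semi K g⁻¹ := by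
  obtain ⟨σ, hσ⟩ := hg
  refine ⟨σ.symm, fun c v => ?_⟩
  rw [inv_smul_eq_iff, hσ, smul_inv_smul]
  simp

theorem Semi.of_lin {g : GV V} (hg : Lin K g) : Semi K g := ⟨RingEquiv.refl K, fun c v => hg c v⟩

theorem Semi.one : Semi K (1 : GV V) := Semi.of_lin Lin.one

/-- The semilinear group. -/
def SemiG (K V : Type*) [Field K] [AddCommGroup V] [Module K V] : Subgroup (GV V) where
  carrier := {g | Semi K g}
  mul_mem' := fun ha hb => Semi.mul ha hb
  one_mem' := Semi.one
  inv_mem' := fun ha => Semi.inv ha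

theorem conj_scal {g : GV V} {σ : K ≃+* K} (hσ : ∀ (c : K) (v : V), g • c • v = σ c • g • v)
    (c : Kˣ) : g * scal K V c * g⁻¹ = scal K V (Units.map (σ : K →* K) c) := by
  rw [mul_inv_eq_iff_eq_mul]
  apply GV_ext
  intro v
  rw [mul_smul, mul_smul, scal_smul, hσ, scal_smul]
  rfl

theorem Semi.conj_scal {g : GV V} (hg : Semi K g) (c : Kˣ) :
    ∃ d : Kˣ, g * scal K V c * g⁻¹ = scal K V d := by
  obtain ⟨σ, hσ⟩ := hg
  exact ⟨_, Tc.conj_scal hσ c⟩

theorem Semi.conj_lin {g x : GV V} (hg : Semi K g) (hx : Lin K x) : Lin K (g * x * g⁻¹) := by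
  obtain ⟨σ, hσ⟩ := hg
  intro c v
  have h1 : g⁻¹ • c • v = σ.symm c • g⁻¹ • v := by
    rw [inv_smul_eq_iff, hσ, smul_inv_smul]
    simp
  rw [mul_smul, mul_smul, h1, hx, hσ, mul_smul, mul_smul]
  simp

/-- Conjugating elements commuting up to a scalar. -/
theorem Semi.conj_cc {g a b : GV V} (hg : Semi K g) {c : Kˣ} (h : CC c a b) :
    ∃ d : Kˣ, scal K V d = g * scal K V c * g⁻¹ ∧ CC d (g * a * g⁻¹) (g * b * g⁻¹) := by
  obtain ⟨d, hd⟩ := hg.conj_scal c
  refine ⟨d, hd.symm, ?_⟩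
  unfold CC at *
  rw [← hd]
  calc g * a * g⁻¹ * (g * b * g⁻¹) = g * (a * b) * g⁻¹ := by group
    _ = _ := by rw [h]; group

end

end Cfsg.Agent.H412.Tc
end

-- part: H306/TcEx
section
/-!
# S3621, lemma Ex and lemma Powr (helper306)
-/

set_option autoImplicit false

namespace Cfsg.Agent.H306.TcEx

open Cfsg.Agent.H412.Tc

universe u

section units

/-- `Kˣ` modulo `r`-th powers is generated by any `α` which is not an `r`-th power -/
theorem exists_pow_mul {C : Type*} [CommGroup C] [IsCyclic C] [Finite C] {r : ℕ} (hr : r.Prime)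
    (hdvd : r ∣ Nat.card C) {α : C} (hα : ∀ u : C, α ≠ u ^ r) (β : C) : ∃ (k : ℕ) (u : C), β * α ^ k = u ^ r := by
  set P : Subgroup C := (powMonoidHom r : C →* C).range with hP
  have hidx : P.index = r := by
    rw [hP, IsCyclic.index_powMonoidHom_range]
    exact Nat.gcd_eq_right hdvd
  have hαP : α ∉ P := by
    rintro ⟨u, hu⟩
    exact hα u hu.symm
  have h1 := Subgroup.relIndex_mul_index (H := P) (K := P ⊔ Subgroup.zpowers α) le_sup_left
  rw [hidx] at h1
  have h2 : (P ⊔ Subgroup.zpowers α).index = 1 := by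
    rcases (Nat.dvd_prime hr).1 (Dvd.intro_left _ h1) with h | h
    · exact h
    · exfalso
      rw [h] at h1
      have h3 : P.relIndex (P ⊔ Subgroup.zpowers α) = 1 := by
        have := hr.pos
        exact Nat.eq_of_mul_eq_mul_right this (by rw [h1, one_mul])
      rw [Subgroup.relIndex_eq_one] at h3
      exact hαP (h3 (Subgroup.mem_sup_right (Subgroup.mem_zpowers α)))
  rw [Subgroup.index_eq_one] at h2
  have h3 : β⁻¹ ∈ P ⊔ Subgroup.zpowers α := by rw [h2]; exact Subgroup.mem_top _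
  obtain ⟨y, ⟨v, hv⟩, z, ⟨k, hk⟩, hyz⟩ := Subgroup.mem_sup.1 h3
  have hv' : v ^ r = y := hv
  have hk' : α ^ k = z := hk
  have hr0 : (r : ℤ) ≠ 0 := by exact_mod_cast hr.ne_zero
  have hk2 : α ^ k = α ^ (k % r).toNat * (α ^ (k / r)) ^ r := by
    have h4 : ((k % r).toNat : ℤ) = k % r := Int.toNat_of_nonneg (Int.emod_nonneg _ hr0)
    rw [← zpow_natCast, h4, ← zpow_natCast, ← zpow_mul, ← zpow_add]
    congr 1
    rw [mul_comm]
    exact (Int.emod_add_mul_ediv k r).symm
  refine ⟨(k % r).toNat, (v * α ^ (k / r))⁻¹, ?_⟩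
  have h5 : β⁻¹ = v ^ r * (α ^ (k % r).toNat * (α ^ (k / r)) ^ r) := by
    rw [← hyz, ← hv', ← hk', hk2]
  rw [inv_pow, mul_pow, eq_inv_iff_mul_eq_one]
  have h6 : β * β⁻¹ = 1 := mul_inv_cancel β
  rw [h5] at h6
  rw [← h6]
  simp only [mul_comm, mul_left_comm, mul_assoc]

theorem sq_eq_one {K : Type*} [Field K] {c : Kˣ} (h : c ^ 2 = 1) : c = 1 ∨ c = -1 := by
  have h1 : (c : K) ^ 2 = 1 := by rw [← Units.val_pow_eq_pow_val, h, Units.val_one]
  have h3 : ((c : K) - 1) * (c + 1) = 0 := by linear_combination h1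
  rcases mul_eq_zero.1 h3 with h2 | h2
  · exact Or.inl (Units.ext (by rw [Units.val_one]; linear_combination h2))
  · exact Or.inr (Units.ext (by rw [Units.val_neg, Units.val_one]; linear_combination h2))

end units

section

variable {K V : Type*} [Field K] [AddCommGroup V] [Module K V] {B : Subgroup (GV V)} {r : ℕ}

/-- scaling an element whose `r`-th power is an `r`-th power of a scalar -/
theorem scale (hB : Heis K V r B) {y : GV V} (hy : y ∈ B) (hns : ∀ c : Kˣ, y ≠ scal K V c) {u e : Kˣ}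
    (h : y ^ r = scal K V (e * u ^ r)) :
    scal K V u⁻¹ * y ∈ B ∧ (scal K V u⁻¹ * y) ^ r = scal K V e ∧ (∀ c : Kˣ, scal K V u⁻¹ * y ≠ scal K V c) ∧
      y = scal K V u * (scal K V u⁻¹ * y) := by
  refine ⟨B.mul_mem (hB.scal_mem _) hy, ?_, ?_, ?_⟩
  · have h1 : Commute (scal K V u⁻¹) y := ((hB.linb hy).scal_commute u⁻¹).symm
    rw [h1.mul_pow, h, ← map_pow, ← map_mul, inv_pow, mul_comm e, inv_mul_cancel_left]
  · intro c hc
    apply hns (u * c)
    rw [map_mul, ← hc, ← mul_assoc, ← map_mul, mul_inv_cancel, map_one, one_mul]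
  · rw [← mul_assoc, ← map_mul, mul_inv_cancel, map_one, one_mul]

/-- the power of a product -/
theorem pow_mul (hB : Heis K V r B) [Nontrivial V] {a b : GV V} (ha : a ∈ B) (hb : b ∈ B) :
    ∃ e : Kˣ, (a * b) ^ r = scal K V e * (a ^ r * b ^ r) ∧ (e = 1 ∨ (r = 2 ∧ e = -1)) := by
  obtain ⟨c, hc⟩ := hB.cc hb ha
  have hcr := hB.cc_pow hb ha hc
  refine ⟨_, CC.mul_pow (hB.linb ha) (hB.linb hb) hc r, ?_⟩
  rcases hB.prime.eq_two_or_odd' with h2 | ho
  · subst h2
    have h3 : 2 * (2 - 1) / 2 = 1 := rfl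
    rw [h3, pow_one]
    rcases sq_eq_one hcr with h | h
    · exact Or.inl h
    · exact Or.inr ⟨rfl, h⟩
  · left
    obtain ⟨k, hk⟩ := ho
    have h3 : r * (r - 1) / 2 = r * k := by
      rw [hk, Nat.add_sub_cancel, mul_comm 2 k, ← mul_assoc, Nat.mul_div_cancel _ (by norm_num)]
    rw [h3, _root_.pow_mul, hcr, one_pow]

/-- `r`-th powers -/
def Q (K : Type*) {V : Type*} [Field K] [AddCommGroup V] [Module K V] (r : ℕ) (b : GV V) : Prop :=
  ∃ e c : Kˣ, b ^ r = scal K V (e * c ^ r) ∧ (e = 1 ∨ (r = 2 ∧ e = -1))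

theorem sg_mul {r : ℕ} {e e' : Kˣ} (h : e = 1 ∨ (r = 2 ∧ e = -1)) (h' : e' = 1 ∨ (r = 2 ∧ e' = -1)) :
    e * e' = 1 ∨ (r = 2 ∧ e * e' = -1) := by
  rcases h with rfl | ⟨h2, rfl⟩ <;> rcases h' with rfl | ⟨h2', rfl⟩
  · left; rw [one_mul]
  · right; exact ⟨h2', by rw [one_mul]⟩
  · right; exact ⟨h2, by rw [mul_one]⟩
  · left; rw [neg_mul_neg, one_mul]

/-- semilinear maps and scalars -/
theorem semi_scal {g : GV V} (h : Semi K g) :
    ∃ τ : Kˣ →* Kˣ, τ (-1) = -1 ∧ ∀ c : Kˣ, g * scal K V c = scal K V (τ c) * g := by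
  obtain ⟨σ, hσ⟩ := h
  refine ⟨Units.map (σ : K →* K), ?_, ?_⟩
  · apply Units.ext
    rw [Units.coe_map]
    simp
  · intro c
    apply GV_ext
    intro v
    rw [mul_smul, mul_smul, scal_smul, scal_smul, hσ]
    rfl

end

section powr

variable {K V : Type u} [Field K] [Finite K] [AddCommGroup V] [Finite V] [Module K V]
  {A B : Subgroup (GV V)} {r : ℕ}

theorem nontriv (S : SetB K V A B r) : Nontrivial V :=
  Finite.one_lt_card_iff_nontrivial.1 (by have := S.card; omega)

theorem powr_aux (S : SetB K V A B r) (hx : ∃ x ∈ B, x ^ r = 1 ∧ ∀ c : Kˣ, x ≠ scal K V c) :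
    ∀ b ∈ B, Q K r b := by
  have hV := nontriv S
  have hB := S.heis
  let N : Subgroup (GV V) :=
    { carrier := {b | b ∈ B ∧ Q K r b}
      one_mem' := ⟨B.one_mem, 1, 1, by rw [one_pow, one_pow, one_mul, map_one], Or.inl rfl⟩
      mul_mem' := by
        rintro a b ⟨ha, e1, c1, h1, h1'⟩ ⟨hb, e2, c2, h2, h2'⟩
        obtain ⟨e, he, he'⟩ := pow_mul hB ha hb
        refine ⟨B.mul_mem ha hb, e * (e1 * e2), c1 * c2, ?_, sg_mul he' (sg_mul h1' h2')⟩
        rw [he, h1, h2, ← map_mul, ← map_mul]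
        congr 1
        rw [mul_pow]
        simp only [mul_comm, mul_left_comm, mul_assoc]
      inv_mem' := by
        rintro a ⟨ha, e1, c1, h1, h1'⟩
        refine ⟨B.inv_mem ha, e1⁻¹, c1⁻¹, ?_, ?_⟩
        · rw [inv_pow, h1, ← map_inv, mul_inv, inv_pow]
        · rcases h1' with rfl | ⟨h2, rfl⟩
          · left; rw [inv_one]
          · right; exact ⟨h2, by rw [inv_neg, inv_one]⟩ }
  have hN : ∀ {b : GV V}, b ∈ N ↔ b ∈ B ∧ Q K r b := Iff.rfl
  have hmin := S.min N (fun c => hN.2 ⟨hB.scal_mem c, 1, c, by rw [one_mul, map_pow], Or.inl rfl⟩)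
    (fun b hb => (hN.1 hb).1) (by
      intro g hg b hb
      obtain ⟨hbB, e, c, h1, h2⟩ := hN.1 hb
      obtain ⟨τ, hτ1, hτ⟩ := semi_scal (S.semi g hg)
      refine hN.2 ⟨S.norm g hg b hbB, τ e, τ c, ?_, ?_⟩
      · rw [conj_pow, h1, hτ, mul_inv_cancel_right, map_mul, map_pow]
      · rcases h2 with rfl | ⟨h2, rfl⟩
        · left; exact map_one τ
        · right; exact ⟨h2, hτ1⟩)
  rcases hmin with h | h
  · exfalso
    obtain ⟨x, hxB, hxr, hxs⟩ := hx
    obtain ⟨c, hc⟩ := h x (hN.2 ⟨hxB, 1, 1, by rw [hxr, one_pow, one_mul, map_one], Or.inl rfl⟩)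
    exact hxs c hc
  · intro b hb
    exact (hN.1 (h hb)).2

theorem Powr.main (S : SetB K V A B r) (hx : ∃ x ∈ B, x ^ r = 1 ∧ ∀ c : Kˣ, x ≠ scal K V c) :
    (r ≠ 2 → ∀ b ∈ B, ∃ c : Kˣ, b ^ r = scal K V (c ^ r)) ∧
    (r = 2 → ∀ b ∈ B, ∃ c : Kˣ, b ^ 2 = scal K V (c ^ 2) ∨ b ^ 2 = scal K V (-c ^ 2)) := by
  have h := powr_aux S hx
  constructor
  · intro hr b hb
    obtain ⟨e, c, h1, rfl | ⟨h2, -⟩⟩ := h b hb
    · exact ⟨c, by rw [h1, one_mul]⟩
    · exact absurd h2 hr
  · rintro rfl b hb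
    obtain ⟨e, c, h1, rfl | ⟨-, rfl⟩⟩ := h b hb
    · exact ⟨c, Or.inl (by rw [h1, one_mul])⟩
    · exact ⟨c, Or.inr (by rw [h1, neg_one_mul])⟩

theorem dvd_card (S : SetB K V A B r) : r ∣ Nat.card Kˣ := by
  have hV := nontriv S
  obtain ⟨a, ha, hns⟩ := S.ns
  obtain ⟨w, hw1, hw⟩ := S.heis.exists_root ha hns
  have h1 : orderOf w = r := by
    rcases (Nat.dvd_prime S.heis.prime).1 (orderOf_dvd_of_pow_eq_one hw) with h | h
    · exact absurd (orderOf_eq_one_iff.1 h) hw1
    · exact h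
  rw [← h1]
  exact orderOf_dvd_natCard w

theorem Ex.main (S : SetB K V A B r) :
    (∃ x ∈ B, x ^ r = 1 ∧ ∀ c : Kˣ, x ≠ scal K V c) ∨
    (r = 2 ∧ (∀ c : Kˣ, c ^ 2 ≠ -1) ∧ ∃ a ∈ B, ∃ b ∈ B, a ^ 2 = scal K V (-1) ∧
      b ^ 2 = scal K V (-1) ∧ CC (-1 : Kˣ) a b ∧
      ∀ x ∈ B, ∃ c : Kˣ, x = scal K V c ∨ x = scal K V c * a ∨ x = scal K V c * b ∨
        x = scal K V c * (a * b)) := by
  have hV := nontriv S
  have hB := S.heis
  have hdvd := dvd_card S
  have hcyc : IsCyclic Kˣ := inferInstance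
  rw [or_iff_not_imp_left]
  intro hno
  have H1 : ∀ {y : GV V}, y ∈ B → (∀ c : Kˣ, y ≠ scal K V c) → ∀ u : Kˣ, y ^ r ≠ scal K V (u ^ r) := by
    intro y hy hns u h
    obtain ⟨h1, h2, h3, -⟩ := scale hB hy hns (u := u) (e := 1) (by rw [one_mul]; exact h)
    exact hno ⟨_, h1, by rw [h2, map_one], h3⟩
  obtain ⟨a0, ha0, hns0⟩ := S.ns
  obtain ⟨b0, hb0, c0, hc0, hcc0⟩ := hB.exists_cc_ne ha0 hns0
  have key : r = 2 ∧ ∀ c : Kˣ, c ^ 2 ≠ -1 := by
    obtain ⟨α, hα⟩ := hB.pow a0 ha0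
    obtain ⟨β, hβ⟩ := hB.pow b0 hb0
    obtain ⟨k, u, hku⟩ := exists_pow_mul hB.prime hdvd (α := α) (fun u h => H1 ha0 hns0 u (by rw [hα, h])) β
    have hx0 : b0 * a0 ^ k ∈ B := B.mul_mem hb0 (B.pow_mem ha0 k)
    obtain ⟨e, he, he'⟩ := pow_mul hB hb0 (B.pow_mem ha0 k)
    have h1 : (b0 * a0 ^ k) ^ r = scal K V (e * u ^ r) := by
      rw [he, hβ, ← _root_.pow_mul, mul_comm k r, _root_.pow_mul, hα, ← map_pow, ← map_mul, ← map_mul, hku]
    have hns1 : ∀ c : Kˣ, b0 * a0 ^ k ≠ scal K V c := by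
      intro c hc
      have h2 : CC c0 a0 (b0 * a0 ^ k) := by
        have h3 : CC (1 : Kˣ) a0 (a0 ^ k) := cc_one_iff.2 (by rw [← pow_succ, ← pow_succ'])
        have h4 := CC.mul_right (hB.linb hb0) hcc0 h3
        rwa [mul_one] at h4
      rw [hc] at h2
      exact hc0 (h2.unique (CC.scal_right (hB.linb ha0) c))
    rcases he' with rfl | ⟨h2, rfl⟩
    · rw [one_mul] at h1
      exact absurd h1 (H1 hx0 hns1 u)
    · refine ⟨h2, fun i hi => ?_⟩
      apply H1 hx0 hns1 (i * u)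
      rw [h1, mul_pow]
      congr 2
      subst h2
      exact hi.symm
  obtain ⟨rfl, hK⟩ := key
  refine ⟨rfl, hK, ?_⟩
  -- nonscalar elements have square `-u ^ 2`
  have H2 : ∀ {y : GV V}, y ∈ B → (∀ c : Kˣ, y ≠ scal K V c) → ∃ u : Kˣ, y ^ 2 = scal K V ((-1) * u ^ 2) := by
    intro y hy hns
    obtain ⟨β, hβ⟩ := hB.pow y hy
    obtain ⟨k, u, hku⟩ := exists_pow_mul hB.prime hdvd (α := (-1 : Kˣ)) (fun u h => hK u h.symm) β
    rcases Nat.even_or_odd k with hk | hk
    · rw [hk.neg_one_pow, mul_one] at hku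
      exact absurd (by rw [hβ, hku]) (H1 hy hns u)
    · rw [hk.neg_one_pow] at hku
      refine ⟨u, ?_⟩
      rw [hβ, ← hku]
      congr 1
      rw [mul_neg_one, mul_neg, neg_mul, neg_neg, one_mul]
  have H3 : ∀ {y : GV V}, y ∈ B → (∀ c : Kˣ, y ≠ scal K V c) → ∃ u : Kˣ, ∃ y' ∈ B, y' ^ 2 = scal K V (-1) ∧
      y = scal K V u * y' ∧ y' = scal K V u⁻¹ * y := by
    intro y hy hns
    obtain ⟨u, hu⟩ := H2 hy hns
    obtain ⟨h1, h2, -, h4⟩ := scale hB hy hns hu
    exact ⟨u, _, h1, h2, h4, rfl⟩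
  have hc01 : c0 = -1 := by
    rcases sq_eq_one (hB.cc_pow ha0 hb0 hcc0) with h | h
    · exact absurd h hc0
    · exact h
  subst hc01
  have hns0' : ∀ c : Kˣ, b0 ≠ scal K V c := by
    intro c hc
    rw [hc] at hcc0
    exact hc0 (hcc0.unique (CC.scal_right (hB.linb ha0) c))
  obtain ⟨ua, a, ha, ha2, haa, haa'⟩ := H3 ha0 hns0
  obtain ⟨ub, b, hb, hb2, hbb, hbb'⟩ := H3 hb0 hns0'
  have hab : CC (-1 : Kˣ) a b := by
    have h1 : CC (-1 : Kˣ) a0 b := by
      have h2 := CC.mul_right (lin_scal ub⁻¹) (CC.scal_right (hB.linb ha0) ub⁻¹) hcc0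
      rw [one_mul, ← hbb'] at h2
      exact h2
    have h3 := CC.mul_left (lin_scal ua⁻¹) (CC.scal_left (hB.linb hb) ua⁻¹) h1
    rw [one_mul, ← haa'] at h3
    exact h3
  refine ⟨a, ha, b, hb, ha2, hb2, hab, ?_⟩
  have hab2 : (a * b) ^ 2 = scal K V (-1) := by
    rw [CC.mul_pow (hB.linb ha) (hB.linb hb) (show CC (-1 : Kˣ) b a by
      have := hab.symm; rwa [inv_neg, inv_one] at this) 2, ha2, hb2, ← map_mul, ← map_mul]
    congr 1
    have h3 : 2 * (2 - 1) / 2 = 1 := rfl
    rw [h3]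
    simp
  -- an element commuting with `e`, `e ^ 2 = -1`, is in `Z e`
  have H4 : ∀ {x' e : GV V}, x' ∈ B → e ∈ B → x' ^ 2 = scal K V (-1) → e ^ 2 = scal K V (-1) → x' * e = e * x' →
      ∃ c : Kˣ, x' = scal K V c * e := by
    intro x' e hx he hx2 he2 hcomm
    have h1 : (x' * e) ^ 2 = 1 := by
      have h2 : Commute x' e := hcomm
      rw [h2.mul_pow, hx2, he2, ← map_mul, neg_mul_neg, one_mul, map_one]
    have h2 : ∃ c : Kˣ, x' * e = scal K V c := by
      by_contra h3
      push Not at h3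
      exact hno ⟨_, B.mul_mem hx he, h1, h3⟩
    obtain ⟨c, hc⟩ := h2
    refine ⟨-c, ?_⟩
    have h3 : x' * e * e = scal K V c * e := by rw [hc]
    rw [mul_assoc, ← pow_two, he2] at h3
    have h4 : x' = x' * scal K V (-1) * scal K V (-1) := by
      rw [mul_assoc, ← map_mul, neg_mul_neg, one_mul, map_one, mul_one]
    have h5 : (-c : Kˣ) = c * (-1) := by rw [mul_neg_one]
    rw [h4, h3, h5, map_mul, mul_assoc, mul_assoc, (hB.linb he).scal_comm]
  intro x hx
  by_cases hxs : ∃ c : Kˣ, x = scal K V c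
  · obtain ⟨c, hc⟩ := hxs
    exact ⟨c, Or.inl hc⟩
  · push Not at hxs
    obtain ⟨u, x', hx', hx2, hxx, -⟩ := H3 hx hxs
    have fin : ∀ {e : GV V}, e ∈ B → e ^ 2 = scal K V (-1) → x' * e = e * x' → ∃ c : Kˣ, x = scal K V c * e := by
      intro e he he2 hcomm
      obtain ⟨c, hc⟩ := H4 hx' he hx2 he2 hcomm
      exact ⟨u * c, by rw [hxx, hc, map_mul, mul_assoc]⟩
    obtain ⟨e1, h1⟩ := hB.cc hx' ha
    obtain ⟨e2, h2⟩ := hB.cc hx' hb
    rcases sq_eq_one (hB.cc_pow hx' ha h1) with h3 | h3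
    · rw [h3, cc_one_iff] at h1
      obtain ⟨c, hc⟩ := fin ha ha2 h1
      exact ⟨c, Or.inr (Or.inl hc)⟩
    · rcases sq_eq_one (hB.cc_pow hx' hb h2) with h4 | h4
      · rw [h4, cc_one_iff] at h2
        obtain ⟨c, hc⟩ := fin hb hb2 h2
        exact ⟨c, Or.inr (Or.inr (Or.inl hc))⟩
      · have h5 := CC.mul_right (hB.linb ha) h1 h2
        rw [h3, h4, neg_mul_neg, one_mul, cc_one_iff] at h5
        obtain ⟨c, hc⟩ := fin (B.mul_mem ha hb) hab2 h5
        exact ⟨c, Or.inr (Or.inr (Or.inr hc))⟩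

end powr

end Cfsg.Agent.H306.TcEx
end

-- part: H308/TcCent
section
/-!
# S3621, lemma Cent

A linear automorphism commuting with `B` and agreeing with an element of `B` at every vector
is a scalar.
-/

set_option autoImplicit false

namespace Cfsg.Agent.H308.TcCent

open Cfsg.Agent.H412.Tc

universe u

section

variable {K V : Type*} [Field K] [AddCommGroup V] [Module K V]

/-- A linear automorphism for which every vector is an eigenvector is a scalar. -/
theorem scal_of_eig [Nontrivial V] {z : GV V} (hz : Lin K z)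
    (h : ∀ v : V, ∃ c : K, z • v = c • v) : ∃ d : Kˣ, z = scal K V d := by
  obtain ⟨v, hv⟩ := exists_ne (0 : V)
  obtain ⟨a, ha⟩ := h v
  obtain ⟨a', ha'⟩ := unit_of_smul hv ha
  refine ⟨a', GV_ext fun w => ?_⟩
  rw [scal_smul]
  obtain ⟨b, hb⟩ := h w
  obtain ⟨c, hc⟩ := h (v + w)
  by_cases hdep : ∃ t : K, w = t • v
  · obtain ⟨t, rfl⟩ := hdep
    rw [hz, ha', smul_comm]
  · rw [smul_add, ha', hb, smul_add] at hc
    have h1 : (b - c) • w = (c - a') • v := by
      rw [sub_smul, sub_smul]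
      rw [sub_eq_sub_iff_add_eq_add]
      rw [← sub_eq_zero] at hc ⊢
      rw [← hc]
      abel
    have h2 : b - c = 0 := by
      by_contra hne
      apply hdep
      refine ⟨(b - c)⁻¹ * (c - a'), ?_⟩
      rw [mul_smul, ← h1, smul_smul, inv_mul_cancel₀ hne, one_smul]
    rw [h2, zero_smul] at h1
    have h3 : c - a' = 0 := by
      rcases smul_eq_zero.1 h1.symm with h4 | h4
      · exact h4
      · exact absurd h4 hv
    rw [hb, sub_eq_zero.1 h2, sub_eq_zero.1 h3]

/-- The linear automorphisms commuting with `B` and locally in `B`. -/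
def PC (K : Type*) {V : Type*} [Field K] [AddCommGroup V] [Module K V]
    (B : Subgroup (GV V)) : Subgroup (GV V) where
  carrier := {c | Lin K c ∧ (∀ b ∈ B, c * b = b * c) ∧ ∀ v : V, ∃ b ∈ B, c • v = b • v}
  mul_mem' := by
    rintro c c' ⟨h1, h2, h3⟩ ⟨h1', h2', h3'⟩
    refine ⟨h1.mul h1', fun b hb => ?_, fun v => ?_⟩
    · rw [mul_assoc, h2' b hb, ← mul_assoc, h2 b hb, mul_assoc]
    · obtain ⟨b', hb', e'⟩ := h3' v
      obtain ⟨b, hb, e⟩ := h3 v
      refine ⟨b' * b, B.mul_mem hb' hb, ?_⟩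
      rw [mul_smul, e', ← mul_smul, h2 b' hb', mul_smul, e, mul_smul]
  one_mem' := ⟨Lin.one, fun b _ => by rw [one_mul, mul_one], fun v => ⟨1, B.one_mem, rfl⟩⟩
  inv_mem' := by
    rintro c ⟨h1, h2, h3⟩
    refine ⟨h1.inv, fun b hb => ?_, fun v => ?_⟩
    · have := h2 b hb
      calc c⁻¹ * b = c⁻¹ * (b * c) * c⁻¹ := by group
        _ = c⁻¹ * (c * b) * c⁻¹ := by rw [this]
        _ = b * c⁻¹ := by group
    · obtain ⟨b, hb, e⟩ := h3 (c⁻¹ • v)
      refine ⟨b⁻¹, B.inv_mem hb, ?_⟩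
      rw [smul_inv_smul] at e
      rw [eq_inv_smul_iff, ← e]

theorem mem_PC {B : Subgroup (GV V)} {c : GV V} : c ∈ PC K B ↔
    Lin K c ∧ (∀ b ∈ B, c * b = b * c) ∧ ∀ v : V, ∃ b ∈ B, c • v = b • v := Iff.rfl

theorem PC_conj {A B : Subgroup (GV V)} (hn : ∀ g ∈ A, ∀ b ∈ B, g * b * g⁻¹ ∈ B)
    {g : GV V} (hg : g ∈ A) (hs : Semi K g) {c : GV V} (hc : c ∈ PC K B) :
    g * c * g⁻¹ ∈ PC K B := by
  obtain ⟨h1, h2, h3⟩ := hc
  obtain ⟨σ, hσ⟩ := hs
  refine ⟨fun d v => ?_, fun b hb => ?_, fun v => ?_⟩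
  · have h4 : g⁻¹ • d • v = (σ.symm d) • g⁻¹ • v := by
      rw [inv_smul_eq_iff, hσ, RingEquiv.apply_symm_apply, smul_inv_smul]
    rw [mul_smul, mul_smul, h4, h1, hσ, RingEquiv.apply_symm_apply, mul_smul, mul_smul]
  · have h4 := hn g⁻¹ (A.inv_mem hg) b hb
    rw [inv_inv] at h4
    have h5 := h2 _ h4
    calc g * c * g⁻¹ * b = g * (c * (g⁻¹ * b * g)) * g⁻¹ := by group
      _ = g * (g⁻¹ * b * g * c) * g⁻¹ := by rw [h5]
      _ = _ := by group
  · obtain ⟨b, hb, e⟩ := h3 (g⁻¹ • v)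
    refine ⟨g * b * g⁻¹, hn g hg b hb, ?_⟩
    rw [mul_smul, mul_smul, e, mul_smul, mul_smul]

end

section

variable {K V : Type u} [Field K] [Finite K] [AddCommGroup V] [Finite V] [Module K V]
  {A B : Subgroup (GV V)} {r : ℕ}

/-- The subring generated by `B`. -/
def RB (B : Subgroup (GV V)) : Subring (AddMonoid.End V) :=
  Subring.closure {x | ∃ b ∈ B, x = (b : AddMonoid.End V)}

omit [Finite V] in
theorem comm_RB {c : GV V} (hc : ∀ b ∈ B, c * b = b * c) :
    ∀ x ∈ RB B, (c : AddMonoid.End V) * x = x * c := by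
  intro x hx
  induction hx using Subring.closure_induction with
  | mem x hx =>
    obtain ⟨b, hb, rfl⟩ := hx
    exact congrArg Units.val (hc b hb)
  | zero => rw [mul_zero, zero_mul]
  | one => rw [mul_one, one_mul]
  | add x y _ _ h1 h2 => rw [mul_add, add_mul, h1, h2]
  | neg x _ h1 => rw [mul_neg, neg_mul, h1]
  | mul x y _ _ h1 h2 => rw [← mul_assoc, h1, mul_assoc, h2, mul_assoc]

/-- The restriction of an element of `PC` to an `RB`-submodule. -/
noncomputable def res (W : Submodule (RB B) V) {c : GV V} (hc : c ∈ PC K B) :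
    Module.End (RB B) W where
  toFun w := ⟨c • (w : V), by
    obtain ⟨b, hb, e⟩ := hc.2.2 w
    rw [e]
    exact W.smul_mem (⟨(b : AddMonoid.End V), Subring.subset_closure ⟨b, hb, rfl⟩⟩ : RB B) w.2⟩
  map_add' x y := Subtype.ext (smul_add c (x : V) (y : V))
  map_smul' x y := by
    apply Subtype.ext
    have h1 := comm_RB hc.2.1 x x.2
    exact congrArg (fun f : AddMonoid.End V => f (y : V)) h1

omit [Finite K] in
theorem comm_PC [Nontrivial V] (hB : Heis K V r B) {c c' : GV V} (hc : c ∈ PC K B)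
    (hc' : c' ∈ PC K B) : c * c' = c' * c := by
  classical
  -- scalar commutator
  have h1 : ∀ v : V, ∃ e : K, (c' * c * (c * c')⁻¹) • v = e • v := by
    intro v
    set w := (c * c')⁻¹ • v with hw
    have hv : v = (c * c') • w := by rw [hw, smul_inv_smul]
    obtain ⟨b, hb, e⟩ := hc.2.2 w
    obtain ⟨b', hb', e'⟩ := hc'.2.2 w
    obtain ⟨d, hd⟩ := hB.cc hb hb'
    refine ⟨d, ?_⟩
    rw [mul_smul, ← hw, hv, mul_smul, mul_smul, e, e', ← mul_smul, hc'.2.1 b hb, mul_smul, e',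
      ← mul_smul c b', hc.2.1 b' hb', mul_smul b' c, e, hd.smul]
  obtain ⟨ζ, hζ⟩ := scal_of_eig ((hc'.1.mul hc.1).mul (hc.1.mul hc'.1).inv) h1
  -- a simple submodule
  obtain ⟨W, hW⟩ : ∃ W : Submodule (RB B) V, IsAtom W := by
    have : IsAtomic (Submodule (RB B) V) := inferInstance
    have hne : (⊤ : Submodule (RB B) V) ≠ ⊥ := top_ne_bot
    rcases eq_bot_or_exists_atom_le (⊤ : Submodule (RB B) V) with h | ⟨W, hW, -⟩
    · exact absurd h hne
    · exact ⟨W, hW⟩
  have hWs : IsSimpleModule (RB B) W := isSimpleModule_iff_isAtom.2 hW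
  have hfin : Finite (Module.End (RB B) W) :=
    Finite.of_injective (fun f : Module.End (RB B) W => (f : W → W)) DFunLike.coe_injective
  have hcomm : ∀ x y : Module.End (RB B) W, x * y = y * x := by
    let _ : Field (Module.End (RB B) W) := littleWedderburn _
    exact fun x y => mul_comm x y
  obtain ⟨w, hw, hw0⟩ := (Submodule.ne_bot_iff W).1 hW.1
  have h2 := congrArg (fun f : Module.End (RB B) W => ((f ⟨w, hw⟩ : W) : V))
    (hcomm (res W hc) (res W hc'))
  have h3 : c • c' • w = c' • c • w := h2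
  have h4 : c' • c • w = (ζ : K) • c • c' • w := by
    rw [← mul_smul, ← mul_smul, ← scal_smul, ← mul_smul, ← hζ]
    congr 1
    group
  have h5 : ζ = 1 := by
    rw [h3] at h4
    have h6 : c' • c • w ≠ 0 := by
      rw [ne_eq, smul_eq_zero_iff_eq, smul_eq_zero_iff_eq]
      exact hw0
    have h7 : (1 : K) • c' • c • w = (ζ : K) • c' • c • w := by rw [one_smul]; exact h4
    exact Units.ext (smul_left_injective K h6 h7).symm
  rw [h5, map_one, mul_inv_eq_one] at hζ
  exact hζ.symm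

theorem Cent.main (S : SetB K V A B r) (c : GV V) (hc : Lin K c)
    (hcb : ∀ b ∈ B, c * b = b * c) (hv : ∀ v : V, ∃ b ∈ B, c • v = b • v) :
    ∃ d : Kˣ, c = scal K V d := by
  have : Nontrivial V := by
    rw [← Finite.one_lt_card_iff_nontrivial]
    have := S.card
    omega
  have hmem : c ∈ PC K B := ⟨hc, hcb, hv⟩
  have hcomm : ∀ x ∈ PC K B, ∀ y ∈ PC K B, x * y = y * x :=
    fun x hx y hy => comm_PC S.heis hx hy
  have h1 := S.max (RB (PC K B)) ?_ ?_ ?_ (c : AddMonoid.End V)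
    (Subring.subset_closure ⟨c, hmem, rfl⟩)
  · obtain ⟨d, hd⟩ := h1
    have hd0 : d ≠ 0 := by
      rintro rfl
      obtain ⟨v, hv⟩ := exists_ne (0 : V)
      have h2 : c • v = (0 : V) := by
        have h3 := congrArg (fun f : AddMonoid.End V => f v) hd
        have h4 : c • v = (0 : K) • v := h3
        rw [h4, zero_smul]
      exact hv ((smul_eq_zero_iff_eq c).1 h2)
    exact ⟨Units.mk0 d hd0, Units.ext hd⟩
  · intro a ha b hb
    induction ha using Subring.closure_induction with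
    | mem x hx =>
      obtain ⟨x, hx, rfl⟩ := hx
      exact comm_RB (hcomm x hx) b hb
    | zero => rw [mul_zero, zero_mul]
    | one => rw [mul_one, one_mul]
    | add x y _ _ h1 h2 => rw [mul_add, add_mul, h1, h2]
    | neg x _ h1 => rw [mul_neg, neg_mul, h1]
    | mul x y _ _ h1 h2 => rw [mul_assoc, h2, ← mul_assoc, h1, mul_assoc]
  · intro g hg x hx
    have hgg : ((g⁻¹ : GV V) : AddMonoid.End V) * (g : AddMonoid.End V) = 1 := by
      rw [← Units.val_mul, inv_mul_cancel, Units.val_one]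
    have hgg' : (g : AddMonoid.End V) * ((g⁻¹ : GV V) : AddMonoid.End V) = 1 := by
      rw [← Units.val_mul, mul_inv_cancel, Units.val_one]
    induction hx using Subring.closure_induction with
    | mem x hx =>
      obtain ⟨x, hx, rfl⟩ := hx
      exact Subring.subset_closure ⟨g * x * g⁻¹, PC_conj S.norm hg (S.semi g hg) hx, rfl⟩
    | zero => rw [mul_zero, zero_mul]; exact Subring.zero_mem _
    | one => rw [mul_one, hgg']; exact Subring.one_mem _
    | add x y _ _ h1 h2 => rw [mul_add, add_mul]; exact Subring.add_mem _ h1 h2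
    | neg x _ h1 => rw [mul_neg, neg_mul]; exact Subring.neg_mem _ h1
    | mul x y _ _ h1 h2 =>
      have : (g : AddMonoid.End V) * (x * y) * ((g⁻¹ : GV V) : AddMonoid.End V) =
          ((g : AddMonoid.End V) * x * ((g⁻¹ : GV V) : AddMonoid.End V)) *
          ((g : AddMonoid.End V) * y * ((g⁻¹ : GV V) : AddMonoid.End V)) := by
        calc _ = (g : AddMonoid.End V) * x * 1 * y * ((g⁻¹ : GV V) : AddMonoid.End V) := by
              rw [mul_one]; simp only [mul_assoc]
          _ = _ := by rw [← hgg]; simp only [mul_assoc]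
      rw [this]
      exact Subring.mul_mem _ h1 h2
  · intro d
    by_cases hd : d = 0
    · rw [hd, map_zero]
      exact Subring.zero_mem _
    · refine Subring.subset_closure ⟨scal K V (Units.mk0 d hd), ⟨lin_scal _, fun b hb => ?_,
        fun v => ⟨_, S.heis.scal_mem _, rfl⟩⟩, rfl⟩
      exact ((S.heis.linb hb).scal_comm _).symm

end

end Cfsg.Agent.H308.TcCent
end

-- part: H308/TcDual
section
/-!
# S3621, lemma Dual

A linear automorphism which commutes with every element of `B` up to scalars and agrees with an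
element of `B` at every vector lies in `B`.
-/

set_option autoImplicit false

namespace Cfsg.Agent.H308.TcDual

open Cfsg.Agent.H412.Tc

universe u

section

variable {K V : Type*} [Field K] [AddCommGroup V] [Module K V] {B : Subgroup (GV V)} {r : ℕ}

/-- The character of `B` given by the scalar commutators with `a`. -/
noncomputable def chi [Nontrivial V] (hB : Heis K V r B) (a : GV V)
    (h : ∀ b ∈ B, ∃ c : Kˣ, CC c b a) : ↥B →* Kˣ where
  toFun b := (h b b.2).choose
  map_one' := (h 1 B.one_mem).choose_spec.unique (cc_one_iff.2 (by rw [one_mul, mul_one]))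
  map_mul' x y := (h (x * y) (B.mul_mem x.2 y.2)).choose_spec.unique
    (CC.mul_left (hB.linb x.2) (h x x.2).choose_spec (h y y.2).choose_spec)

theorem chi_spec [Nontrivial V] (hB : Heis K V r B) (a : GV V)
    (h : ∀ b ∈ B, ∃ c : Kˣ, CC c b a) (b : ↥B) : CC (chi hB a h b) (b : GV V) a :=
  (h b b.2).choose_spec

theorem chi_unique [Nontrivial V] (hB : Heis K V r B) (a : GV V)
    (h : ∀ b ∈ B, ∃ c : Kˣ, CC c b a) (b : ↥B) {c : Kˣ} (hc : CC c (b : GV V) a) :
    chi hB a h b = c := (chi_spec hB a h b).unique hc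

/-- The scalars in `B`. -/
def Zs (K : Type*) {V : Type*} [Field K] [AddCommGroup V] [Module K V]
    (B : Subgroup (GV V)) : Subgroup ↥B := (scal K V).range.subgroupOf B

theorem mem_Zs {x : ↥B} : x ∈ Zs K B ↔ ∃ c : Kˣ, scal K V c = (x : GV V) := Iff.rfl

theorem Zs_normal (hB : Heis K V r B) : (Zs K B).Normal := by
  refine ⟨fun x hx g => ?_⟩
  obtain ⟨c, hc⟩ := mem_Zs.1 hx
  refine mem_Zs.2 ⟨c, ?_⟩
  change scal K V c = (g : GV V) * x * (g : GV V)⁻¹
  rw [← hc, (hB.linb g.2).scal_comm, mul_inv_cancel_right]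

end

section

variable {K V : Type u} [Field K] [Finite K] [AddCommGroup V] [Finite V] [Module K V]
  {A B : Subgroup (GV V)} {r : ℕ}

omit [Finite K] in
theorem exists_eq [Nontrivial V] (hB : Heis K V r B) (hns : ∃ b ∈ B, ∀ c : Kˣ, b ≠ scal K V c)
    (y : GV V) (hy : Lin K y) (hcc : ∀ b ∈ B, ∃ c : Kˣ, CC c b y) :
    ∃ a ∈ B, ∀ b ∈ B, ∀ c : Kˣ, CC c b y → CC c b a := by
  classical
  have hN := Zs_normal (K := K) hB
  have hfE : Finite (AddMonoid.End V) := DFunLike.finite _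
  have hfG : Finite (GV V) := inferInstance
  have hfB : Finite ↥B := inferInstance
  let Q := ↥B ⧸ Zs K B
  let _ : CommGroup Q := { (inferInstance : Group Q) with
    mul_comm := by
      intro x y
      obtain ⟨x, rfl⟩ := QuotientGroup.mk_surjective x
      obtain ⟨y, rfl⟩ := QuotientGroup.mk_surjective y
      obtain ⟨c, hc⟩ := hB.cc x.2 y.2
      change ((x * y : ↥B) : ↥B ⧸ Zs K B) = ((y * x : ↥B) : ↥B ⧸ Zs K B)
      rw [eq_comm, QuotientGroup.eq]
      refine mem_Zs.2 ⟨c, ?_⟩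
      change scal K V c = ((y : GV V) * x)⁻¹ * (x * y)
      rw [hc, eq_inv_mul_iff_mul_eq, ((hB.linb y.2).mul (hB.linb x.2)).scal_comm] }
  have hexp : Monoid.exponent Q ∣ r := by
    rw [Monoid.exponent_dvd_iff_forall_pow_eq_one]
    intro x
    obtain ⟨x, rfl⟩ := QuotientGroup.mk_surjective x
    obtain ⟨c, hc⟩ := hB.pow x x.2
    change ((x ^ r : ↥B) : ↥B ⧸ Zs K B) = 1
    rw [QuotientGroup.eq_one_iff]
    exact mem_Zs.2 ⟨c, hc.symm⟩
  have hroot : HasEnoughRootsOfUnity K r := by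
    obtain ⟨b, hb, hb'⟩ := hns
    obtain ⟨ω, hω, hω'⟩ := hB.exists_root hb hb'
    have : NeZero r := ⟨hB.prime.ne_zero⟩
    exact ⟨⟨ω, primitive hB.prime hω hω'⟩, inferInstance⟩
  have : NeZero r := ⟨hB.prime.ne_zero⟩
  have hroot' : HasEnoughRootsOfUnity K (Monoid.exponent Q) :=
    HasEnoughRootsOfUnity.of_dvd K hexp
  have hcard : Nat.card (Q →* Kˣ) = Nat.card Q :=
    CommGroup.card_monoidHom_of_hasEnoughRootsOfUnity Q K
  have htriv : ∀ (a : GV V) (h : ∀ b ∈ B, ∃ c : Kˣ, CC c b a), Lin K a →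
      Zs K B ≤ (chi hB a h).ker := by
    intro a h ha x hx
    obtain ⟨c, hc⟩ := mem_Zs.1 hx
    rw [MonoidHom.mem_ker]
    apply chi_unique
    rw [← hc]
    exact CC.scal_left ha c
  have hB' : ∀ a ∈ B, ∀ b ∈ B, ∃ c : Kˣ, CC c b a := fun a ha b hb => hB.cc hb ha
  let Φ : ↥B →* (Q →* Kˣ) :=
    { toFun := fun a => QuotientGroup.lift (Zs K B) (chi hB a (hB' a a.2))
        (htriv a _ (hB.linb a.2))
      map_one' := by
        apply MonoidHom.ext
        intro x
        obtain ⟨x, rfl⟩ := QuotientGroup.mk_surjective x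
        change chi hB ((1 : ↥B) : GV V) (hB' _ (1 : ↥B).2) x = 1
        exact chi_unique hB _ _ x (cc_one_iff.2 (by
          change (x : GV V) * 1 = 1 * x
          rw [one_mul, mul_one]))
      map_mul' := by
        intro a b
        apply MonoidHom.ext
        intro x
        obtain ⟨x, rfl⟩ := QuotientGroup.mk_surjective x
        change chi hB ((a * b : ↥B) : GV V) (hB' _ (a * b : ↥B).2) x =
          chi hB a (hB' a a.2) x * chi hB b (hB' b b.2) x
        exact chi_unique hB _ _ x (CC.mul_right (hB.linb a.2) (chi_spec hB a (hB' a a.2) x)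
          (chi_spec hB b (hB' b b.2) x)) }
  have hker : Φ.ker = Zs K B := by
    ext a
    rw [MonoidHom.mem_ker]
    constructor
    · intro h
      obtain ⟨c, hc⟩ := hB.cent a a.2 (fun b hb => by
        have h1 := chi_spec hB a (hB' a a.2) ⟨b, hb⟩
        have h2 : chi hB a (hB' a a.2) ⟨b, hb⟩ = 1 :=
          DFunLike.congr_fun h ((⟨b, hb⟩ : ↥B) : ↥B ⧸ Zs K B)
        rw [h2] at h1
        exact (cc_one_iff.1 h1).symm)
      exact mem_Zs.2 ⟨c, hc.symm⟩
    · intro h
      obtain ⟨c, hc⟩ := mem_Zs.1 h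
      apply MonoidHom.ext
      intro x
      obtain ⟨x, rfl⟩ := QuotientGroup.mk_surjective x
      change chi hB (a : GV V) (hB' a a.2) x = 1
      apply chi_unique
      have h5 := CC.scal_right (hB.linb x.2) c
      rw [hc] at h5
      exact h5
  have hsurj : Φ.range = ⊤ := by
    apply Subgroup.eq_top_of_card_eq
    rw [hcard, ← Nat.card_congr (QuotientGroup.quotientKerEquivRange Φ).toEquiv, hker]
  have h1 : QuotientGroup.lift (Zs K B) (chi hB y hcc) (htriv y hcc hy) ∈ Φ.range := by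
    rw [hsurj]; trivial
  obtain ⟨a, ha⟩ := h1
  refine ⟨a, a.2, fun b hb c hc => ?_⟩
  have h2 : chi hB a (hB' a a.2) ⟨b, hb⟩ = chi hB y hcc ⟨b, hb⟩ :=
    DFunLike.congr_fun ha ((⟨b, hb⟩ : ↥B) : ↥B ⧸ Zs K B)
  have h3 := chi_unique hB y hcc ⟨b, hb⟩ hc
  rw [h3] at h2
  rw [← h2]
  exact chi_spec hB a (hB' a a.2) ⟨b, hb⟩

theorem Dual.main (S : SetB K V A B r)
    (hcent : ∀ c : GV V, Lin K c → (∀ b ∈ B, c * b = b * c) →
      (∀ v : V, ∃ b ∈ B, c • v = b • v) → ∃ d : Kˣ, c = scal K V d)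
    {y : GV V} (hy : Lin K y)
    (hv : ∀ v : V, ∃ b ∈ B, y • v = b • v) (hcc : ∀ b ∈ B, ∃ c : Kˣ, CC c b y) : y ∈ B := by
  have : Nontrivial V := by
    rw [← Finite.one_lt_card_iff_nontrivial]
    have := S.card
    omega
  obtain ⟨a, ha, h⟩ := exists_eq S.heis S.ns y hy hcc
  obtain ⟨d, hd⟩ := hcent (a⁻¹ * y) ((S.heis.linb ha).inv.mul hy) (fun b hb => by
    obtain ⟨c, hc⟩ := hcc b hb
    have h1 := h b hb c hc
    unfold CC at hc h1
    have hl := S.heis.linb hb
    -- a⁻¹ y b = b a⁻¹ y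
    have h2 : a⁻¹ * b = scal K V c * (b * a⁻¹) := by
      have h3 : b * a = scal K V c * (a * b) := h1
      have h4 : a * (scal K V c * (b * a⁻¹)) = b := by
        rw [← mul_assoc, (S.heis.linb ha).scal_comm, mul_assoc, ← mul_assoc a b, ← mul_assoc,
          ← h3, mul_inv_cancel_right]
      rw [inv_mul_eq_iff_eq_mul, h4]
    have h5 : y * b = (scal K V c)⁻¹ * (b * y) := by
      rw [eq_inv_mul_iff_mul_eq, hc]
    have h6 : a⁻¹ * (scal K V c)⁻¹ = (scal K V c)⁻¹ * a⁻¹ := by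
      rw [← map_inv]
      exact (S.heis.linb ha).inv.scal_comm _
    rw [mul_assoc, h5, ← mul_assoc, h6, mul_assoc, ← mul_assoc a⁻¹ b, h2, ← mul_assoc,
      ← mul_assoc, inv_mul_cancel, one_mul, ← mul_assoc]) (fun v => by
    obtain ⟨b, hb, e⟩ := hv v
    exact ⟨a⁻¹ * b, B.mul_mem (B.inv_mem ha) hb, by rw [mul_smul, e, mul_smul]⟩)
  have h7 : y = a * scal K V d := by rw [← hd, mul_inv_cancel_left]
  rw [h7]
  exact B.mul_mem ha (S.heis.scal_mem d)

end

end Cfsg.Agent.H308.TcDual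
end

-- part: H102/TcSing
section
/-!
# S3621, lemma Sing (helper102 for helper412)

A `K`-linear `y` agreeing pointwise with the Heisenberg group `B`, with scalar `r`-th power, commutes up to a scalar with
every nonscalar `x ∈ B` of order `r`.
-/

set_option autoImplicit false

namespace Cfsg.Agent.H102.TcSing

open Cfsg.Agent.H412.Tc

universe u

section

variable {K V : Type*} [Field K] [AddCommGroup V] [Module K V]

theorem eig_unique {w : V} (hw : w ≠ 0) {a b : Kˣ} {t : V} (h1 : t = (a : K) • w) (h2 : t = (b : K) • w) : a = b := by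
  rw [h1] at h2
  exact Units.ext (smul_left_injective K hw h2)

theorem smul_ne {g : GV V} {v : V} (hv : v ≠ 0) : g • v ≠ 0 := fun h => hv ((smul_eq_zero_iff_eq g).1 h)

/-- a sum of eigenvectors for different eigenvalues is not an eigenvector -/
theorem false_of_sum {x : GV V} (hx : Lin K x) {v w : V} (hv : v ≠ 0) (hw : w ≠ 0) {a b c : Kˣ} (hab : a ≠ b)
    (h1 : x • v = (a : K) • v) (h2 : x • w = (b : K) • w) (h3 : x • (v + w) = (c : K) • (v + w)) : False := by
  rw [smul_add, h1, h2, smul_add] at h3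
  have h4 : ((a : K) - c) • v = ((c : K) - b) • w := by
    rw [sub_smul, sub_smul]
    have : (a : K) • v + (b : K) • w = (c : K) • v + (c : K) • w := h3
    rw [sub_eq_sub_iff_add_eq_add]
    rw [this, add_comm]
  have h5 : x • (((a : K) - c) • v) = (a : K) • (((a : K) - c) • v) := by
    rw [hx, h1, smul_comm]
  have h6 : x • (((a : K) - c) • v) = (b : K) • (((a : K) - c) • v) := by
    rw [h4, hx, h2, smul_comm]
  have h7 : ((a : K) - c) • v = 0 := by
    by_contra hne
    exact hab (eig_unique hne h5 h6)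
  have h8 : ((c : K) - b) • w = 0 := by rw [← h4, h7]
  have h9 : (a : K) - c = 0 := (smul_eq_zero.1 h7).resolve_right hv
  have h10 : (c : K) - b = 0 := (smul_eq_zero.1 h8).resolve_right hw
  exact hab (Units.ext ((sub_eq_zero.1 h9).trans (sub_eq_zero.1 h10)))

theorem Pr_add (r : ℕ) (y : GV V) (ζ : Kˣ) (v w : V) : Pr r y ζ (v + w) = Pr r y ζ v + Pr r y ζ w := by
  unfold Pr
  rw [← Finset.sum_add_distrib]
  refine Finset.sum_congr rfl fun j _ => ?_
  rw [smul_add, smul_add]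

/-- comparison of eigenvector decompositions -/
theorem match_two {r : ℕ} (hr : (r : K) ≠ 0) {x : GV V} (hx : Lin K x) {v w v' w' : V} (hv' : v' ≠ 0)
    (hw' : w' ≠ 0) {a b c d : Kˣ} (ha : a ^ r = 1) (hb : b ^ r = 1) (hc : c ^ r = 1) (hd : d ^ r = 1) (hcd : c ≠ d)
    (h1 : x • v = (a : K) • v) (h2 : x • w = (b : K) • w) (h3 : x • v' = (c : K) • v') (h4 : x • w' = (d : K) • w')
    (h : v + w = v' + w') : (a = c ∧ b = d) ∨ (a = d ∧ b = c) := by
  have k1 := congrArg (Pr r x c) h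
  have k2 := congrArg (Pr r x d) h
  rw [Pr_add, Pr_add, Pr_eig_self hx h3, Pr_eig_ne hx hc hd hcd h4, add_zero] at k1
  rw [Pr_add, Pr_add, Pr_eig_self hx h4, Pr_eig_ne hx hd hc hcd.symm h3, zero_add] at k2
  have e1 : a = c ∨ b = c := by
    by_contra hcon
    push Not at hcon
    rw [Pr_eig_ne hx hc ha hcon.1.symm h1, Pr_eig_ne hx hc hb hcon.2.symm h2, add_zero] at k1
    exact (smul_ne_zero hr hv') k1.symm
  have e2 : a = d ∨ b = d := by
    by_contra hcon
    push Not at hcon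
    rw [Pr_eig_ne hx hd ha hcon.1.symm h1, Pr_eig_ne hx hd hb hcon.2.symm h2, add_zero] at k2
    exact (smul_ne_zero hr hw') k2.symm
  rcases e1 with rfl | rfl
  · rcases e2 with rfl | rfl
    · exact absurd rfl hcd
    · exact Or.inl ⟨rfl, rfl⟩
  · rcases e2 with rfl | rfl
    · exact Or.inr ⟨rfl, rfl⟩
    · exact absurd rfl hcd

/-- linear maps agreeing on all eigenspaces agree -/
theorem ext_of_eig {r : ℕ} (hr1 : 1 < r) (hr : (r : K) ≠ 0) {ω : Kˣ} (hω : IsPrimitiveRoot (ω : K) r) {x g h : GV V}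
    (hx : Lin K x) (hxr : x ^ r = 1) (hg : Lin K g) (hh : Lin K h)
    (H : ∀ ζ : Kˣ, ζ ^ r = 1 → ∀ v : V, x • v = (ζ : K) • v → g • v = h • v) : g = h := by
  have hωr : ω ^ r = 1 := Units.ext (by rw [Units.val_pow_eq_pow_val, hω.pow_eq_one, Units.val_one])
  refine GV_ext fun v => ?_
  have h1 : g • ((r : K) • v) = h • ((r : K) • v) := by
    rw [← sum_Pr hω hr1 x v, Finset.smul_sum, Finset.smul_sum]
    refine Finset.sum_congr rfl fun i _ => ?_
    have h2 : (ω ^ i) ^ r = 1 := by rw [← pow_mul, mul_comm, pow_mul, hωr, one_pow]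
    exact H (ω ^ i) h2 _ (Pr_mem hx hxr h2 v)
  rw [hg, hh] at h1
  exact smul_right_injective V hr h1

end

variable {K V : Type u} [Field K] [Finite K] [AddCommGroup V] [Finite V] [Module K V]
  {A B : Subgroup (GV V)} {r : ℕ}

theorem Sing.main (S : SetB K V A B r) {x y : GV V} (hx : x ∈ B) (hxr : x ^ r = 1)
    (hns : ∀ c : Kˣ, x ≠ scal K V c) (hy : Lin K y) (hyr : ∃ c : Kˣ, y ^ r = scal K V c)
    (hv : ∀ v : V, ∃ b ∈ B, y • v = b • v) : ∃ c : Kˣ, CC c x y := by
  have hB := S.heis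
  have hnt : Nontrivial V := by
    rw [← Finite.one_lt_card_iff_nontrivial]
    have := S.card
    omega
  obtain ⟨ω, hω1, hωr⟩ := hB.exists_root hx hns
  have hprim := primitive hB.prime hω1 hωr
  have hr0 := prime_ne_zero hB.prime hω1 hωr
  have hr1 := hB.prime.one_lt
  have hxl := hB.linb hx
  -- nonzero eigenspaces
  have hne : ∀ ζ : Kˣ, ζ ^ r = 1 → ∃ v : V, v ≠ 0 ∧ x • v = (ζ : K) • v := by
    intro ζ hζ
    obtain ⟨v, hv0⟩ := exists_ne (0 : V)
    obtain ⟨i, -, hi⟩ := exists_Pr_ne hprim hr1 hr0 x hv0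
    have h2 : (ω ^ i) ^ r = 1 := by rw [← pow_mul, mul_comm, pow_mul, hωr, one_pow]
    have h3 := Pr_mem hxl hxr h2 v
    obtain ⟨b, hb, hcc⟩ := hB.exists_cc_eq hx hns (ζ := ζ * (ω ^ i)⁻¹) (by rw [mul_pow, inv_pow, h2, hζ, inv_one, one_mul])
    refine ⟨b • Pr r x (ω ^ i) v, smul_ne hi, ?_⟩
    rw [hcc.smul, h3, hB.linb hb, smul_smul, ← Units.val_mul, inv_mul_cancel_right]
  -- pointwise
  have hpt : ∀ (ζ : Kˣ), ζ ^ r = 1 → ∀ v : V, x • v = (ζ : K) • v → ∃ c : Kˣ, c ^ r = 1 ∧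
      x • y • v = ((c * ζ : Kˣ) : K) • y • v := by
    intro ζ hζ v hxv
    obtain ⟨b, hb, hyb⟩ := hv v
    obtain ⟨c, hc⟩ := hB.cc hx hb
    refine ⟨c, hB.cc_pow hx hb hc, ?_⟩
    rw [hyb, hc.smul, hxv, hB.linb hb, smul_smul, ← Units.val_mul]
  have hf : ∀ ζ : Kˣ, ∃ ζ' : Kˣ, ζ ^ r = 1 → ζ' ^ r = 1 ∧
      ∀ v : V, x • v = (ζ : K) • v → x • y • v = (ζ' : K) • y • v := by
    intro ζ
    by_cases hζ : ζ ^ r = 1
    · obtain ⟨v, hv0, hxv⟩ := hne ζ hζ
      obtain ⟨c, hcr, hc⟩ := hpt ζ hζ v hxv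
      refine ⟨c * ζ, fun _ => ⟨by rw [mul_pow, hcr, hζ, one_mul], fun w hxw => ?_⟩⟩
      by_cases hw0 : w = 0
      · rw [hw0, smul_zero, smul_zero, smul_zero]
      obtain ⟨d, hdr, hd⟩ := hpt ζ hζ w hxw
      by_cases hcd : c * ζ = d * ζ
      · rw [hcd]; exact hd
      · exfalso
        obtain ⟨e, her, he⟩ := hpt ζ hζ (v + w) (by rw [smul_add, hxv, hxw, smul_add])
        rw [smul_add y] at he
        exact false_of_sum hxl (smul_ne hv0) (smul_ne hw0) hcd hc hd he
    · exact ⟨1, fun h => absurd h hζ⟩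
  choose f hf using hf
  -- comparison of two eigenvalues
  have hcmp : ∀ ζ ζ' : Kˣ, ζ ^ r = 1 → ζ' ^ r = 1 → ζ ≠ ζ' → f ζ * ζ' = f ζ' * ζ ∨ f ζ * ζ = f ζ' * ζ' := by
    intro ζ ζ' hζ hζ' hne'
    obtain ⟨v, hv0, hxv⟩ := hne ζ hζ
    obtain ⟨w, hw0, hxw⟩ := hne ζ' hζ'
    obtain ⟨b, hb, hyb⟩ := hv (v + w)
    obtain ⟨c, hc⟩ := hB.cc hx hb
    have hcr := hB.cc_pow hx hb hc
    have h3 : x • b • v = ((c * ζ : Kˣ) : K) • b • v := by
      rw [hc.smul, hxv, hB.linb hb, smul_smul, ← Units.val_mul]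
    have h4 : x • b • w = ((c * ζ' : Kˣ) : K) • b • w := by
      rw [hc.smul, hxw, hB.linb hb, smul_smul, ← Units.val_mul]
    rw [smul_add, smul_add] at hyb
    have h5 := match_two hr0 hxl (smul_ne hv0) (smul_ne hw0) (hf ζ hζ).1 (hf ζ' hζ').1
      (by rw [mul_pow, hcr, hζ, one_mul]) (by rw [mul_pow, hcr, hζ', one_mul]) (fun h => hne' (mul_left_cancel h))
      ((hf ζ hζ).2 v hxv) ((hf ζ' hζ').2 w hxw) h3 h4 hyb
    rcases h5 with ⟨h6, h7⟩ | ⟨h6, h7⟩
    · left; rw [h6, h7, mul_assoc, mul_assoc, mul_comm ζ]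
    · right; rw [h6, h7, mul_assoc, mul_assoc, mul_comm ζ]
  have htype : ∀ ζ : Kˣ, ζ ^ r = 1 → f ζ = f 1 * ζ ∨ f ζ = f 1 * ζ⁻¹ := by
    intro ζ hζ
    by_cases h1 : ζ = 1
    · left; rw [h1, mul_one]
    · rcases hcmp ζ 1 hζ (one_pow r) h1 with h2 | h2
      · left; rw [← h2, mul_one]
      · right; rw [mul_one] at h2; rw [← h2, mul_inv_cancel_right]
  -- the first case
  have hfirst : (∀ ζ : Kˣ, ζ ^ r = 1 → f ζ = f 1 * ζ) → ∃ c : Kˣ, CC c x y := by
    intro hall
    refine ⟨f 1, ?_⟩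
    refine ext_of_eig hr1 hr0 hprim hxl hxr (hxl.mul hy) ((lin_scal _).mul (hy.mul hxl)) fun ζ hζ v hxv => ?_
    rw [mul_smul, (hf ζ hζ).2 v hxv, hall ζ hζ, mul_smul, mul_smul, hxv, hy, scal_smul, smul_smul, ← Units.val_mul]
  by_cases h2 : r = 2
  · refine hfirst fun ζ hζ => ?_
    have h3 : ζ⁻¹ = ζ := by
      rw [inv_eq_iff_mul_eq_one, ← pow_two, ← h2, hζ]
    rcases htype ζ hζ with h | h
    · exact h
    · rw [h, h3]
  have hodd : Odd r := hB.prime.odd_of_ne_two h2
  have hsq : ∀ ζ : Kˣ, ζ ^ r = 1 → ζ * ζ = 1 → ζ = 1 := by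
    intro ζ hζ hζ2
    obtain ⟨k, hk⟩ := hodd
    have h3 : ζ ^ r = ζ := by
      rw [hk, pow_succ, pow_mul, pow_two, hζ2, one_pow, one_mul]
    rw [← h3, hζ]
  by_cases hall : ∀ ζ : Kˣ, ζ ^ r = 1 → f ζ = f 1 * ζ
  · exact hfirst hall
  push Not at hall
  obtain ⟨η, hη, hηf⟩ := hall
  have hη1 : η ≠ 1 := fun h => hηf (by rw [h, mul_one])
  have hηf' : f η = f 1 * η⁻¹ := (htype η hη).resolve_left hηf
  have hinv : ∀ ζ : Kˣ, ζ ^ r = 1 → f ζ = f 1 * ζ⁻¹ := by
    intro ζ hζ
    rcases htype ζ hζ with h3 | h3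
    · by_cases h1 : ζ = 1
      · rw [h1, inv_one, mul_one]
      · exfalso
        by_cases h4 : ζ = η
        · rw [h4] at h3; exact hηf h3
        · rcases hcmp ζ η hζ hη h4 with h5 | h5
          · -- `f 1 * ζ * η = f 1 * η⁻¹ * ζ`
            rw [h3, hηf', mul_assoc, mul_assoc] at h5
            have h6 := mul_left_cancel h5
            rw [mul_comm ζ η] at h6
            have h7 := mul_right_cancel h6
            exact hη1 (hsq η hη (eq_inv_iff_mul_eq_one.1 h7))
          · rw [h3, hηf', inv_mul_cancel_right, mul_assoc] at h5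
            have h6 : ζ * ζ = 1 := mul_left_cancel (h5.trans (mul_one _).symm)
            exact h1 (hsq ζ hζ h6)
    · exact h3
  -- `y * y` commutes with `x`
  have hyy : x * (y * y) = y * y * x := by
    refine ext_of_eig hr1 hr0 hprim hxl hxr (hxl.mul (hy.mul hy)) ((hy.mul hy).mul hxl) fun ζ hζ v hxv => ?_
    have h3 := (hf ζ hζ)
    have h4 := (hf (f ζ) h3.1).2 (y • v) (h3.2 v hxv)
    rw [hinv (f ζ) h3.1, hinv ζ hζ, mul_inv, inv_inv, mul_inv_cancel_left] at h4
    rw [mul_smul, mul_smul, h4, mul_smul, mul_smul, hxv, hy, hy]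
  obtain ⟨c, hc⟩ := hyr
  refine ⟨1, cc_one_iff.2 ?_⟩
  obtain ⟨k, hk⟩ := hodd
  have h3 : Commute x (y * y) := hyy
  have h4 : Commute x (y ^ r) := by
    rw [hc]
    exact hxl.scal_commute c
  have h5 : y = ((y * y) ^ k)⁻¹ * y ^ r := by
    rw [hk, ← pow_two, ← pow_mul, pow_succ, ← mul_assoc, inv_mul_cancel, one_mul]
  have h6 : Commute x (((y * y) ^ k)⁻¹ * y ^ r) := ((h3.pow_right k).inv_right).mul_right h4
  rw [← h5] at h6
  exact h6.eq

end Cfsg.Agent.H102.TcSing
end

-- part: H269/TcQEight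
section
/-!
# S3621: the quaternion case (lemma QEight)

If `B / Kˣ` has order 4 and no element of `B` outside the scalars has an eigenvector, then an
element which agrees with an element of `B` at every vector is in `B`, unless `V` is a plane
over a prime field.
-/

set_option autoImplicit false

namespace Cfsg.Agent.H269.TcQEight

open Cfsg.Agent.H412.Tc

universe u

section

variable {K V : Type u} [Field K] [AddCommGroup V] [Module K V]

/-- The vectors on which two linear maps agree. -/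
def agr (x y : GV V) (hx : Lin K x) (hy : Lin K y) : Submodule K V where
  carrier := {v | y • v = x • v}
  add_mem' := by
    intro v w hv hw
    change y • (v + w) = x • (v + w)
    rw [smul_add, smul_add]
    exact congrArg₂ (· + ·) hv hw
  zero_mem' := by
    change y • (0 : V) = x • (0 : V)
    rw [smul_zero, smul_zero]
  smul_mem' := by
    intro c v hv
    change y • c • v = x • c • v
    rw [hy, hx]
    exact congrArg (c • ·) hv

theorem mem_agr {x y : GV V} {hx : Lin K x} {hy : Lin K y} {v : V} :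
    v ∈ agr x y hx hy ↔ y • v = x • v := Iff.rfl

/-- An element of square `-1` has no eigenvector if `-1` is not a square. -/
theorem noEig (hK : ∀ c : Kˣ, c ^ 2 ≠ -1) {e : GV V} (he : Lin K e)
    (h2 : e ^ 2 = scal K V (-1)) {v : V} (hv : v ≠ 0) : ¬ Eig K e v := by
  rintro ⟨c, hc⟩
  apply hK c
  have h3 := pow_smul_of_eig he hc 2
  rw [h2, scal_smul] at h3
  have h4 := smul_left_injective K hv h3
  apply Units.ext
  rw [Units.val_pow_eq_pow_val]
  exact h4.symm

theorem eig_of_scal_mul {e : GV V} {c : Kˣ} {v : V} (h : Eig K (scal K V c * e) v) :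
    Eig K e v := by
  obtain ⟨d, hd⟩ := h
  refine ⟨c⁻¹ * d, ?_⟩
  rw [mul_smul, scal_smul] at hd
  rw [Units.val_mul, mul_smul, ← hd, smul_smul, ← Units.val_mul, inv_mul_cancel, Units.val_one,
    one_smul]

variable [Finite K] [Finite V]

/-- A family of at most `4 (q - 1)` proper subspaces intersecting pairwise trivially covers
only spaces of dimension at most `2`. -/
theorem cover {ι : Type*} [Finite ι] (W : ι → Submodule K V) (hne : ∀ i, W i ≠ ⊤)
    (hdis : ∀ i j, i ≠ j → Disjoint (W i) (W j)) (hcov : ∀ v, ∃ i, v ∈ W i)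
    (hι : Nat.card ι ≤ 4 * (Nat.card K - 1)) : Module.finrank K V ≤ 2 := by
  classical
  by_contra hcon
  push Not at hcon
  have hfin := Fintype.ofFinite ι
  have hfK := Fintype.ofFinite K
  have hfV := Fintype.ofFinite V
  have hfd : Module.Finite K V := Module.Finite.of_finite
  obtain ⟨i1, -⟩ := hcov 0
  have hne' : Nonempty ι := ⟨i1⟩
  obtain ⟨i0, hi0⟩ := Finite.exists_max fun i => Module.finrank K (W i)
  set q := Nat.card K with hq
  set n := Module.finrank K V with hn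
  set N := Nat.card ι with hN
  have hq2 : 2 ≤ q := Finite.one_lt_card
  have hcV : Fintype.card V = q ^ n := by
    rw [← Nat.card_eq_fintype_card, Module.natCard_eq_pow_finrank (K := K)]
  have hcW : ∀ i, (Finset.univ.filter (· ∈ W i)).card = q ^ Module.finrank K (W i) := by
    intro i
    rw [← Fintype.card_subtype, ← Nat.card_eq_fintype_card]
    exact Module.natCard_eq_pow_finrank (K := K) (V := W i)
  have hcE : ∀ i, ((Finset.univ.filter (· ∈ W i)).erase 0).card =
      q ^ Module.finrank K (W i) - 1 := by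
    intro i
    rw [Finset.card_erase_of_mem (by simp), hcW]
  have hcount : q ^ n - 1 ≤ ∑ i, (q ^ Module.finrank K (W i) - 1) := by
    calc q ^ n - 1 = (Finset.univ.erase (0 : V)).card := by
          rw [Finset.card_erase_of_mem (Finset.mem_univ _), Finset.card_univ, hcV]
      _ ≤ (Finset.univ.biUnion fun i => (Finset.univ.filter (· ∈ W i)).erase (0 : V)).card := by
          apply Finset.card_le_card
          intro v hv
          obtain ⟨i, hi⟩ := hcov v
          rw [Finset.mem_biUnion]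
          refine ⟨i, Finset.mem_univ _, ?_⟩
          rw [Finset.mem_erase] at hv ⊢
          exact ⟨hv.1, by simpa using hi⟩
      _ ≤ ∑ i, ((Finset.univ.filter (· ∈ W i)).erase (0 : V)).card := Finset.card_biUnion_le
      _ = _ := Finset.sum_congr rfl fun i _ => hcE i
  have hN' : Fintype.card ι = N := by rw [hN, Nat.card_eq_fintype_card]
  set m := Module.finrank K (W i0) with hm
  have hmn : m < n := Submodule.finrank_lt (hne i0)
  rcases Nat.lt_or_ge 1 m with h2 | h2
  · -- a big subspace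
    have h3 : ∀ i ∈ Finset.univ.erase i0, q ^ Module.finrank K (W i) - 1 ≤ q ^ (n - m) - 1 := by
      intro i hi
      have h4 := Submodule.finrank_add_finrank_le_of_disjoint
        (hdis i i0 (Finset.ne_of_mem_erase hi))
      apply Nat.sub_le_sub_right
      apply Nat.pow_le_pow_right (by omega)
      omega
    have h5 : ∑ i, (q ^ Module.finrank K (W i) - 1) ≤
        (q ^ m - 1) + (N - 1) * (q ^ (n - m) - 1) := by
      rw [← Finset.add_sum_erase _ _ (Finset.mem_univ i0)]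
      apply Nat.add_le_add_left
      refine (Finset.sum_le_card_nsmul _ _ _ h3).trans ?_
      rw [Finset.card_erase_of_mem (Finset.mem_univ _), Finset.card_univ, hN', smul_eq_mul]
    have h6 : q ^ n = q ^ m * q ^ (n - m) := by
      rw [← pow_add]; congr 1; omega
    have h7 : q ^ 2 ≤ q ^ m := Nat.pow_le_pow_right (by omega) h2
    have h8 : q ^ 1 ≤ q ^ (n - m) := Nat.pow_le_pow_right (by omega) (by omega)
    rw [pow_one] at h8
    rw [h6] at hcount
    generalize q ^ m = Q at *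
    generalize q ^ (n - m) = P at *
    obtain ⟨p, rfl⟩ : ∃ p, P = p + 1 := ⟨P - 1, (Nat.sub_add_cancel (by omega)).symm⟩
    have hp : 0 < p := by omega
    have h9 : Q * p ≤ (N - 1) * p := by
      have h10 := hcount.trans h5
      rw [Nat.add_sub_cancel, mul_add, mul_one] at h10
      have : 0 < Q := by
        have : 0 < q ^ 2 := by positivity
        omega
      omega
    have h11 : Q ≤ N - 1 := Nat.le_of_mul_le_mul_right h9 hp
    have h12 : q ^ 2 + 1 ≤ 4 * (q - 1) := by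
      have : 0 < q ^ 2 := by positivity
      omega
    obtain ⟨t, ht⟩ : ∃ t, q = t + 2 := ⟨q - 2, by omega⟩
    rw [ht] at h12
    have h13 : t + 2 - 1 = t + 1 := by omega
    rw [h13] at h12
    nlinarith
  · have h3 : ∀ i ∈ Finset.univ, q ^ Module.finrank K (W i) - 1 ≤ q - 1 := by
      intro i _
      apply Nat.sub_le_sub_right
      calc q ^ Module.finrank K (W i) ≤ q ^ 1 :=
            Nat.pow_le_pow_right (by omega) ((hi0 i).trans h2)
        _ = q := pow_one q
    have h5 : ∑ i, (q ^ Module.finrank K (W i) - 1) ≤ N * (q - 1) := by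
      refine (Finset.sum_le_card_nsmul _ _ _ h3).trans ?_
      rw [Finset.card_univ, hN', smul_eq_mul]
    have h6 : q ^ 3 ≤ q ^ n := Nat.pow_le_pow_right (by omega) (by omega)
    have h7 : q ^ 3 - 1 ≤ 4 * (q - 1) * (q - 1) := by
      calc q ^ 3 - 1 ≤ q ^ n - 1 := Nat.sub_le_sub_right h6 1
        _ ≤ N * (q - 1) := hcount.trans h5
        _ ≤ _ := Nat.mul_le_mul_right _ hι
    obtain ⟨t, ht⟩ : ∃ t, q = t + 2 := ⟨q - 2, by omega⟩
    rw [ht] at h7
    have h13 : t + 2 - 1 = t + 1 := by omega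
    rw [h13] at h7
    have h14 : (t + 2) ^ 3 ≤ 4 * (t + 1) * (t + 1) + 1 := by omega
    nlinarith [sq_nonneg t]

omit [Finite K] in
/-- The eigenvectors of a linear map of a plane which is not a scalar are in two lines. -/
theorem two_lines (h2 : Module.finrank K V = 2) {f : GV V} (hf : Lin K f)
    (hns : ∀ c : Kˣ, f ≠ scal K V c) :
    ∃ u w : V, ∀ v : V, Eig K f v → (∃ c : K, v = c • u) ∨ ∃ c : K, v = c • w := by
  by_cases h1 : ∃ u w : V, LinearIndependent K ![u, w] ∧ Eig K f u ∧ Eig K f w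
  · obtain ⟨u, w, hli, ⟨c, hc⟩, ⟨d, hd⟩⟩ := h1
    have hfd : Module.Finite K V := Module.Finite.of_finite
    have hsp : ∀ v : V, ∃ α β : K, v = α • u + β • w := by
      intro v
      have h3 := hli.span_eq_top_of_card_eq_finrank' (by simp [h2])
      have h4 : v ∈ Submodule.span K (Set.range ![u, w]) := h3 ▸ Submodule.mem_top
      rw [Matrix.range_cons_cons_empty, Submodule.mem_span_pair] at h4
      obtain ⟨α, β, h5⟩ := h4
      exact ⟨α, β, h5.symm⟩
    have hcd : c ≠ d := by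
      rintro rfl
      apply hns c
      apply GV_ext
      intro v
      obtain ⟨α, β, rfl⟩ := hsp v
      rw [scal_smul, smul_add, hf, hf, hc, hd, smul_add, smul_comm α, smul_comm β]
    refine ⟨u, w, ?_⟩
    rintro v ⟨e, he⟩
    obtain ⟨α, β, rfl⟩ := hsp v
    rw [smul_add, hf, hf, hc, hd, smul_add, smul_smul, smul_smul, smul_smul, smul_smul] at he
    have h5 := LinearIndependent.pair_iff.1 hli (α * c - e * α) (β * d - e * β) (by
      rw [sub_smul, sub_smul, sub_add_sub_comm, he, sub_self])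
    by_cases hα : α = 0
    · right
      exact ⟨β, by rw [hα, zero_smul, zero_add]⟩
    · left
      refine ⟨α, ?_⟩
      have h6 : (c : K) = e := by
        have : α * ((c : K) - e) = 0 := by linear_combination h5.1
        exact sub_eq_zero.1 ((mul_eq_zero.1 this).resolve_left hα)
      have h7 : β = 0 := by
        have : β * ((d : K) - e) = 0 := by linear_combination h5.2
        refine (mul_eq_zero.1 this).resolve_right fun h8 => hcd ?_
        exact Units.ext (h6.trans (sub_eq_zero.1 h8).symm)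
      rw [h7, zero_smul, add_zero]
  · by_cases h3 : ∃ u : V, u ≠ 0 ∧ Eig K f u
    · obtain ⟨u, hu, hfu⟩ := h3
      refine ⟨u, u, fun v hv => Or.inl ?_⟩
      by_contra hcon
      push Not at hcon
      apply h1
      refine ⟨u, v, ?_, hfu, hv⟩
      rw [LinearIndependent.pair_iff' hu]
      intro c hc
      exact hcon c hc.symm
    · refine ⟨0, 0, fun v hv => Or.inl ⟨0, ?_⟩⟩
      rw [zero_smul]
      by_contra hcon
      exact h3 ⟨v, hcon, hv⟩

omit [Finite K] [Finite V] in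
/-- Over a prime field every additive map is linear. -/
theorem lin_of_card {p : ℕ} [Fact p.Prime] (hp : Nat.card K = p) (h : GV V) : Lin K h := by
  intro c v
  obtain ⟨m, hm⟩ : ∃ m : ℤ, m • (1 : K) = c := by
    have h1 := mem_zmultiples_of_prime_card (G := K) hp (g := 1) (g' := c) one_ne_zero
    exact AddSubgroup.mem_zmultiples_iff.1 h1
  have h2 : ∀ w : V, c • w = m • w := by
    intro w
    rw [← hm, zsmul_eq_mul, mul_one, Int.cast_smul_eq_zsmul]
  rw [h2, h2]
  exact map_zsmul (h : V →+ V) m v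

/-- The plane case. -/
theorem plane {A : Subgroup (GV V)} (hA : Group.IsSolvable A) (hK : ∀ c : Kˣ, c ^ 2 ≠ -1)
    (h2 : Module.finrank K V = 2) (hc : Nat.card K ≤ 8) : Group.IsSolvable (cl2 A) := by
  classical
  have hfK := Fintype.ofFinite K
  obtain ⟨p, hp⟩ := CharP.exists K
  obtain ⟨n, hpp, hn⟩ := FiniteField.card K p
  rw [← Nat.card_eq_fintype_card] at hn
  have hp2 : p ≠ 2 := by
    rintro rfl
    apply hK 1
    apply Units.ext
    rw [one_pow, Units.val_neg, Units.val_one, CharTwo.neg_eq]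
  have hp3 : 3 ≤ p := by
    have := hpp.two_le
    omega
  have hn1 : (n : ℕ) = 1 := by
    by_contra hne
    have hn2 : 2 ≤ (n : ℕ) := by
      have := n.pos
      omega
    have h3 : 3 ^ 2 ≤ p ^ (n : ℕ) :=
      (Nat.pow_le_pow_left hp3 2).trans (Nat.pow_le_pow_right (by omega) hn2)
    omega
  rw [hn1, pow_one] at hn
  have hF : Fact p.Prime := ⟨hpp⟩
  have hfd : Module.Finite K V := Module.Finite.of_finite
  refine solvable_of_le ?_ hA
  intro h hh
  let b := Module.finBasisOfFinrankEq K V h2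
  obtain ⟨g, hg, h3, h4⟩ := hh (b 0) (b 1)
  have h5 : g = h := by
    apply GV_ext
    intro v
    rw [← b.sum_repr v, Fin.sum_univ_two, smul_add, smul_add, lin_of_card hn g,
      lin_of_card hn g, lin_of_card hn h, lin_of_card hn h, h3, h4]
  exact h5 ▸ hg

end

variable {K V : Type u} [Field K] [Finite K] [AddCommGroup V] [Finite V] [Module K V]
  {A B : Subgroup (GV V)} {r : ℕ}

theorem QEight.main (S : SetB K V A B 2) (hK : ∀ c : Kˣ, c ^ 2 ≠ -1) {a b : GV V} (ha : a ∈ B)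
    (hb : b ∈ B) (ha2 : a ^ 2 = scal K V (-1)) (hb2 : b ^ 2 = scal K V (-1))
    (hab : CC (-1 : Kˣ) a b)
    (hB : ∀ x ∈ B, ∃ c : Kˣ, x = scal K V c ∨ x = scal K V c * a ∨ x = scal K V c * b ∨
        x = scal K V c * (a * b))
    {y : GV V} (hy : Lin K y) (hv : ∀ v : V, ∃ b ∈ B, y • v = b • v) :
    y ∈ B ∨ Group.IsSolvable (cl2 A) := by
  classical
  by_cases hyB : y ∈ B
  · exact Or.inl hyB
  right
  have hfK := Fintype.ofFinite K
  have hfd : Module.Finite K V := Module.Finite.of_finite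
  have hfE : Finite (GV V) := by
    refine Finite.of_injective (fun g : GV V => fun v : V => g • v) ?_
    intro g h hgh
    exact GV_ext fun v => congrFun hgh v
  have hnt : Nontrivial V := by
    rw [← Finite.one_lt_card_iff_nontrivial]
    have := S.card
    omega
  have hla : Lin K a := S.heis.linb ha
  have hlb : Lin K b := S.heis.linb hb
  have hab2 : (a * b) ^ 2 = scal K V (-1) := by
    have h1 := hab.symm.mul_pow hla hlb 2
    rw [ha2, hb2] at h1
    rw [h1, ← map_mul, ← map_mul]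
    congr 1
    norm_num
  -- elements of `B` with eigenvectors are scalars
  have heig : ∀ x ∈ B, ∀ v : V, v ≠ 0 → Eig K x v → ∃ c : Kˣ, x = scal K V c := by
    intro x hx v hv0 hxv
    obtain ⟨c, h1 | h1 | h1 | h1⟩ := hB x hx
    · exact ⟨c, h1⟩
    · rw [h1] at hxv
      exact absurd (eig_of_scal_mul hxv) (noEig hK hla ha2 hv0)
    · rw [h1] at hxv
      exact absurd (eig_of_scal_mul hxv) (noEig hK hlb hb2 hv0)
    · rw [h1] at hxv
      exact absurd (eig_of_scal_mul hxv) (noEig hK (hla.mul hlb) hab2 hv0)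
  have hfree : ∀ x ∈ B, ∀ x' ∈ B, ∀ v : V, v ≠ 0 → x • v = x' • v → x = x' := by
    intro x hx x' hx' v hv0 h1
    have h2 : (x⁻¹ * x') • v = v := by
      rw [mul_smul, ← h1, inv_smul_smul]
    obtain ⟨c, hc⟩ := heig (x⁻¹ * x') (B.mul_mem (B.inv_mem hx) hx') v hv0
      ⟨1, by rw [h2, Units.val_one, one_smul]⟩
    rw [hc, scal_smul] at h2
    have h3 : (c : K) • v = (1 : K) • v := by rw [h2, one_smul]
    have h4 : c = 1 := Units.ext (smul_left_injective K hv0 h3)
    rw [h4, map_one, inv_mul_eq_one] at hc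
    exact hc
  -- the dimension is at least 2
  have hdim2 : 2 ≤ Module.finrank K V := by
    by_contra hcon
    have h1 : Module.finrank K V ≤ 1 := by omega
    obtain ⟨v0, h2⟩ := finrank_le_one_iff.1 h1
    have h3 : v0 ≠ 0 := by
      rintro rfl
      obtain ⟨w, hw⟩ := exists_ne (0 : V)
      obtain ⟨c, hc⟩ := h2 w
      rw [smul_zero] at hc
      exact hw hc.symm
    obtain ⟨c, hc⟩ := h2 (a • v0)
    exact noEig hK hla ha2 h3 (unit_of_smul h3 hc.symm)
  -- the size of `B`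
  have hcard : Nat.card B ≤ 4 * (Nat.card K - 1) := by
    let e : Fin 4 → GV V := ![1, a, b, a * b]
    have he : ∀ i, e i ∈ B := by
      intro i
      fin_cases i
      · exact B.one_mem
      · exact ha
      · exact hb
      · exact B.mul_mem ha hb
    let f : Fin 4 × Kˣ → B := fun z =>
      ⟨scal K V z.2 * e z.1, B.mul_mem (S.heis.scal_mem z.2) (he z.1)⟩
    have hf : Function.Surjective f := by
      rintro ⟨x, hx⟩
      obtain ⟨c, h1 | h1 | h1 | h1⟩ := hB x hx
      · exact ⟨(0, c), Subtype.ext ((mul_one _).trans h1.symm)⟩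
      · exact ⟨(1, c), Subtype.ext h1.symm⟩
      · exact ⟨(2, c), Subtype.ext h1.symm⟩
      · exact ⟨(3, c), Subtype.ext h1.symm⟩
    have h1 := Nat.card_le_card_of_surjective f hf
    rw [Nat.card_prod, Nat.card_fin, Nat.card_units] at h1
    exact h1
  -- the dimension is at most 2
  have hdim : Module.finrank K V ≤ 2 := by
    refine cover (ι := B) (fun x => agr x.1 y (S.heis.linb x.2) hy) ?_ ?_ ?_ hcard
    · intro x hx
      apply hyB
      have h1 : y = x.1 := by
        apply GV_ext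
        intro v
        have h2 : v ∈ agr x.1 y (S.heis.linb x.2) hy := hx ▸ Submodule.mem_top
        exact h2
      rw [h1]
      exact x.2
    · intro x x' hne
      rw [Submodule.disjoint_def]
      intro v hv1 hv2
      by_contra hv0
      apply hne
      apply Subtype.ext
      refine hfree x.1 x.2 x'.1 x'.2 v hv0 ?_
      rw [← mem_agr.1 hv1, ← mem_agr.1 hv2]
    · intro v
      obtain ⟨x, hx, h1⟩ := hv v
      exact ⟨⟨x, hx⟩, h1⟩
  have h2 : Module.finrank K V = 2 := le_antisymm hdim hdim2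
  -- the field is small
  apply plane S.solv hK h2
  have hline : ∀ e ∈ B, ∃ u w : V, ∀ v : V, Eig K (e⁻¹ * y) v →
      (∃ c : K, v = c • u) ∨ ∃ c : K, v = c • w := by
    intro e he
    refine two_lines h2 ((S.heis.linb he).inv.mul hy) ?_
    intro c hc
    apply hyB
    rw [inv_mul_eq_iff_eq_mul] at hc
    rw [hc]
    exact B.mul_mem he (S.heis.scal_mem c)
  let e : Fin 4 → GV V := ![1, a, b, a * b]
  have he : ∀ i, e i ∈ B := by
    intro i
    fin_cases i
    · exact B.one_mem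
    · exact ha
    · exact hb
    · exact B.mul_mem ha hb
  choose u w huw using fun i => hline (e i) (he i)
  have hcov : ∀ v : V, ∃ i, Eig K ((e i)⁻¹ * y) v := by
    intro v
    obtain ⟨x, hx, h1⟩ := hv v
    obtain ⟨i, c, hi⟩ : ∃ (i : Fin 4) (c : Kˣ), x = scal K V c * e i := by
      obtain ⟨c, h1 | h1 | h1 | h1⟩ := hB x hx
      · exact ⟨0, c, by rw [h1]; exact (mul_one _).symm⟩
      · exact ⟨1, c, by rw [h1]; rfl⟩
      · exact ⟨2, c, by rw [h1]; rfl⟩
      · exact ⟨3, c, by rw [h1]; rfl⟩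
    refine ⟨i, c, ?_⟩
    rw [mul_smul, h1, hi, ← (S.heis.linb (he i)).scal_comm, mul_smul, inv_smul_smul, scal_smul]
  let f : (Fin 4 × Bool) × K → V := fun z => z.2 • (if z.1.2 then u z.1.1 else w z.1.1)
  have hf : Function.Surjective f := by
    intro v
    obtain ⟨i, hi⟩ := hcov v
    rcases huw i v hi with ⟨c, hc⟩ | ⟨c, hc⟩
    · exact ⟨((i, true), c), hc.symm⟩
    · exact ⟨((i, false), c), hc.symm⟩
  have h3 := Nat.card_le_card_of_surjective f hf
  rw [Module.natCard_eq_pow_finrank (K := K) (V := V), h2, Nat.card_prod, Nat.card_prod,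
    Nat.card_fin] at h3
  have h4 : Nat.card Bool = 2 := by simp
  rw [h4, sq] at h3
  exact Nat.le_of_mul_le_mul_right h3 Nat.card_pos

end Cfsg.Agent.H269.TcQEight
end

-- part: H352/TcEncTwo
section
/-!
# S3621, the lemma `EncTwo` (helper352, task 1163 of helper412)
-/

set_option autoImplicit false
set_option linter.unusedSectionVars false

namespace Cfsg.Agent.H352.TcEncTwo

open Cfsg.Agent.H412.Tc

universe u

variable {K V : Type u} [Field K] [Finite K] [AddCommGroup V] [Finite V] [Module K V]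
  {A B : Subgroup (GV V)} {r : ℕ}

theorem semi_scal {g : GV V} (hg : Semi K g) (c : Kˣ) : ∃ d : Kˣ, g * scal K V c * g⁻¹ = scal K V d := by
  obtain ⟨σ, hσ⟩ := hg
  refine ⟨Units.map σ.toRingHom.toMonoidHom c, GV_ext fun v => ?_⟩
  rw [mul_smul, mul_smul, scal_smul, scal_smul, hσ, smul_inv_smul]
  rfl

theorem neg_comm (g : GV V) : g * scal K V (-1) = scal K V (-1) * g := GV_ext fun v => by
  rw [mul_smul, mul_smul, scal_smul, scal_smul, Units.val_neg, Units.val_one, neg_one_smul, neg_one_smul, smul_neg]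

/-- conjugates of good pairs are good -/
theorem good_conj (S : SetB K V A B r) {x : GV V} {v : V} (h : Good K r B x v) {g : GV V} (hg : g ∈ A) :
    Good K r B (g * x * g⁻¹) (g • v) := by
  obtain ⟨h1, h2, h3, h4, h5, h6⟩ := h
  refine ⟨S.norm g hg x h1, ?_, ?_, ?_, ?_, ?_⟩
  · rw [conj_pow, h2, mul_one, mul_inv_cancel]
  · intro c hc
    obtain ⟨d, hd⟩ := semi_scal (S.semi g⁻¹ (A.inv_mem hg)) c
    apply h3 d
    rw [← hd, ← hc]
    group
  · intro h0
    exact h4 ((smul_eq_zero_iff_eq g).1 h0)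
  · rw [mul_smul, mul_smul, inv_smul_smul, h5]
  · rintro b hb ⟨c, hc⟩
    have hb' : g⁻¹ * b * g⁻¹⁻¹ ∈ B := S.norm g⁻¹ (A.inv_mem hg) b hb
    rw [inv_inv] at hb'
    obtain ⟨σ, hσ⟩ := S.semi g⁻¹ (A.inv_mem hg)
    obtain ⟨i, d, hd⟩ := h6 _ hb' ⟨Units.map σ.toRingHom.toMonoidHom c, by
      rw [mul_smul, mul_smul, hc, hσ, inv_smul_smul]
      rfl⟩
    obtain ⟨e, he⟩ := semi_scal (S.semi g hg) d
    refine ⟨i, e, ?_⟩
    rw [← he, conj_pow]
    have h7 : b = g * (g⁻¹ * b * g) * g⁻¹ := by group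
    rw [h7, hd]
    group

/-- every nonscalar element does not commute with some good element -/
theorem exists_good (S : SetB K V A B r) (hg : ∃ x v, Good K r B x v) {x : GV V} (hx : x ∈ B)
    (hns : ∀ c : Kˣ, x ≠ scal K V c) : ∃ x1 v, Good K r B x1 v ∧ x1 * x ≠ x * x1 := by
  by_contra hcon
  push Not at hcon
  let N : Subgroup (GV V) := Subgroup.closure ({y | ∃ v, Good K r B y v} ∪ Set.range (scal K V))
  have h1 : ∀ c : Kˣ, scal K V c ∈ N := fun c => Subgroup.subset_closure (Or.inr ⟨c, rfl⟩)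
  have h2 : N ≤ B := by
    rw [Subgroup.closure_le]
    rintro y (⟨v, hv⟩ | ⟨c, rfl⟩)
    · exact hv.1
    · exact S.heis.scal_mem c
  have h3 : ∀ g ∈ A, ∀ b ∈ N, g * b * g⁻¹ ∈ N := by
    intro g hg
    have h4 : N ≤ N.comap (MulAut.conj g).toMonoidHom := by
      rw [Subgroup.closure_le]
      rintro y (⟨v, hv⟩ | ⟨c, rfl⟩)
      · show g * y * g⁻¹ ∈ N
        exact Subgroup.subset_closure (Or.inl ⟨g • v, good_conj S hv hg⟩)
      · show g * scal K V c * g⁻¹ ∈ N
        obtain ⟨d, hd⟩ := semi_scal (S.semi g hg) c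
        rw [hd]
        exact h1 d
    exact fun b hb => h4 hb
  rcases S.min N h1 h2 h3 with h4 | h4
  · obtain ⟨y, v, hv⟩ := hg
    obtain ⟨c, hc⟩ := h4 y (Subgroup.subset_closure (Or.inl ⟨v, hv⟩))
    exact hv.2.2.1 c hc
  · obtain ⟨c, hc⟩ := S.heis.cent x hx (fun b hb => by
      have h5 : N ≤ Subgroup.centralizer ({x} : Set (GV V)) := by
        rw [Subgroup.closure_le]
        rintro y (⟨v, hv⟩ | ⟨c, rfl⟩)
        · rw [SetLike.mem_coe, Subgroup.mem_centralizer_singleton_iff]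
          exact hcon y v hv
        · rw [SetLike.mem_coe, Subgroup.mem_centralizer_singleton_iff]
          exact ((S.heis.linb hx).scal_comm c).symm
      have h6 := h5 (h4 hb)
      rw [Subgroup.mem_centralizer_singleton_iff] at h6
      exact h6.symm)
    exact hns c hc

/-- the elements of `B` fixing `v` -/
theorem fix_eq {x : GV V} {v : V} (h : Good K 2 B x v) {b : GV V} (hb : b ∈ B) (hv : b • v = v) :
    b = 1 ∨ b = x := by
  obtain ⟨h1, h2, h3, h4, h5, h6⟩ := h
  obtain ⟨i, c, hc⟩ := h6 b hb ⟨1, by rw [Units.val_one, one_smul, hv]⟩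
  have h7 : ∀ n : ℕ, (x ^ n) • v = v := by
    intro n
    induction n with
    | zero => simp
    | succ n ih => rw [pow_succ, mul_smul, h5, ih]
  have h8 : c = 1 := by
    rw [hc, mul_smul, h7, scal_smul] at hv
    apply Units.ext
    rw [Units.val_one]
    exact smul_left_injective K h4 (by simpa using hv)
  rw [h8, map_one, one_mul] at hc
  rcases Nat.even_or_odd' i with ⟨m, rfl | rfl⟩
  · left
    rw [hc, pow_mul, h2, one_pow]
  · right
    rw [hc, pow_succ, pow_mul, h2, one_pow, one_mul]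

/-- `k` commutes with `e²`, then `k e k⁻¹` is not `± e x` -/
theorem no_twist [Nontrivial V] (h2 : (2 : K) ≠ 0) {x e k : GV V} (hx : x ^ 2 = 1) (he : Lin K e)
    (hxe : CC (-1 : Kˣ) x e) (hk : k * e ^ 2 = e ^ 2 * k) {μ : Kˣ} (hμ : μ ^ 2 = 1)
    (h : k * e * k⁻¹ = scal K V μ * (e * x)) (hxl : Lin K x) : False := by
  have h3 : (k * e * k⁻¹) ^ 2 = e ^ 2 := by
    rw [conj_pow, hk, mul_inv_cancel_right]
  have h4 : (e * x) ^ 2 = scal K V (-1) * e ^ 2 := by
    unfold CC at hxe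
    calc (e * x) ^ 2 = e * (x * e) * x := by rw [pow_two]; simp only [mul_assoc]
      _ = (e * scal K V (-1)) * (e * x) * x := by rw [hxe]; simp only [mul_assoc]
      _ = scal K V (-1) * (e * e) * (x * x) := by rw [he.scal_comm]; simp only [mul_assoc]
      _ = scal K V (-1) * e ^ 2 := by rw [← pow_two, ← pow_two, hx, mul_one]
  have h5 : (scal K V μ * (e * x)) ^ 2 = scal K V (-1) * e ^ 2 := by
    rw [((he.mul hxl).scal_commute μ).symm.mul_pow, ← map_pow, hμ, map_one, one_mul, h4]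
  rw [h, h5] at h3
  have h6 : scal K V (-1) = 1 := mul_eq_right.1 h3
  have h7 := scal_eq_one h6
  apply h2
  have h8 : ((-1 : Kˣ) : K) = 1 := by rw [h7, Units.val_one]
  rw [Units.val_neg, Units.val_one] at h8
  linear_combination -h8

theorem commute_of_fix (S : SetB K V A B 2) (hn : ∀ h ∈ cl2 A, ∀ b ∈ B, h * b * h⁻¹ ∈ B) {x : GV V} {v : V}
    (hg : Good K 2 B x v) {a b : GV V} (ha : a ∈ B) (hb : b ∈ B) (hax : x * a = a * x) (hbx : CC (-1 : Kˣ) x b)
    (hb2 : b ^ 2 = 1 ∨ b ^ 2 = scal K V (-1)) (hab2 : (a * b) ^ 2 = 1 ∨ (a * b) ^ 2 = scal K V (-1))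
    {k : GV V} (hk : k ∈ cl2 A) (hkv : k • v = v) (hkw : k • (a • v + b • v) = a • v + b • v) :
    k * a = a * k ∧ k * b = b * k := by
  have hg' := hg
  obtain ⟨h1, h2, h3, h4, h5, h6⟩ := hg
  have hV : Nontrivial V := ⟨v, 0, h4⟩
  have h2K : (2 : K) ≠ 0 := by
    obtain ⟨y, hy, c, hc1, hc⟩ := S.heis.exists_cc_ne h1 h3
    have := prime_ne_zero Nat.prime_two hc1 (S.heis.cc_pow h1 hy hc)
    exact_mod_cast this
  have hkv' : k⁻¹ • v = v := by
    rw [inv_smul_eq_iff, hkv]
  have hkx : k * x = x * k := by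
    have h7 : k * x * k⁻¹ = 1 ∨ k * x * k⁻¹ = x := by
      apply fix_eq hg' (hn k hk x h1)
      rw [mul_smul, mul_smul, hkv', h5, hkv]
    rcases h7 with h7 | h7
    · exfalso
      apply h3 1
      rw [map_one]
      have : k * x = k := by rwa [mul_inv_eq_one] at h7
      exact mul_eq_left.1 this
    · rwa [mul_inv_eq_iff_eq_mul] at h7
  have hla := S.heis.linb ha
  have hlb := S.heis.linb hb
  have hlx := S.heis.linb h1
  set a' := k * a * k⁻¹ with ha'
  set b' := k * b * k⁻¹ with hb'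
  have ha'B : a' ∈ B := hn k hk a ha
  have hb'B : b' ∈ B := hn k hk b hb
  have hav : a' • v = k • a • v := by rw [ha', mul_smul, mul_smul, hkv']
  have hbv : b' • v = k • b • v := by rw [hb', mul_smul, mul_smul, hkv']
  have hkx' : x * k = k * x := hkx.symm
  have hkxi : k⁻¹ * x = x * k⁻¹ := by
    rw [inv_mul_eq_iff_eq_mul, ← mul_assoc, hkx, mul_inv_cancel_right]
  have e1 : x * a' = a' * x := by
    rw [ha']
    calc x * (k * a * k⁻¹) = (x * k) * a * k⁻¹ := by simp only [mul_assoc]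
      _ = k * (x * a) * k⁻¹ := by rw [hkx']; simp only [mul_assoc]
      _ = k * a * (x * k⁻¹) := by rw [hax]; simp only [mul_assoc]
      _ = k * a * k⁻¹ * x := by rw [← hkxi]; simp only [mul_assoc]
  have e2 : x * b' = scal K V (-1) * (b' * x) := by
    rw [hb']
    unfold CC at hbx
    calc x * (k * b * k⁻¹) = (x * k) * b * k⁻¹ := by simp only [mul_assoc]
      _ = k * (x * b) * k⁻¹ := by rw [hkx']; simp only [mul_assoc]
      _ = (k * scal K V (-1)) * b * (x * k⁻¹) := by rw [hbx]; simp only [mul_assoc]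
      _ = scal K V (-1) * (k * b * k⁻¹ * x) := by rw [neg_comm, ← hkxi]; simp only [mul_assoc]
  have e3 : a' • v + b' • v = a • v + b • v := by
    rw [hav, hbv, ← smul_add, hkw]
  have e4 : a' • v - a • v = b • v - b' • v := by
    rw [sub_eq_sub_iff_add_eq_add, e3, add_comm]
  have e5 : x • (a' • v - a • v) = a' • v - a • v := by
    have p1 : x • a' • v = a' • v := by rw [← mul_smul, e1]; rw [mul_smul a' x v, h5]
    have p2 : x • a • v = a • v := by rw [← mul_smul, hax]; rw [mul_smul a x v, h5]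
    rw [smul_sub, p1, p2]
  have e6 : x • (b • v - b' • v) = -(b • v - b' • v) := by
    unfold CC at hbx
    rw [smul_sub, ← mul_smul, ← mul_smul, e2, hbx, mul_smul, mul_smul, mul_smul, mul_smul, h5, scal_smul, scal_smul,
      Units.val_neg, Units.val_one, neg_one_smul, neg_one_smul]
    abel
  have e7 : a' • v - a • v = 0 := by
    have h8 : a' • v - a • v = -(a' • v - a • v) := by
      conv_rhs => rw [e4]
      rw [← e6, ← e4, e5]
    have h9 : (2 : K) • (a' • v - a • v) = 0 := by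
      rw [two_smul]
      nth_rewrite 1 [h8]
      exact neg_add_cancel _
    exact (smul_eq_zero.1 h9).resolve_left h2K
  have e8 : a' • v = a • v := sub_eq_zero.1 e7
  have e9 : b' • v = b • v := by
    rw [e7] at e4
    exact (sub_eq_zero.1 e4.symm).symm
  have f1 : a' = a ∨ a' = a * x := by
    have h8 : a⁻¹ * a' = 1 ∨ a⁻¹ * a' = x := by
      apply fix_eq hg' (B.mul_mem (B.inv_mem ha) ha'B)
      rw [mul_smul, e8, inv_smul_smul]
    rcases h8 with h8 | h8
    · left
      rw [inv_mul_eq_one] at h8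
      exact h8.symm
    · right
      rw [inv_mul_eq_iff_eq_mul] at h8
      exact h8
  have f2 : b' = b ∨ b' = b * x := by
    have h8 : b⁻¹ * b' = 1 ∨ b⁻¹ * b' = x := by
      apply fix_eq hg' (B.mul_mem (B.inv_mem hb) hb'B)
      rw [mul_smul, e9, inv_smul_smul]
    rcases h8 with h8 | h8
    · left
      rw [inv_mul_eq_one] at h8
      exact h8.symm
    · right
      rw [inv_mul_eq_iff_eq_mul] at h8
      exact h8
  have g1 : k * b ^ 2 = b ^ 2 * k := by
    rcases hb2 with h8 | h8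
    · rw [h8, mul_one, one_mul]
    · rw [h8, neg_comm]
  have g2 : k * (a * b) ^ 2 = (a * b) ^ 2 * k := by
    rcases hab2 with h8 | h8
    · rw [h8, mul_one, one_mul]
    · rw [h8, neg_comm]
  have f3 : b' = b := by
    rcases f2 with h8 | h8
    · exact h8
    · exfalso
      exact no_twist h2K h2 hlb hbx g1 (one_pow 2) (by rw [map_one, one_mul]; exact h8) hlx
  have f4 : a' = a := by
    rcases f1 with h8 | h8
    · exact h8
    · exfalso
      have h9 : CC (-1 : Kˣ) x (a * b) := by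
        have := CC.mul_right hla (cc_one_iff.2 hax) hbx
        rwa [one_mul] at this
      refine no_twist h2K h2 (hla.mul hlb) h9 g2 (μ := -1) (by norm_num) ?_ hlx
      have h10 : k * (a * b) * k⁻¹ = a' * b' := by
        rw [ha', hb']
        group
      rw [h10, h8, f3]
      unfold CC at hbx
      calc a * x * b = a * (x * b) := by rw [mul_assoc]
        _ = (a * scal K V (-1)) * (b * x) := by rw [hbx]; simp only [mul_assoc]
        _ = _ := by rw [hla.scal_comm]; simp only [mul_assoc]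
  constructor
  · rw [ha', mul_inv_eq_iff_eq_mul] at f4
    exact f4
  · rw [hb', mul_inv_eq_iff_eq_mul] at f3
    exact f3

/-- the elements which `g` and `h` move in the same way modulo scalars -/
def Same (K : Type*) {V : Type*} [Field K] [AddCommGroup V] [Module K V] (g h z : GV V) : Prop :=
  ∃ c : Kˣ, g * z * g⁻¹ = scal K V c * (h * z * h⁻¹)

theorem Same.mul {g h z z' : GV V} (hl : Lin K (h * z * h⁻¹)) (h1 : Same K g h z) (h2 : Same K g h z') :
    Same K g h (z * z') := by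
  obtain ⟨c, hc⟩ := h1
  obtain ⟨d, hd⟩ := h2
  refine ⟨c * d, ?_⟩
  calc g * (z * z') * g⁻¹ = (g * z * g⁻¹) * (g * z' * g⁻¹) := by group
    _ = scal K V c * ((h * z * h⁻¹) * scal K V d) * (h * z' * h⁻¹) := by rw [hc, hd]; simp only [mul_assoc]
    _ = scal K V c * scal K V d * ((h * z * h⁻¹) * (h * z' * h⁻¹)) := by rw [hl.scal_comm]; simp only [mul_assoc]
    _ = scal K V (c * d) * (h * (z * z') * h⁻¹) := by rw [map_mul]; group

theorem same_scal {g h : GV V} (hg : Semi K g) (hh : Semi K h) (c : Kˣ) : Same K g h (scal K V c) := by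
  obtain ⟨d, hd⟩ := semi_scal hg c
  obtain ⟨e, he⟩ := semi_scal hh c
  refine ⟨d * e⁻¹, ?_⟩
  rw [hd, he, ← map_mul, inv_mul_cancel_right]

theorem same_of_commute {g h z : GV V} (hc : (g⁻¹ * h) * z = z * (g⁻¹ * h)) : Same K g h z := by
  refine ⟨1, ?_⟩
  rw [map_one, one_mul]
  have h1 : h * z * h⁻¹ = g * ((g⁻¹ * h) * z) * h⁻¹ := by group
  rw [h1, hc]
  group

theorem same_symm_scal {g h z : GV V} (hg : Semi K g) (hh : Semi K h) {c : Kˣ} (hz : Same K g h (scal K V c * z)) :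
    Same K g h z := by
  have h1 := Same.mul (z := scal K V c⁻¹) (by
    obtain ⟨d, hd⟩ := semi_scal hh c⁻¹
    rw [hd]
    exact lin_scal d) (same_scal hg hh c⁻¹) hz
  rwa [← mul_assoc, ← map_mul, inv_mul_cancel, map_one, one_mul] at h1

/-- the main case: `x` is not scalar -/
theorem main_ns (S : SetB K V A B 2) (hs : ∀ h ∈ cl2 A, Semi K h)
    (hn : ∀ h ∈ cl2 A, ∀ b ∈ B, h * b * h⁻¹ ∈ B)
    (hpow : ∀ b ∈ B, ∃ c : Kˣ, b ^ 2 = scal K V (c ^ 2) ∨ b ^ 2 = scal K V (-c ^ 2))
    (hg : ∃ x v, Good K 2 B x v) {h : GV V} (hh : h ∈ cl2 A) {x y : GV V} (hx : x ∈ B) (hy : y ∈ B)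
    (hns : ∀ c : Kˣ, x ≠ scal K V c) : ∃ g ∈ A, Same K g h x ∧ Same K g h y := by
  obtain ⟨x1, v, hgd, hne⟩ := exists_good S hg hx hns
  have h1 := hgd.1
  have hV : Nontrivial V := ⟨v, 0, hgd.2.2.2.1⟩
  have hcc : ∀ z ∈ B, x1 * z = z * x1 ∨ CC (-1 : Kˣ) x1 z := by
    intro z hz
    obtain ⟨c, hc⟩ := S.heis.cc h1 hz
    have h2 := S.heis.cc_pow h1 hz hc
    have h3 : c = 1 ∨ c = -1 := by
      have h4 : (c : K) ^ 2 = 1 := by rw [← Units.val_pow_eq_pow_val, h2, Units.val_one]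
      have h5 : ((c : K) - 1) * (c + 1) = 0 := by linear_combination h4
      rcases mul_eq_zero.1 h5 with h6 | h6
      · exact Or.inl (Units.ext (sub_eq_zero.1 h6))
      · exact Or.inr (Units.ext (by rw [Units.val_neg, Units.val_one]; linear_combination h6))
    rcases h3 with rfl | rfl
    · exact Or.inl (cc_one_iff.1 hc)
    · exact Or.inr hc
  have hxc : CC (-1 : Kˣ) x1 x := (hcc x hx).resolve_left hne
  have hscale : ∀ z ∈ B, ∃ β : Kˣ, (scal K V β * z) ^ 2 = 1 ∨ (scal K V β * z) ^ 2 = scal K V (-1) := by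
    intro z hz
    obtain ⟨c, hc⟩ := hpow z hz
    refine ⟨c⁻¹, ?_⟩
    rw [((S.heis.linb hz).scal_commute c⁻¹).symm.mul_pow, ← map_pow]
    rcases hc with hc | hc
    · left
      rw [hc, ← map_mul, ← mul_pow, inv_mul_cancel, one_pow, map_one]
    · right
      rw [hc, ← map_mul, mul_neg, ← mul_pow, inv_mul_cancel, one_pow]
  obtain ⟨β, hβ⟩ := hscale x hx
  have hbB : scal K V β * x ∈ B := B.mul_mem (S.heis.scal_mem β) hx
  have hbc : CC (-1 : Kˣ) x1 (scal K V β * x) := by
    have := CC.mul_right (lin_scal β) (CC.scal_right (S.heis.linb h1) β) hxc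
    rwa [one_mul] at this
  -- the general step
  have key : ∀ a ∈ B, x1 * a = a * x1 → ∃ g ∈ A, Same K g h x ∧ Same K g h a := by
    intro a0 ha0 hcomm
    obtain ⟨α, hα⟩ := hscale (a0 * (scal K V β * x)) (B.mul_mem ha0 hbB)
    have haB : scal K V α * a0 ∈ B := B.mul_mem (S.heis.scal_mem α) ha0
    have hac : x1 * (scal K V α * a0) = (scal K V α * a0) * x1 := by
      rw [← mul_assoc, (S.heis.linb h1).scal_comm, mul_assoc, hcomm, mul_assoc]
    rw [← mul_assoc] at hα
    obtain ⟨g, hgA, hg1, hg2⟩ := hh v ((scal K V α * a0) • v + (scal K V β * x) • v)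
    have hk : g⁻¹ * h ∈ cl2 A := (cl2 A).mul_mem ((cl2 A).inv_mem (le_cl2 A hgA)) hh
    obtain ⟨k1, k2⟩ := commute_of_fix S hn hgd haB hbB hac hbc hβ hα hk
      (by rw [mul_smul, ← hg1, inv_smul_smul]) (by rw [mul_smul, ← hg2, inv_smul_smul])
    exact ⟨g, hgA, same_symm_scal (S.semi g hgA) (hs h hh) (same_of_commute k2),
      same_symm_scal (S.semi g hgA) (hs h hh) (same_of_commute k1)⟩
  rcases hcc y hy with h2 | h2
  · exact key y hy h2
  · have h3 : x1 * (x * y) = x * y * x1 := by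
      have h4 := CC.mul_right (S.heis.linb hx) hxc h2
      have h5 : (-1 : Kˣ) * -1 = 1 := by norm_num
      rw [h5] at h4
      exact cc_one_iff.1 h4
    obtain ⟨g, hgA, g1, g2⟩ := key (x * y) (B.mul_mem hx hy) h3
    refine ⟨g, hgA, g1, ?_⟩
    obtain ⟨e, he⟩ := S.heis.pow x hx
    apply same_symm_scal (S.semi g hgA) (hs h hh) (c := e)
    rw [← he, pow_two, mul_assoc]
    exact Same.mul (S.heis.linb (hn h hh x hx)) g1 g2

/-- **EncTwo.** -/
theorem EncTwo.main (S : SetB K V A B 2) (hs : ∀ h ∈ cl2 A, Semi K h)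
    (hn : ∀ h ∈ cl2 A, ∀ b ∈ B, h * b * h⁻¹ ∈ B)
    (hpow : ∀ b ∈ B, ∃ c : Kˣ, b ^ 2 = scal K V (c ^ 2) ∨ b ^ 2 = scal K V (-c ^ 2))
    (hg : ∃ x v, Good K 2 B x v) : PairAgree K A B := by
  intro h hh x hx y hy
  by_cases h1 : ∀ c : Kˣ, x ≠ scal K V c
  · exact main_ns S hs hn hpow hg hh hx hy h1
  by_cases h2 : ∀ c : Kˣ, y ≠ scal K V c
  · obtain ⟨g, hgA, g1, g2⟩ := main_ns S hs hn hpow hg hh hy hx h2
    exact ⟨g, hgA, g2, g1⟩
  push Not at h1 h2
  obtain ⟨c, rfl⟩ := h1
  obtain ⟨d, rfl⟩ := h2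
  exact ⟨1, A.one_mem, same_scal (S.semi 1 A.one_mem) (hs h hh) c, same_scal (S.semi 1 A.one_mem) (hs h hh) d⟩

end Cfsg.Agent.H352.TcEncTwo
end

-- part: H877/TcSmall
section
/-!
# S3621: small groups of Heisenberg type (helper877)
-/

set_option autoImplicit false

namespace Cfsg.Agent.H877

open Cfsg.Agent.H412.Tc Cfsg.Agent.H877.TcAct Equiv

/-- Groups with fewer than 60 elements are solvable (copied from `BpAlt.Row`). -/
theorem Small.solvable_of_lt : ∀ (n : ℕ) {G : Type*} [Group G] [Finite G], Nat.card G = n → n < 60 →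
    Group.IsSolvable G := by
  intro n
  induction n using Nat.strong_induction_on with
  | _ n ih =>
    intro G _ _ hG hn
    by_cases hs : IsSimpleGroup G
    · by_cases hcy : IsCyclic G
      · have := hcy
        let _ : CommGroup G := IsCyclic.commGroup
        infer_instance
      · exfalso
        have := S0493.result hcy (by omega)
        omega
    · rcases subsingleton_or_nontrivial G with ht | ht
      · infer_instance
      · have h1 : ∃ N : Subgroup G, N.Normal ∧ N ≠ ⊥ ∧ N ≠ ⊤ := by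
          by_contra hcon
          push Not at hcon
          apply hs
          exact ⟨fun N hN => by
            by_contra h
            rw [not_or] at h
            exact h.2 (hcon N hN h.1)⟩
        obtain ⟨N, hN, hb, htop⟩ := h1
        have hN' := hN
        have hc := N.card_mul_index
        have hN1 : 1 < Nat.card ↥N := (Subgroup.one_lt_card_iff_ne_bot N).mpr hb
        have hi1 : N.index ≠ 1 := fun h => htop (Subgroup.index_eq_one.mp h)
        have hi0 : N.index ≠ 0 := Subgroup.index_ne_zero_of_finite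
        have hq : Nat.card (G ⧸ N) = N.index := rfl
        have hlt1 : Nat.card ↥N < n := by
          rw [← hG, ← hc]
          have : 2 ≤ N.index := by omega
          nlinarith
        have hlt2 : Nat.card (G ⧸ N) < n := by
          rw [hq, ← hG, ← hc]
          have : 1 ≤ N.index := by omega
          nlinarith
        exact (Group.isSolvable_iff_subgroup_quotient N).2
          ⟨ih _ hlt1 rfl (by omega), ih _ hlt2 rfl (by omega)⟩

/-- Counting lemma: pairs of different nontrivial elements. -/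
theorem Small.pairs {X : Type*} [Finite X] (o : X) (hX : Nat.card X ≤ 9) :
    Nat.card {p : X × X // p.1 ≠ o ∧ p.2 ≠ o ∧ p.1 ≠ p.2} < 60 := by
  classical
  have := Fintype.ofFinite X
  obtain ⟨e⟩ : Nonempty (X ↪ Fin 9) := by
    rw [Function.Embedding.nonempty_iff_card_le, Fintype.card_fin, ← Nat.card_eq_fintype_card]
    exact hX
  have h1 : Nat.card {p : X × X // p.1 ≠ o ∧ p.2 ≠ o ∧ p.1 ≠ p.2} ≤
      Nat.card {p : Fin 9 × Fin 9 // p.1 ≠ e o ∧ p.2 ≠ e o ∧ p.1 ≠ p.2} := by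
    refine Nat.card_le_card_of_injective (fun p => ⟨(e p.1.1, e p.1.2), ?_, ?_, ?_⟩) ?_
    · exact fun h => p.2.1 (e.injective h)
    · exact fun h => p.2.2.1 (e.injective h)
    · exact fun h => p.2.2.2 (e.injective h)
    · intro p q hpq
      have h2 := congrArg Subtype.val hpq
      apply Subtype.ext
      exact Prod.ext (e.injective (congrArg Prod.fst h2)) (e.injective (congrArg Prod.snd h2))
  have h2 : ∀ t : Fin 9, Nat.card {p : Fin 9 × Fin 9 // p.1 ≠ t ∧ p.2 ≠ t ∧ p.1 ≠ p.2} = 56 := by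
    intro t
    rw [Nat.card_eq_fintype_card]
    revert t
    decide
  rw [h2] at h1
  omega

universe u

variable {K V : Type u} [Field K] [Finite K] [AddCommGroup V] [Finite V] [Module K V]
  {A B : Subgroup (GV V)} {r : ℕ}

theorem Small.main (S : SetB K V A B r) (hs : ∀ h ∈ cl2 A, Semi K h)
    (hn : ∀ h ∈ cl2 A, ∀ b ∈ B, h * b * h⁻¹ ∈ B) (hr : r ≤ 3)
    (hB : ∃ a ∈ B, ∃ b ∈ B, ∀ x ∈ B, ∃ (i j : ℕ) (c : Kˣ), x = scal K V c * (a ^ i * b ^ j)) :
    Concl K A B := by
  obtain ⟨a, ha, b, hb, hab⟩ := hB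
  refine ⟨Perm (B ⧸ Zs K B), inferInstance, act K B hs hn, ?_,
    fun h hh => act_eq_one S.heis hs hn hh⟩
  have hfin : Finite (GV V) := by
    have : Finite (AddMonoid.End V) := DFunLike.finite (V →+ V)
    infer_instance
  have hN : (Zs K B).Normal := normal_Zs S.heis
  let α : B ⧸ Zs K B := QuotientGroup.mk ⟨a, ha⟩
  let β : B ⧸ Zs K B := QuotientGroup.mk ⟨b, hb⟩
  have hscal : ∀ (c : Kˣ) (h : scal K V c ∈ B), (QuotientGroup.mk ⟨scal K V c, h⟩ : B ⧸ Zs K B) = 1 := by
    intro c h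
    rw [QuotientGroup.eq_one_iff]
    exact mem_Zs.2 ⟨c, rfl⟩
  have hgen : ∀ x : B ⧸ Zs K B, ∃ i j : ℕ, x = α ^ i * β ^ j := by
    intro x
    induction x using QuotientGroup.induction_on with
    | H x =>
    obtain ⟨i, j, c, hc⟩ := hab x.1 x.2
    refine ⟨i, j, ?_⟩
    have h1 : x = ⟨scal K V c, S.heis.scal_mem c⟩ * (⟨a, ha⟩ ^ i * ⟨b, hb⟩ ^ j) := Subtype.ext hc
    rw [h1, QuotientGroup.mk_mul, hscal, one_mul]
    rfl
  have hpow : ∀ x : B ⧸ Zs K B, x ^ r = 1 := by
    intro x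
    induction x using QuotientGroup.induction_on with
    | H x =>
    obtain ⟨c, hc⟩ := S.heis.pow x.1 x.2
    rw [← QuotientGroup.mk_pow, QuotientGroup.eq_one_iff, mem_Zs]
    exact ⟨c, hc.symm⟩
  have hr0 : 0 < r := S.heis.prime.pos
  have hcard : Nat.card (B ⧸ Zs K B) ≤ 9 := by
    have h1 : Nat.card (B ⧸ Zs K B) ≤ Nat.card (Fin r × Fin r) := by
      refine Nat.card_le_card_of_surjective (fun p => α ^ p.1.1 * β ^ p.2.1) ?_
      intro x
      obtain ⟨i, j, hij⟩ := hgen x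
      refine ⟨(⟨i % r, Nat.mod_lt _ hr0⟩, ⟨j % r, Nat.mod_lt _ hr0⟩), ?_⟩
      show α ^ (i % r) * β ^ (j % r) = x
      rw [hij, ← pow_mod_orderOf α (i % r), ← pow_mod_orderOf α i, ← pow_mod_orderOf β (j % r),
        ← pow_mod_orderOf β j, Nat.mod_mod_of_dvd _ (orderOf_dvd_of_pow_eq_one (hpow α)),
        Nat.mod_mod_of_dvd _ (orderOf_dvd_of_pow_eq_one (hpow β))]
    rw [Nat.card_prod, Nat.card_fin] at h1
    exact h1.trans (Nat.mul_le_mul hr hr)
  let ρ := act K B hs hn
  have hmul : ∀ h x y, ρ h (x * y) = ρ h x * ρ h y := by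
    intro h x y
    induction x using QuotientGroup.induction_on with
    | H x =>
    induction y using QuotientGroup.induction_on with
    | H y =>
    refine congrArg (QuotientGroup.mk : B → B ⧸ Zs K B) (Subtype.ext ?_)
    show h.1 * (x.1 * y.1) * h.1⁻¹ = (h.1 * x.1 * h.1⁻¹) * (h.1 * y.1 * h.1⁻¹)
    group
  have hone : ∀ h, ρ h 1 = 1 := by
    intro h
    have h1 := hmul h 1 1
    rw [one_mul] at h1
    exact (mul_eq_left.1 h1.symm)
  have hpw : ∀ h x (n : ℕ), ρ h (x ^ n) = ρ h x ^ n := by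
    intro h x n
    induction n with
    | zero => rw [pow_zero, pow_zero, hone]
    | succ n ih => rw [pow_succ, pow_succ, hmul, ih]
  have hdet : ∀ h k, ρ h α = ρ k α → ρ h β = ρ k β → ρ h = ρ k := by
    intro h k h1 h2
    ext x
    obtain ⟨i, j, rfl⟩ := hgen x
    rw [hmul, hmul, hpw, hpw, hpw, hpw, h1, h2]
  have key : Nat.card ρ.range < 60 := by
    by_cases hgood : α ≠ 1 ∧ β ≠ 1 ∧ α ≠ β
    · refine lt_of_le_of_lt ?_ (Small.pairs (1 : B ⧸ Zs K B) hcard)
      refine Nat.card_le_card_of_injective (fun s => ⟨(s.1 α, s.1 β), ?_, ?_, ?_⟩) ?_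
      · obtain ⟨_, h, rfl⟩ := s
        intro h1
        exact hgood.1 ((ρ h).injective (h1.trans (hone h).symm))
      · obtain ⟨_, h, rfl⟩ := s
        intro h1
        exact hgood.2.1 ((ρ h).injective (h1.trans (hone h).symm))
      · obtain ⟨_, h, rfl⟩ := s
        intro h1
        exact hgood.2.2 ((ρ h).injective h1)
      · rintro ⟨_, h, rfl⟩ ⟨_, k, rfl⟩ h1
        have h2 := congrArg Subtype.val h1
        exact Subtype.ext (hdet h k (congrArg Prod.fst h2) (congrArg Prod.snd h2))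
    · refine lt_of_le_of_lt (?_ : _ ≤ Nat.card (B ⧸ Zs K B)) (by omega)
      by_cases hα : α = 1
      · refine Nat.card_le_card_of_injective (fun s => s.1 β) ?_
        rintro ⟨_, h, rfl⟩ ⟨_, k, rfl⟩ h1
        refine Subtype.ext (hdet h k ?_ h1)
        rw [hα, hone, hone]
      · by_cases hβ : β = 1
        · refine Nat.card_le_card_of_injective (fun s => s.1 α) ?_
          rintro ⟨_, h, rfl⟩ ⟨_, k, rfl⟩ h1
          refine Subtype.ext (hdet h k h1 ?_)
          rw [hβ, hone, hone]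
        · have hαβ : α = β := by
            by_contra h
            exact hgood ⟨hα, hβ, h⟩
          refine Nat.card_le_card_of_injective (fun s => s.1 α) ?_
          rintro ⟨_, h, rfl⟩ ⟨_, k, rfl⟩ h1
          refine Subtype.ext (hdet h k h1 ?_)
          rw [← hαβ]
          exact h1
  exact Small.solvable_of_lt _ rfl key

end Cfsg.Agent.H877
end

-- part: H877/TcFinish
section
/-!
# S3621: the final step of the main case (helper877)
-/

set_option autoImplicit false

namespace Cfsg.Agent.H877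

open Cfsg.Agent.H412.Tc Cfsg.Agent.H877.TcAct Equiv

universe u

variable {K V : Type u} [Field K] [Finite K] [AddCommGroup V] [Finite V] [Module K V]
  {A B : Subgroup (GV V)} {r : ℕ}

omit [Finite K] [Module K V] in
variable (V) in
theorem Finish.finGV : Finite (GV V) := by
  have : Finite (AddMonoid.End V) := DFunLike.finite (V →+ V)
  infer_instance

theorem Finish.card_lt (hB : Heis K V r B) (hg : ∃ x v, Good K r B x v) :
    Nat.card (B ⧸ Zs K B) < Nat.card V := by
  classical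
  have := Fintype.ofFinite V
  have := Finish.finGV V
  have : Fact r.Prime := ⟨hB.prime⟩
  obtain ⟨x, v, hx, hxr, hxs, hv, hxv, hb⟩ := hg
  have hnt : Nontrivial V := ⟨v, 0, hv⟩
  have hrpos : 0 < r := hB.prime.pos
  obtain ⟨ω, hω1, hωr⟩ := hB.exists_root hx hxs
  have hq : r ≤ Nat.card Kˣ := by
    have h1 : orderOf ω = r := orderOf_eq_prime_iff.2 ⟨hωr, hω1⟩
    rw [← h1, ← Nat.card_zpowers]
    exact Nat.card_le_card_of_injective _ Subtype.val_injective
  -- the stabilizer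
  have hst : Nat.card (MulAction.stabilizer B v) ≤ r := by
    have h1 : Nat.card (MulAction.stabilizer B v) ≤ Nat.card (Subgroup.zpowers x) := by
      refine Nat.card_le_card_of_injective (fun b => ⟨b.1.1, ?_⟩) ?_
      · have h2 : b.1.1 • v = v := b.2
        obtain ⟨i, c, hc⟩ := hb b.1.1 b.1.2 ⟨1, by rw [h2, Units.val_one, one_smul]⟩
        have h3 : ∀ i : ℕ, (x ^ i) • v = v := by
          intro i
          induction i with
          | zero => rw [pow_zero, one_smul]
          | succ n ih => rw [pow_succ, mul_smul, hxv, ih]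
        have h4 : (c : K) • v = (1 : K) • v := by
          rw [hc, mul_smul, h3, scal_smul] at h2
          rw [h2, one_smul]
        have h5 : c = 1 := Units.ext (smul_left_injective K hv h4)
        rw [hc, h5, map_one, one_mul]
        exact Subgroup.npow_mem_zpowers x i
      · intro a b hab
        apply Subtype.ext
        apply Subtype.ext
        exact congrArg (fun y : Subgroup.zpowers x => y.1) hab
    refine h1.trans ?_
    rw [Nat.card_zpowers]
    exact Nat.le_of_dvd hrpos (orderOf_dvd_of_pow_eq_one hxr)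
  have horb : Nat.card (MulAction.orbit B v) < Nat.card V := by
    have h1 : (0 : V) ∉ MulAction.orbit B v := by
      rintro ⟨b, hb⟩
      have h2 : b.1 • v = 0 := hb
      exact hv ((smul_eq_zero_iff_eq b.1).1 h2)
    rw [Nat.card_eq_fintype_card, Nat.card_eq_fintype_card]
    exact Fintype.card_subtype_lt h1
  have hB1 : Nat.card B = Nat.card (MulAction.orbit B v) * Nat.card (MulAction.stabilizer B v) := by
    rw [← Nat.card_prod]
    exact Nat.card_congr (MulAction.orbitProdStabilizerEquivGroup B v).symm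
  have hZ : Nat.card (Zs K B) = Nat.card Kˣ := by
    refine (Nat.card_congr (Equiv.ofBijective (fun c : Kˣ => (⟨⟨scal K V c, hB.scal_mem c⟩,
      mem_Zs.2 ⟨c, rfl⟩⟩ : Zs K B)) ⟨?_, ?_⟩)).symm
    · intro c d hcd
      exact scal_inj (V := V) (congrArg (fun y : Zs K B => y.1.1) hcd)
    · rintro ⟨b, hb⟩
      obtain ⟨c, hc⟩ := mem_Zs.1 hb
      exact ⟨c, Subtype.ext (Subtype.ext hc)⟩
  have h2 := Subgroup.card_eq_card_quotient_mul_card_subgroup (Zs K B)
  rw [hZ, hB1] at h2
  by_contra hcon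
  push Not at hcon
  have hpos : 0 < Nat.card Kˣ := Nat.card_pos
  have h3 : Nat.card (MulAction.orbit B v) * Nat.card (MulAction.stabilizer B v) ≤
      Nat.card (MulAction.orbit B v) * Nat.card Kˣ :=
    Nat.mul_le_mul_left _ (hst.trans hq)
  have h4 : Nat.card (MulAction.orbit B v) * Nat.card Kˣ < Nat.card (B ⧸ Zs K B) * Nat.card Kˣ :=
    Nat.mul_lt_mul_of_pos_right (lt_of_lt_of_le horb hcon) hpos
  omega

theorem Finish.main (S : SetB K V A B r) (hs : ∀ h ∈ cl2 A, Semi K h)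
    (hn : ∀ h ∈ cl2 A, ∀ b ∈ B, h * b * h⁻¹ ∈ B) (hp : PairAgree K A B)
    (hg : ∃ x v, Good K r B x v) : Concl K A B := by
  refine ⟨Perm (B ⧸ Zs K B), inferInstance, act K B hs hn, ?_,
    fun h hh => act_eq_one S.heis hs hn hh⟩
  have := Finish.finGV V
  have hBs : Group.IsSolvable B := solvable_of_le S.le S.solv
  refine IH.reg S.ih (Finish.card_lt S.heis hg) (act K B hs hn) (A.subgroupOf (cl2 A)) ?_
    (MulAction.toPermHom B (B ⧸ Zs K B)).range ?_ ?_ ?_ (QuotientGroup.mk 1) ?_ ?_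
  · have := S.solv
    exact Group.isSolvable_of_isSolvable_injective
      (f := (Subgroup.subgroupOfEquivOfLe (le_cl2 A)).toMonoidHom)
      (Subgroup.subgroupOfEquivOfLe (le_cl2 A)).injective
  · exact Group.isSolvable_of_surjective
      (f := (MulAction.toPermHom B (B ⧸ Zs K B)).rangeRestrict)
      (MonoidHom.rangeRestrict_surjective _)
  · intro x y
    obtain ⟨b, hb⟩ := MulAction.exists_smul_eq B x y
    exact ⟨_, ⟨b, rfl⟩, hb⟩
  · rintro h _ ⟨b, rfl⟩
    refine ⟨⟨h.1 * b.1 * h.1⁻¹, hn h.1 h.2 b.1 b.2⟩, ?_⟩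
    rw [eq_mul_inv_iff_mul_eq]
    ext x
    induction x using QuotientGroup.induction_on with
    | H x =>
    show (QuotientGroup.mk _ : B ⧸ Zs K B) = QuotientGroup.mk _
    refine congrArg (QuotientGroup.mk : B → B ⧸ Zs K B) (Subtype.ext ?_)
    show (h.1 * b.1 * h.1⁻¹) * (h.1 * x.1 * h.1⁻¹) = h.1 * (b.1 * x.1) * h.1⁻¹
    group
  · intro h
    rw [act_mk]
    refine congrArg (QuotientGroup.mk : B → B ⧸ Zs K B) (Subtype.ext ?_)
    show h.1 * 1 * h.1⁻¹ = 1
    rw [mul_one, mul_inv_cancel]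
  · intro h x y
    induction x using QuotientGroup.induction_on with
    | H x =>
    induction y using QuotientGroup.induction_on with
    | H y =>
    obtain ⟨g, hg, ⟨c, hc⟩, d, hd⟩ := hp h.1 h.2 x.1 x.2 y.1 y.2
    refine ⟨⟨g, le_cl2 A hg⟩, hg, ?_, ?_⟩
    · rw [act_mk, act_mk, Eq.comm, mk_eq_iff]
      refine ⟨c, ?_⟩
      show g * x.1 * g⁻¹ = (h.1 * x.1 * h.1⁻¹) * scal K V c
      rw [(S.heis.linb (hn h.1 h.2 x.1 x.2)).scal_comm]
      exact hc
    · rw [act_mk, act_mk, Eq.comm, mk_eq_iff]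
      refine ⟨d, ?_⟩
      show g * y.1 * g⁻¹ = (h.1 * y.1 * h.1⁻¹) * scal K V d
      rw [(S.heis.linb (hn h.1 h.2 y.1 y.2)).scal_comm]
      exact hd

end Cfsg.Agent.H877
end

-- part: H299/TcFlagTwo
section
/-!
# S3621, lemma FlagTwo (helper299)
-/

set_option autoImplicit false
set_option linter.unusedSectionVars false

namespace Cfsg.Agent.H299.TcFlagTwo

open Cfsg.Agent.H412.Tc

universe u

section basic

variable {K V : Type*} [Field K] [AddCommGroup V] [Module K V] {B T : Subgroup (GV V)}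

/-- `b ∈ Z T` -/
def ZT (K : Type*) {V : Type*} [Field K] [AddCommGroup V] [Module K V] (T : Subgroup (GV V)) (b : GV V) : Prop :=
  ∃ t ∈ T, ∃ c : Kˣ, b = scal K V c * t

def Fx (T : Subgroup (GV V)) (v : V) : Prop := ∀ t ∈ T, t • v = v

def DC (K : Type*) {V : Type*} [Field K] [AddCommGroup V] [Module K V] (B T : Subgroup (GV V)) : Prop :=
  ∀ b ∈ B, (∀ a ∈ B, (∀ t ∈ T, a * t = t * a) → a * b = b * a) → ZT K T b

def Gen (K : Type*) {V : Type*} [Field K] [AddCommGroup V] [Module K V] (B T : Subgroup (GV V)) (p : V) : Prop :=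
  p ≠ 0 ∧ Fx T p ∧ ∀ b ∈ B, Eig K b p → ZT K T b

def Be (K : Type*) {V : Type*} [Field K] [AddCommGroup V] [Module K V] (B T : Subgroup (GV V)) : Prop :=
  ∃ p p' : V, p ≠ 0 ∧ p' ≠ 0 ∧ Fx T p ∧ Fx T p' ∧ (∀ b ∈ B, Eig K b p → Eig K b p' → ZT K T b) ∧
    ∀ b ∈ B, b • p ≠ p'

def Exc (K : Type*) {V : Type*} [Field K] [AddCommGroup V] [Module K V] (B T : Subgroup (GV V)) : Prop :=
  (∀ p : V, p ≠ 0 → Fx T p → Gen K B T p) ∧
    ∀ p p' : V, p ≠ 0 → Fx T p → p' ≠ 0 → Fx T p' → ∃ b ∈ B, p' = b • p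

/-- the subgroup generated by `T` and the involution `y` -/
def ext (T : Subgroup (GV V)) (y : GV V) (hy : y * y = 1) (hc : ∀ t ∈ T, t * y = y * t) : Subgroup (GV V) where
  carrier := {w | w ∈ T ∨ w * y ∈ T}
  mul_mem' := by
    rintro a b (ha | ha) (hb | hb)
    · exact Or.inl (T.mul_mem ha hb)
    · right
      rw [mul_assoc]
      exact T.mul_mem ha hb
    · right
      have : a * b * y = a * y * b := by rw [mul_assoc, hc b hb, mul_assoc]
      rw [this]
      exact T.mul_mem ha hb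
    · left
      have : a * b = a * y * (b * y) := by
        calc a * b = a * (b * (y * y)) := by rw [hy, mul_one]
          _ = a * (b * y * y) := by rw [mul_assoc b]
          _ = a * (y * (b * y)) := by rw [hc _ hb]
          _ = a * y * (b * y) := by rw [mul_assoc]
      rw [this]
      exact T.mul_mem ha hb
  one_mem' := Or.inl T.one_mem
  inv_mem' := by
    rintro a (ha | ha)
    · exact Or.inl (T.inv_mem ha)
    · right
      have h1 := hc _ ha
      have h2 : a⁻¹ * y = (a * y)⁻¹ := by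
        have h3 : a * y * y = a := by rw [mul_assoc, hy, mul_one]
        have h4 : y * (a * y) = a := by rw [← h1, h3]
        rw [eq_inv_iff_mul_eq_one, mul_assoc, h4, inv_mul_cancel]
      rw [h2]
      exact T.inv_mem ha

theorem split (h2 : (2 : K) ≠ 0) {y : GV V} {u u' w w' : V} (hu : y • u = u) (hu' : y • u' = u') (hw : y • w = -w)
    (hw' : y • w' = -w') (h : u + w = u' + w') : u = u' ∧ w = w' := by
  have h1 : y • (u + w) = y • (u' + w') := by rw [h]
  rw [smul_add, smul_add, hu, hu', hw, hw'] at h1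
  have h3 : (2 : K) • (u - u') = 0 := by
    rw [two_smul]
    have e : (u - u') + (u - u') = ((u + w) + (u + -w)) - ((u' + w') + (u' + -w')) := by abel
    rw [e, h, h1, sub_self]
  have h4 : u = u' := sub_eq_zero.1 ((smul_eq_zero.1 h3).resolve_left h2)
  refine ⟨h4, ?_⟩
  rw [h4] at h
  exact add_left_cancel h

theorem pm [Nontrivial V] (hB : Heis K V 2 B) {a b : GV V} (ha : a ∈ B) (hb : b ∈ B) :
    a * b = b * a ∨ CC (-1 : Kˣ) a b := by
  obtain ⟨c, hc⟩ := hB.cc ha hb
  have h1 := hB.cc_pow ha hb hc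
  have h2 : (c : K) * c = 1 := by
    rw [← Units.val_mul, ← pow_two, h1, Units.val_one]
  rcases mul_self_eq_one_iff.1 h2 with h3 | h3
  · left
    have : c = 1 := Units.ext h3
    rw [this] at hc
    exact cc_one_iff.1 hc
  · right
    have : c = -1 := Units.ext (by rw [h3, Units.val_neg, Units.val_one])
    rwa [this] at hc

theorem CC.neg_smul' {a b : GV V} (h : CC (-1 : Kˣ) a b) (v : V) : a • b • v = -(b • a • v) := by
  rw [h.smul, Units.val_neg, Units.val_one, neg_smul, one_smul]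

theorem CC.symm_neg {a b : GV V} (h : CC (-1 : Kˣ) a b) : CC (-1 : Kˣ) b a := by
  have := h.symm
  rwa [inv_neg, inv_one] at this

theorem smul_ne {b : GV V} {v : V} (hv : v ≠ 0) : b • v ≠ 0 := fun h => hv ((smul_eq_zero_iff_eq b).1 h)

/-- the situation of one step -/
structure Step (K : Type*) {V : Type*} [Field K] [AddCommGroup V] [Module K V] (B T : Subgroup (GV V))
    (y z : GV V) : Prop where
  hB : Heis K V 2 B
  h2 : (2 : K) ≠ 0
  nt : Nontrivial V
  le : T ≤ B
  yB : y ∈ B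
  zB : z ∈ B
  yT : ∀ t ∈ T, t * y = y * t
  zT : ∀ t ∈ T, z * t = t * z
  yy : y * y = 1
  yz : CC (-1 : Kˣ) y z

namespace Step

variable {y z : GV V} (S : Step K B T y z)
include S

theorem fxT {p : V} (h : Fx (ext T y S.yy S.yT) p) : Fx T p := fun t ht => h t (Or.inl ht)

theorem fxy {p : V} (h : Fx (ext T y S.yy S.yT) p) : y • p = p :=
  h y (Or.inr (by rw [S.yy]; exact T.one_mem))

theorem fx_of {p : V} (h : Fx T p) (hy : y • p = p) : Fx (ext T y S.yy S.yT) p := by
  rintro w (hw | hw)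
  · exact h w hw
  · have h1 : w = (w * y) * y := by rw [mul_assoc, S.yy, mul_one]
    rw [h1, mul_smul, hy, h _ hw]

theorem fxz {p : V} (h : Fx T p) : Fx T (z • p) := by
  intro t ht
  rw [← mul_smul, ← S.zT t ht, mul_smul, h t ht]

theorem yz_smul {p : V} (hy : y • p = p) : y • z • p = -(z • p) := by
  rw [CC.neg_smul' S.yz, hy]

/-- the parity argument -/
theorem even {b : GV V} (hb : ZT K (ext T y S.yy S.yT) b) {p₁ p₂ : V} (h1 : p₁ ≠ 0) (h2 : p₂ ≠ 0)
    (f1 : Fx (ext T y S.yy S.yT) p₁) (f2 : Fx (ext T y S.yy S.yT) p₂) {l : Kˣ} (e1 : b • p₁ = (l : K) • p₁)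
    (e2 : b • z • p₂ = (l : K) • z • p₂) : ZT K T b := by
  obtain ⟨w, hw, c, rfl⟩ := hb
  rcases hw with hw | hw
  · exact ⟨w, hw, c, rfl⟩
  · exfalso
    have h3 : (c : K) = l := by
      rw [mul_smul, f1 w (Or.inr hw), scal_smul] at e1
      exact smul_left_injective K h1 e1
    have h4 : w = (w * y) * y := by rw [mul_assoc, S.yy, mul_one]
    rw [mul_smul, scal_smul, h4, mul_smul, S.yz_smul (S.fxy f2), smul_neg, S.fxz (S.fxT f2) _ hw, h3, smul_neg] at e2
    have h5 : (2 : K) • ((l : K) • z • p₂) = 0 := by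
      rw [two_smul]
      nth_rewrite 1 [← e2]
      rw [neg_add_cancel]
    rcases smul_eq_zero.1 h5 with h6 | h6
    · exact S.h2 h6
    · rcases smul_eq_zero.1 h6 with h7 | h7
      · exact l.ne_zero h7
      · exact smul_ne h2 h7

/-- an element commuting with `y` with eigenvector `p + z p'` -/
theorem comm_case {b : GV V} (hb : b ∈ B) (hby : b * y = y * b) {p p' : V} (f1 : y • p = p) (f2 : y • p' = -p') {l : Kˣ}
    (e : b • (p + p') = (l : K) • (p + p')) : b • p = (l : K) • p ∧ b • p' = (l : K) • p' := by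
  rw [smul_add, smul_add] at e
  refine TcFlagTwo.split S.h2 (y := y) ?_ ?_ ?_ ?_ e
  · rw [← mul_smul, ← hby, mul_smul, f1]
  · rw [S.hB.linb S.yB, f1]
  · rw [← mul_smul, ← hby, mul_smul, f2, smul_neg]
  · rw [S.hB.linb S.yB, f2, smul_neg]

theorem anti_case {b : GV V} (hb : b ∈ B) (hby : CC (-1 : Kˣ) y b) {p p' : V} (f1 : y • p = p) (f2 : y • p' = -p')
    {l : Kˣ} (e : b • (p + p') = (l : K) • (p + p')) : b • p = (l : K) • p' ∧ b • p' = (l : K) • p := by
  rw [smul_add, smul_add] at e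
  have h := TcFlagTwo.split S.h2 (y := y) (u := b • p') (u' := (l : K) • p) (w := b • p) (w' := (l : K) • p') ?_ ?_ ?_ ?_
    (by rw [add_comm, e])
  · exact ⟨h.2, h.1⟩
  · rw [CC.neg_smul' hby, f2, smul_neg, neg_neg]
  · rw [S.hB.linb S.yB, f1]
  · rw [CC.neg_smul' hby, f1]
  · rw [S.hB.linb S.yB, f2, smul_neg]

theorem sum_ne {p p' : V} (hp : p ≠ 0) (f1 : y • p = p) (f2 : y • p' = -p') : p + p' ≠ 0 := by
  intro h
  have := TcFlagTwo.split S.h2 (y := y) (u := p) (u' := 0) (w := p') (w' := 0) f1 (smul_zero _) f2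
    (by rw [smul_zero, neg_zero]) (by rw [h, add_zero])
  exact hp this.1

/-- `b z p' = λ z p'` implies `Eig b p'` -/
theorem eig_of_z {b : GV V} (hb : b ∈ B) {p : V} {l : Kˣ} (e : b • z • p = (l : K) • z • p) : Eig K b p := by
  obtain ⟨c, hc⟩ := S.hB.cc hb S.zB
  rw [hc.smul] at e
  refine ⟨c⁻¹ * l, ?_⟩
  have h1 : z • ((c : K) • b • p) = z • ((l : K) • p) := by
    rw [S.hB.linb S.zB, S.hB.linb S.zB, e]
  have h2 := smul_left_cancel z h1
  rw [Units.val_mul, mul_smul, ← h2, smul_smul, ← Units.val_mul, inv_mul_cancel, Units.val_one, one_smul]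

/-- (1) -/
theorem alpha_of_beta (h : Be K B (ext T y S.yy S.yT)) : ∃ p, Gen K B T p := by
  have := S.nt
  obtain ⟨p, p', hp, hp', fp, fp', hcom, horb⟩ := h
  have f1 := S.fxy fp
  have f2 := S.yz_smul (S.fxy fp')
  refine ⟨p + z • p', S.sum_ne hp f1 f2, ?_, ?_⟩
  · intro t ht
    rw [smul_add, S.fxT fp t ht, S.fxz (S.fxT fp') t ht]
  · rintro b hb ⟨l, hl⟩
    rcases pm S.hB hb S.yB with hby | hby
    · obtain ⟨e1, e2⟩ := S.comm_case hb hby f1 f2 hl
      exact S.even (hcom b hb ⟨l, e1⟩ (S.eig_of_z hb e2)) hp hp' fp fp' e1 e2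
    · exfalso
      obtain ⟨e1, e2⟩ := S.anti_case hb (CC.symm_neg hby) f1 f2 hl
      refine horb (scal K V l⁻¹ * (z⁻¹ * b)) (B.mul_mem (S.hB.scal_mem _) (B.mul_mem (B.inv_mem S.zB) hb)) ?_
      have hz : Lin K z⁻¹ := (S.hB.linb S.zB : Lin K z).inv
      rw [mul_smul, mul_smul, e1, hz, inv_smul_smul, scal_smul, smul_smul, ← Units.val_mul, inv_mul_cancel,
        Units.val_one, one_smul]

/-- (2), (3) -/
theorem beta_of {p p' : V} (hp : p ≠ 0) (hp' : p' ≠ 0) (fp : Fx (ext T y S.yy S.yT) p)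
    (fp' : Fx (ext T y S.yy S.yT) p')
    (hcom : ∀ b ∈ B, Eig K b p → Eig K b p' → ZT K (ext T y S.yy S.yT) b) : Be K B T := by
  have := S.nt
  have f1 := S.fxy fp'
  have f2 := S.yz_smul (S.fxy fp)
  refine ⟨p, p' + z • p, hp, S.sum_ne hp' f1 f2, S.fxT fp, ?_, ?_, ?_⟩
  · intro t ht
    rw [smul_add, S.fxT fp' t ht, S.fxz (S.fxT fp) t ht]
  · rintro b hb ⟨m, hm⟩ ⟨l, hl⟩
    have hby : b * y = y * b :=
      S.hB.commute_of_eig hb S.yB hp ⟨m, hm⟩ ⟨1, by rw [Units.val_one, one_smul, S.fxy fp]⟩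
    obtain ⟨e1, e2⟩ := S.comm_case hb hby f1 f2 hl
    exact S.even (hcom b hb ⟨m, hm⟩ ⟨l, e1⟩) hp' hp fp' fp e1 e2
  · intro b hb h
    rcases pm S.hB hb S.yB with hby | hby
    · have h1 : y • b • p = b • p := by rw [← mul_smul, ← hby, mul_smul, S.fxy fp]
      rw [h, smul_add, f1, f2] at h1
      have h3 := TcFlagTwo.split S.h2 (y := y) f1 f1 (by rw [smul_neg, f2]) f2 h1
      have h4 : (2 : K) • (z • p) = 0 := by
        rw [two_smul]
        nth_rewrite 1 [← h3.2]
        rw [neg_add_cancel]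
      exact smul_ne hp ((smul_eq_zero.1 h4).resolve_left S.h2)
    · have h1 : y • b • p = -(b • p) := by rw [CC.neg_smul' (CC.symm_neg hby), S.fxy fp]
      rw [h, smul_add, f1, f2, neg_add] at h1
      have h3 := TcFlagTwo.split S.h2 (y := y) f1 (by rw [smul_neg, f1]) (by rw [smul_neg, f2]) (by rw [smul_neg, f2]) h1
      have h4 : (2 : K) • p' = 0 := by
        rw [two_smul]
        nth_rewrite 1 [h3.1]
        rw [neg_add_cancel]
      exact hp' ((smul_eq_zero.1 h4).resolve_left S.h2)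

/-- (4) -/
theorem alpha_of_exc [Finite K] (hq : 7 ≤ Nat.card K) {p : V} (h : Gen K B (ext T y S.yy S.yT) p) :
    ∃ p, Gen K B T p := by
  classical
  have := S.nt
  obtain ⟨hp, fp, hgen⟩ := h
  have f1 := S.fxy fp
  obtain ⟨ζ, hζ⟩ := S.hB.pow z S.zB
  -- choice of `t`
  obtain ⟨t, ht1, ht2⟩ : ∃ t : Kˣ, (t : K) * t * ζ ≠ 1 ∧ (t : K) * t * ζ ≠ -1 := by
    by_contra hcon
    push Not at hcon
    have : Fintype K := Fintype.ofFinite K
    rw [Nat.card_eq_fintype_card] at hq
    let P : Polynomial K := (Polynomial.C ((ζ : K)^2) * Polynomial.X ^ 4 - 1) * Polynomial.X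
    have hP0 : P ≠ 0 := by
      intro h0
      have h1 : P.coeff 1 = 0 := by rw [h0]; simp
      simp only [P] at h1
      rw [Polynomial.coeff_mul_X] at h1
      simp at h1
    have hdeg : P.natDegree ≤ 5 := by
      simp only [P]
      compute_degree
    have h1 : Fintype.card K ≤ P.roots.toFinset.card := by
      rw [← Finset.card_univ]
      refine Finset.card_le_card fun t _ => ?_
      rw [Multiset.mem_toFinset, Polynomial.mem_roots hP0, Polynomial.IsRoot.def]
      simp only [P, Polynomial.eval_mul, Polynomial.eval_sub, Polynomial.eval_C, Polynomial.eval_pow,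
        Polynomial.eval_X, Polynomial.eval_one]
      by_cases ht : t = 0
      · rw [ht, mul_zero]
      · have h3 := hcon (Units.mk0 t ht)
        simp only [Units.val_mk0] at h3
        by_cases h4 : t * t * ζ = 1
        · have h5 : (ζ : K)^2 * t^4 - 1 = 0 := by linear_combination (t * t * ζ + 1) * h4
          rw [h5, zero_mul]
        · have h6 := h3 h4
          have h5 : (ζ : K)^2 * t^4 - 1 = 0 := by linear_combination (t * t * ζ - 1) * h6
          rw [h5, zero_mul]
    have h2 := (Multiset.toFinset_card_le P.roots).trans (Polynomial.card_roots' P)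
    omega
  have hzL : Lin K z := S.hB.linb S.zB
  set p' := (t : K) • z • p with hp'
  have f2 : y • p' = -p' := by
    rw [hp', S.hB.linb S.yB, S.yz_smul f1, smul_neg]
  refine ⟨p + p', S.sum_ne hp f1 f2, ?_, ?_⟩
  · intro s hs
    rw [smul_add, S.fxT fp s hs, hp', S.hB.linb (S.le hs), S.fxz (S.fxT fp) s hs]
  · rintro b hb ⟨l, hl⟩
    rcases pm S.hB hb S.yB with hby | hby
    · obtain ⟨e1, e2⟩ := S.comm_case hb hby f1 f2 hl
      refine S.even (hgen b hb ⟨l, e1⟩) hp hp fp fp e1 ?_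
      rw [hp', S.hB.linb hb, smul_comm (l : K) (t : K)] at e2
      exact smul_right_injective V t.ne_zero e2
    · exfalso
      obtain ⟨e1, e2⟩ := S.anti_case hb (CC.symm_neg hby) f1 f2 hl
      -- `s = (l t z)⁻¹ b`
      obtain ⟨s, hs⟩ : ∃ s, s = scal K V (l * t)⁻¹ * (z⁻¹ * b) := ⟨_, rfl⟩
      have hsB : s ∈ B := by
        rw [hs]
        exact B.mul_mem (S.hB.scal_mem _) (B.mul_mem (B.inv_mem S.zB) hb)
      have hsp : s • p = p := by
        have h0 : z⁻¹ • b • p = ((l * t : Kˣ) : K) • p := by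
          rw [e1, hp', hzL.inv, hzL.inv, inv_smul_smul, Units.val_mul, mul_smul]
        rw [hs, mul_smul, mul_smul, h0, scal_smul, smul_smul, ← Units.val_mul, inv_mul_cancel, Units.val_one, one_smul]
      obtain ⟨w, hw, e, rfl⟩ := hgen s hsB ⟨1, by rw [hsp, Units.val_one, one_smul]⟩
      have he : e = 1 := by
        rw [mul_smul, fp w hw, scal_smul] at hsp
        apply Units.ext
        rw [Units.val_one]
        exact smul_left_injective K hp (by show (e : K) • p = (1 : K) • p; rw [hsp, one_smul])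
      rw [he, map_one, one_mul] at hs
      have hb' : b = scal K V (l * t) * (z * w) := by
        rw [hs]
        have h3 : z * (scal K V (l * t)⁻¹ * (z⁻¹ * b)) = scal K V (l * t)⁻¹ * b := by
          rw [← mul_assoc, hzL.scal_comm, mul_assoc, mul_inv_cancel_left]
        rw [h3, ← mul_assoc, ← map_mul, mul_inv_cancel, map_one, one_mul]
      -- `w z p = ± z p`
      have hwz : w • z • p = z • p ∨ w • z • p = -(z • p) := by
        rcases hw with hw | hw
        · exact Or.inl (S.fxz (S.fxT fp) w hw)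
        · right
          have h4 : w = (w * y) * y := by rw [mul_assoc, S.yy, mul_one]
          rw [h4, mul_smul, S.yz_smul f1, smul_neg, S.fxz (S.fxT fp) _ hw]
      have hzz : z • z • p = (ζ : K) • p := by
        rw [← mul_smul, ← pow_two, hζ, scal_smul]
      have hwB : Lin K w := by
        have h5 : w ∈ B := by
          rcases hw with hw | hw
          · exact S.le hw
          · have h4 : w = (w * y) * y := by rw [mul_assoc, S.yy, mul_one]
            rw [h4]
            exact B.mul_mem (S.le hw) S.yB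
        exact S.hB.linb h5
      rw [hb', mul_smul, mul_smul, hp', hwB, scal_smul] at e2
      rcases hwz with h5 | h5
      · rw [h5, hzL, hzz, smul_smul, smul_smul] at e2
        have h6 := smul_left_injective K hp e2
        simp only [Units.val_mul] at h6
        apply ht1
        have h7 : (l : K) * (t * t * ζ) = l * 1 := by linear_combination h6
        exact mul_left_cancel₀ l.ne_zero h7
      · rw [h5, smul_neg, smul_neg, hzL, hzz, smul_neg, smul_smul, smul_smul, ← neg_smul] at e2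
        have h6 := smul_left_injective K hp e2
        simp only [Units.val_mul] at h6
        apply ht2
        have h7 : (l : K) * (t * t * ζ) = l * (-1) := by linear_combination -h6
        exact mul_left_cancel₀ l.ne_zero h7

/-- `D(T) ⇒ D(T')` -/
theorem dc (hD : DC K B T) : DC K B (ext T y S.yy S.yT) := by
  have := S.nt
  intro d hd hcd
  -- `C_B(T) = C_B(T') ∪ C_B(T') z`
  have key : ∀ d' ∈ B, (∀ a ∈ B, (∀ t ∈ ext T y S.yy S.yT, a * t = t * a) → a * d' = d' * a) → z * d' = d' * z →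
      ZT K T d' := by
    intro d' hd' h1 hz
    refine hD d' hd' fun a ha haT => ?_
    have hcase : ∀ a' ∈ B, (∀ t ∈ T, a' * t = t * a') → a' * y = y * a' → a' * d' = d' * a' := by
      intro a' ha' h3 h4
      refine h1 a' ha' ?_
      rintro w (hw | hw)
      · exact h3 w hw
      · calc a' * w = a' * (w * y) * y := by rw [mul_assoc, mul_assoc, S.yy, mul_one]
          _ = w * y * a' * y := by rw [h3 _ hw]
          _ = w * y * (y * a') := by rw [mul_assoc, h4]
          _ = w * a' := by rw [← mul_assoc, mul_assoc w, S.yy, mul_one]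
    rcases pm S.hB ha S.yB with hay | hay
    · exact hcase a ha haT hay
    · -- `a z` commutes with `y`
      have h3 : (a * z) * y = y * (a * z) := by
        have h4 : CC ((-1 : Kˣ) * (-1)) (a * z) y := CC.mul_left (S.hB.linb ha) hay (CC.symm_neg S.yz)
        rw [neg_mul_neg, one_mul] at h4
        exact cc_one_iff.1 h4
      have h5 : (a * z) * d' = d' * (a * z) := by
        refine hcase _ (B.mul_mem ha S.zB) (fun t ht => ?_) h3
        rw [mul_assoc, S.zT t ht, ← mul_assoc, haT t ht, mul_assoc]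
      have h6 : a * d' * z = d' * a * z := by
        rw [mul_assoc, ← hz, ← mul_assoc, h5, mul_assoc]
      exact mul_right_cancel h6
  rcases pm S.hB S.zB hd with hz | hz
  · obtain ⟨t, ht, c, hc⟩ := key d hd hcd hz
    exact ⟨t, Or.inl ht, c, hc⟩
  · have h1 : z * (d * y) = (d * y) * z := by
      have h4 : CC ((-1 : Kˣ) * (-1)) z (d * y) := CC.mul_right (S.hB.linb hd) hz (CC.symm_neg S.yz)
      rw [neg_mul_neg, one_mul] at h4
      exact cc_one_iff.1 h4
    obtain ⟨t, ht, c, hc⟩ := key (d * y) (B.mul_mem hd S.yB) (fun a ha haT => by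
      have hay := haT y (Or.inr (by rw [S.yy]; exact T.one_mem))
      rw [← mul_assoc, hcd a ha haT, mul_assoc, hay, mul_assoc]) h1
    refine ⟨t * y, Or.inr ?_, c, ?_⟩
    · rw [mul_assoc, S.yy, mul_one]
      exact ht
    · rw [← mul_assoc, ← hc, mul_assoc, S.yy, mul_one]

end Step

/-- flags -/
structure Flag (K : Type*) {V : Type*} [Field K] [AddCommGroup V] [Module K V] (B T : Subgroup (GV V)) : Prop where
  le : T ≤ B
  dc : DC K B T
  fx : ∃ v : V, v ≠ 0 ∧ Fx T v

def Max (K : Type*) {V : Type*} [Field K] [AddCommGroup V] [Module K V] (B T : Subgroup (GV V)) : Prop :=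
  ∀ y ∈ B, (∀ t ∈ T, t * y = y * t) → y * y = 1 → ZT K T y

theorem exists_z [Nontrivial V] (hB : Heis K V 2 B) (hD : DC K B T) {y : GV V} (hy : y ∈ B) (hyT : ¬ ZT K T y) :
    ∃ z ∈ B, (∀ t ∈ T, z * t = t * z) ∧ CC (-1 : Kˣ) y z := by
  by_contra hcon
  push Not at hcon
  refine hyT (hD y hy fun a ha haT => ?_)
  rcases pm hB ha hy with h | h
  · exact h
  · exact absurd (CC.symm_neg h) (hcon a ha haT)

theorem ZT.scal {y : GV V} {c : Kˣ} (h : ZT K T (scal K V c * y)) : ZT K T y := by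
  obtain ⟨t, ht, d, hd⟩ := h
  refine ⟨t, ht, c⁻¹ * d, ?_⟩
  rw [map_mul, mul_assoc, ← hd, ← mul_assoc, ← map_mul, inv_mul_cancel, map_one, one_mul]

theorem Max.gen [Nontrivial V] (hB : Heis K V 2 B) (hT : T ≤ B) (h : Max K B T) {p : V} (hp : p ≠ 0) (fp : Fx T p) :
    Gen K B T p := by
  refine ⟨hp, fp, ?_⟩
  rintro b hb ⟨l, hl⟩
  have hbL : Lin K b := hB.linb hb
  have hbT : ∀ t ∈ T, t * b = b * t := fun t ht =>
    hB.commute_of_eig (hT ht) hb hp ⟨1, by rw [fp t ht, Units.val_one, one_smul]⟩ ⟨l, hl⟩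
  have hb'B : scal K V l⁻¹ * b ∈ B := B.mul_mem (hB.scal_mem _) hb
  refine (h (scal K V l⁻¹ * b) hb'B ?_ ?_).scal
  · intro t ht
    have htL : Lin K t := hB.linb (hT ht)
    rw [← mul_assoc, htL.scal_comm, mul_assoc, hbT t ht, mul_assoc]
  · obtain ⟨c, hc⟩ := hB.pow _ hb'B
    have hfix : (scal K V l⁻¹ * b) • p = p := by
      rw [mul_smul, hl, scal_smul, smul_smul, ← Units.val_mul, inv_mul_cancel, Units.val_one, one_smul]
    have h1 : ((scal K V l⁻¹ * b) ^ 2) • p = p := by rw [pow_two, mul_smul, hfix, hfix]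
    rw [hc, scal_smul] at h1
    have h3 : c = 1 := by
      apply Units.ext
      rw [Units.val_one]
      exact smul_left_injective K hp (by show (c : K) • p = (1 : K) • p; rw [h1, one_smul])
    rw [← pow_two, hc, h3, map_one]

theorem Flag.exists_step [Nontrivial V] (hB : Heis K V 2 B) (h2 : (2 : K) ≠ 0) (hT : Flag K B T) {y : GV V} (hy : y ∈ B)
    (hyT : ∀ t ∈ T, t * y = y * t) (hyy : y * y = 1) (hn : ¬ ZT K T y) :
    ∃ y' z, ¬ ZT K T y' ∧ ∃ S : Step K B T y' z, Flag K B (ext T y' S.yy S.yT) ∧ T < ext T y' S.yy S.yT := by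
  have hyL : Lin K y := hB.linb hy
  obtain ⟨v, hv, fv⟩ := hT.fx
  -- scaling
  obtain ⟨y', hy'B, hy'T, hy'y, hn', w, hw, fw, hyw⟩ : ∃ y' ∈ B, (∀ t ∈ T, t * y' = y' * t) ∧ y' * y' = 1 ∧
      ¬ ZT K T y' ∧ ∃ w, w ≠ 0 ∧ Fx T w ∧ y' • w = w := by
    by_cases h0 : v + y • v = 0
    · refine ⟨scal K V (-1) * y, B.mul_mem (hB.scal_mem _) hy, ?_, ?_, fun h => hn h.scal, v, hv, fv, ?_⟩
      · intro t ht
        have htL : Lin K t := hB.linb (hT.le ht)
        rw [← mul_assoc, htL.scal_comm, mul_assoc, hyT t ht, mul_assoc]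
      · calc scal K V (-1) * y * (scal K V (-1) * y) = scal K V (-1) * (y * scal K V (-1)) * y := by
              simp only [mul_assoc]
          _ = scal K V (-1) * scal K V (-1) * (y * y) := by rw [hyL.scal_comm]; simp only [mul_assoc]
          _ = 1 := by rw [hyy, mul_one, ← map_mul, neg_mul_neg, one_mul, map_one]
      · have h1 : y • v = -v := by
          rw [add_comm] at h0
          exact eq_neg_of_add_eq_zero_left h0
        rw [mul_smul, h1, scal_smul, Units.val_neg, Units.val_one, neg_smul, one_smul, neg_neg]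
    · refine ⟨y, hy, hyT, hyy, hn, v + y • v, h0, ?_, ?_⟩
      · intro t ht
        rw [smul_add, fv t ht, ← mul_smul, hyT t ht, mul_smul, fv t ht]
      · rw [smul_add, ← mul_smul, hyy, one_smul, add_comm]
  obtain ⟨z, hz, hzT, hyz⟩ := exists_z hB hT.dc hy'B hn'
  let S : Step K B T y' z := ⟨hB, h2, inferInstance, hT.le, hy'B, hz, hy'T, hzT, hy'y, hyz⟩
  refine ⟨y', z, hn', S, ⟨?_, S.dc hT.dc, w, hw, S.fx_of fw hyw⟩, ?_⟩
  · rintro a (ha | ha)
    · exact hT.le ha
    · have h4 : a = (a * y') * y' := by rw [mul_assoc, S.yy, mul_one]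
      rw [h4]
      exact B.mul_mem (hT.le ha) hy'B
  · refine lt_of_le_of_ne (fun t ht => Or.inl ht) fun heq => hn' ?_
    have h5 : y' ∈ ext T y' S.yy S.yT := Or.inr (by rw [S.yy]; exact T.one_mem)
    rw [← heq] at h5
    exact ⟨y', h5, 1, by rw [map_one, one_mul]⟩

/-- every flag satisfies `β` or `exc` -/
theorem Flag.be_or_exc [Finite V] [Nontrivial V] (hB : Heis K V 2 B) (h2 : (2 : K) ≠ 0) :
    ∀ T : Subgroup (GV V), Flag K B T → Be K B T ∨ Exc K B T := by
  have hfin1 : Finite (AddMonoid.End V) := Finite.of_injective (fun f : AddMonoid.End V => (f : V → V))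
    fun f g h => AddMonoidHom.ext fun v => congrFun h v
  have hfin : Finite (GV V) := inferInstance
  intro T
  induction T using WellFoundedGT.induction with
  | ind T ih =>
  intro hT
  by_cases hm : Max K B T
  · by_cases horb : ∀ p p' : V, p ≠ 0 → Fx T p → p' ≠ 0 → Fx T p' → ∃ b ∈ B, p' = b • p
    · exact Or.inr ⟨fun p hp fp => hm.gen hB hT.le hp fp, horb⟩
    · push Not at horb
      obtain ⟨p, p', hp, fp, hp', fp', hb⟩ := horb
      exact Or.inl ⟨p, p', hp, hp', fp, fp', fun b hb h1 _ => (hm.gen hB hT.le hp fp).2.2 b hb h1,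
        fun b hbB h => hb b hbB h.symm⟩
  · unfold Max at hm
    push Not at hm
    obtain ⟨y, hy, hyT, hyy, hn⟩ := hm
    obtain ⟨y', z, -, S, hF, hlt⟩ := hT.exists_step hB h2 hy hyT hyy hn
    rcases ih _ hlt hF with h | h
    · obtain ⟨p, p', hp, hp', fp, fp', hcom, -⟩ := h
      exact Or.inl (S.beta_of hp hp' fp fp' hcom)
    · obtain ⟨p, hp, fp⟩ := hF.fx
      exact Or.inl (S.beta_of hp hp fp fp fun b hb h1 _ => (h.1 p hp fp).2.2 b hb h1)

end basic

section main

variable {K V : Type u} [Field K] [Finite K] [AddCommGroup V] [Finite V] [Module K V] {A B : Subgroup (GV V)}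

theorem FlagTwo.main (S : SetB K V A B 2)
    (hx : ∃ x ∈ B, x ^ 2 = 1 ∧ ∀ c : Kˣ, x ≠ scal K V c)
    (_hpow : ∀ b ∈ B, ∃ c : Kˣ, b ^ 2 = scal K V (c ^ 2) ∨ b ^ 2 = scal K V (-c ^ 2)) :
    (∃ x v, Good K 2 B x v) ∨ ((Nat.card K = 3 ∨ Nat.card K = 5) ∧ EData K B) := by
  have hB := S.heis
  have hnt : Nontrivial V := by
    rw [← Finite.one_lt_card_iff_nontrivial]
    have := S.card
    omega
  obtain ⟨b₀, hb₀, hns⟩ := S.ns
  obtain ⟨ω, hω1, hω⟩ := hB.exists_root hb₀ hns
  have h2 : (2 : K) ≠ 0 := by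
    have := prime_ne_zero Nat.prime_two hω1 hω
    exact_mod_cast this
  obtain ⟨x, hxB, hxx, hxns⟩ := hx
  -- the trivial flag
  have hD0 : DC K B ⊥ := by
    intro b hb hc
    obtain ⟨c, hc⟩ := hB.cent b hb fun a ha => (hc a ha fun t ht => by
      rw [Subgroup.mem_bot.1 ht, mul_one, one_mul]).symm
    exact ⟨1, Subgroup.one_mem _, c, by rw [hc, mul_one]⟩
  have hF0 : Flag K B ⊥ := by
    obtain ⟨v, hv⟩ := exists_ne (0 : V)
    exact ⟨bot_le, hD0, v, hv, fun t ht => by rw [Subgroup.mem_bot.1 ht, one_smul]⟩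
  have hZ0 : ∀ y : GV V, (∀ c : Kˣ, y ≠ scal K V c) → ¬ ZT K ⊥ y := by
    rintro y hy ⟨t, ht, c, hc⟩
    rw [Subgroup.mem_bot.1 ht, mul_one] at hc
    exact hy c hc
  obtain ⟨y₁, z₁, hn₁, S₁, hF₁, -⟩ := hF0.exists_step hB h2 hxB (fun t ht => by
    rw [Subgroup.mem_bot.1 ht, mul_one, one_mul]) (by rw [← pow_two]; exact hxx) (hZ0 x hxns)
  have hns₁ : ∀ c : Kˣ, y₁ ≠ scal K V c := fun c hc => hn₁ ⟨1, Subgroup.one_mem _, c, by rw [hc, mul_one]⟩
  set T₁ := ext ⊥ y₁ S₁.yy S₁.yT with hT₁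
  have mem₁ : ∀ w ∈ T₁, w = 1 ∨ w = y₁ := by
    rintro w (hw | hw)
    · exact Or.inl (Subgroup.mem_bot.1 hw)
    · right
      have h1 := Subgroup.mem_bot.1 hw
      have h3 : w * y₁ * y₁ = y₁ := by rw [h1, one_mul]
      rw [mul_assoc, S₁.yy, mul_one] at h3
      exact h3
  have good : ∀ p, Gen K B T₁ p → ∃ x v, Good K 2 B x v := by
    rintro p ⟨hp, fp, hg⟩
    refine ⟨y₁, p, S₁.yB, by rw [pow_two, S₁.yy], hns₁, hp, S₁.fxy fp, fun b hb he => ?_⟩
    obtain ⟨w, hw, c, rfl⟩ := hg b hb he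
    rcases mem₁ w hw with rfl | rfl
    · exact ⟨0, c, by rw [pow_zero]⟩
    · exact ⟨1, c, by rw [pow_one]⟩
  by_cases hα : ∃ p, Gen K B T₁ p
  · obtain ⟨p, hp⟩ := hα
    exact Or.inl (good p hp)
  have hm : ¬ Max K B T₁ := by
    intro hm
    obtain ⟨p, hp, fp⟩ := hF₁.fx
    exact hα ⟨p, hm.gen hB hF₁.le hp fp⟩
  unfold Max at hm
  push Not at hm
  obtain ⟨y, hy, hyT, hyy, hn⟩ := hm
  obtain ⟨y₂, z₂, hn₂, S₂, hF₂, -⟩ := hF₁.exists_step hB h2 hy hyT hyy hn
  right
  have hexc : Exc K B (ext T₁ y₂ S₂.yy S₂.yT) := by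
    rcases Flag.be_or_exc hB h2 _ hF₂ with h | h
    · exact absurd (S₂.alpha_of_beta h) hα
    · exact h
  obtain ⟨p, hp, fp⟩ := hF₂.fx
  have hq : Nat.card K < 7 := by
    by_contra hcon
    exact hα (S₂.alpha_of_exc (by omega) (hexc.1 p hp fp))
  refine ⟨?_, ?_⟩
  · have : Fintype K := Fintype.ofFinite K
    rw [Nat.card_eq_fintype_card] at hq ⊢
    have h3 : ringChar K ≠ 2 := by
      intro h
      have : CharP K 2 := ringChar.of_eq h
      exact h2 (CharTwo.two_eq_zero)
    have h4 := FiniteField.odd_card_of_char_ne_two h3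
    have h5 := Fintype.one_lt_card (α := K)
    omega
  · have hy₁ : y₁ ∈ T₁ := Or.inr (by rw [S₁.yy]; exact Subgroup.one_mem _)
    -- the element `a`
    let S' : Step K B ⊥ y₂ z₂ := ⟨hB, h2, hnt, bot_le, S₂.yB, S₂.zB, fun t ht => by
      rw [Subgroup.mem_bot.1 ht, mul_one, one_mul], fun t ht => by
      rw [Subgroup.mem_bot.1 ht, mul_one, one_mul], S₂.yy, S₂.yz⟩
    have hD' := S'.dc hD0
    obtain ⟨a, haB, haT, hya⟩ := exists_z hB hD' S₁.yB (by
      rintro ⟨w, hw, c, hc⟩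
      rcases hw with hw | hw
      · rw [Subgroup.mem_bot.1 hw, mul_one] at hc
        exact hns₁ c hc
      · have h1 := Subgroup.mem_bot.1 hw
        have h3 : w = y₂ := by
          have h3 : w * y₂ * y₂ = y₂ := by rw [h1, one_mul]
          rwa [mul_assoc, S₂.yy, mul_one] at h3
        rw [h3] at hc
        refine hn₂ ⟨y₁, hy₁, c⁻¹, ?_⟩
        rw [hc, ← mul_assoc, ← map_mul, inv_mul_cancel, map_one, one_mul])
    refine ⟨y₁, S₁.yB, y₂, S₂.yB, a, haB, z₂, S₂.zB, p, hp, ?_, S₂.fxy fp, ?_, ?_, S₂.yT y₁ hy₁, hya, ?_, S₂.yz, ?_, ?_⟩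
    · exact S₂.fxT fp y₁ hy₁
    · rw [pow_two, S₁.yy]
    · rw [pow_two, S₂.yy]
    · exact (haT y₂ (Or.inr (by rw [S₂.yy]; exact Subgroup.one_mem _))).symm
    · exact (S₂.zT y₁ hy₁).symm
    · intro f hf h1 h3
      have ff : Fx (ext T₁ y₂ S₂.yy S₂.yT) f := by
        refine S₂.fx_of (fun w hw => ?_) h3
        rcases mem₁ w hw with rfl | rfl
        · rw [one_smul]
        · exact h1
      refine ⟨fun b hb he => ?_, hexc.2 p f hp fp hf ff⟩
      obtain ⟨w, hw, c, rfl⟩ := (hexc.1 f hf ff).2.2 b hb he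
      rcases hw with hw | hw
      · rcases mem₁ w hw with rfl | rfl
        · exact ⟨0, 0, c, by simp⟩
        · exact ⟨1, 0, c, by simp⟩
      · have h4 : w = (w * y₂) * y₂ := by rw [mul_assoc, S₂.yy, mul_one]
        rcases mem₁ _ hw with h5 | h5
        · exact ⟨0, 1, c, by rw [h4, h5, pow_zero, pow_one]⟩
        · exact ⟨1, 1, c, by rw [h4, h5, pow_one, pow_one]⟩

end main

end Cfsg.Agent.H299.TcFlagTwo
end

-- part: H412/Tc/AssT
section
/-!
# Assembly of the main case
-/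

set_option autoImplicit false

namespace Cfsg.Agent.H412.Tc

universe u

variable {K V : Type u} [Field K] [Finite K] [AddCommGroup V] [Finite V] [Module K V]
    {A B : Subgroup (GV V)} {r : ℕ}

theorem SetA.nontrivial (S : SetA K V A) : Nontrivial V := by
  have h := S.card
  exact Finite.one_lt_card_iff_nontrivial.1 (by omega)

/-- Conjugates of elements of `B` under `cl2 A` map every vector to an element of its
`B`-orbit. -/
theorem SetB.conj_orbit (S : SetB K V A B r) {h : GV V} (hh : h ∈ cl2 A) {x : GV V}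
    (hx : x ∈ B) (v : V) : ∃ b ∈ B, (h * x * h⁻¹) • v = b • v := by
  obtain ⟨g, hg, h1, h2⟩ := hh (h⁻¹ • v) (x • h⁻¹ • v)
  refine ⟨g * x * g⁻¹, S.norm g hg x hx, ?_⟩
  have h3 : g⁻¹ • v = h⁻¹ • v := by
    rw [inv_smul_eq_iff, h1, smul_inv_smul]
  rw [mul_smul, mul_smul, mul_smul, mul_smul, h3, h2]

theorem T1.main (S : SetB K V A B r) (hs : ∀ h ∈ cl2 A, Semi K h) :
    Group.IsSolvable (cl2 A) ∨ ∀ h ∈ cl2 A, ∀ b ∈ B, h * b * h⁻¹ ∈ B := by
  by_cases hsol : Group.IsSolvable (cl2 A)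
  · exact Or.inl hsol
  right
  intro h hh x hx
  have hy : Lin K (h * x * h⁻¹) := (hs h hh).conj_lin (S.heis.linb hx)
  have hv := fun v => S.conj_orbit hh hx v
  have hyr : ∃ c : Kˣ, (h * x * h⁻¹) ^ r = scal K V c := by
    obtain ⟨c, hc⟩ := S.heis.pow x hx
    obtain ⟨d, hd⟩ := (hs h hh).conj_scal c
    exact ⟨d, by rw [conj_pow, hc, hd]⟩
  rcases H306.TcEx.Ex.main S with ⟨x0, hx0, hx0r, hx0n⟩ | ⟨hr, hK, a, ha, b, hb, ha2, hb2, hab, hB⟩
  · refine H308.TcDual.Dual.main S (H308.TcCent.Cent.main S) hy hv ?_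
    -- elements of order dividing `r` generate `B` modulo scalars
    let N : Subgroup (GV V) := Subgroup.closure
      ({z | ∃ c : Kˣ, z = scal K V c} ∪ {z | z ∈ B ∧ z ^ r = 1})
    have hNB : N ≤ B := by
      rw [Subgroup.closure_le]
      rintro z (⟨c, rfl⟩ | ⟨hz, -⟩)
      · exact S.heis.scal_mem c
      · exact hz
    have hBN : B ≤ N := by
      rcases S.min N (fun c => Subgroup.subset_closure (Or.inl ⟨c, rfl⟩)) hNB (by
        intro g hg
        have : N ≤ N.comap (MulAut.conj g).toMonoidHom := by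
          rw [Subgroup.closure_le]
          rintro z (⟨c, rfl⟩ | ⟨hz, hzr⟩)
          · obtain ⟨d, hd⟩ := (S.semi g hg).conj_scal c
            exact Subgroup.subset_closure (Or.inl ⟨d, hd⟩)
          · refine Subgroup.subset_closure (Or.inr ⟨S.norm g hg z hz, ?_⟩)
            change (g * z * g⁻¹) ^ r = 1
            rw [conj_pow, hzr]; simp
        intro b hb
        exact this hb) with h1 | h1
      · obtain ⟨c, hc⟩ := h1 x0 (Subgroup.subset_closure (Or.inr ⟨hx0, hx0r⟩))
        exact absurd hc (hx0n c)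
      · exact h1
    intro b hb
    have hb' := hBN hb
    clear hb
    induction hb' using Subgroup.closure_induction with
    | mem z hz =>
      rcases hz with ⟨c, rfl⟩ | ⟨hz, hzr⟩
      · exact ⟨1, CC.scal_left hy c⟩
      · by_cases hzn : ∀ c : Kˣ, z ≠ scal K V c
        · exact H102.TcSing.Sing.main S hz hzr hzn hy hyr hv
        · push Not at hzn
          obtain ⟨c, rfl⟩ := hzn
          exact ⟨1, CC.scal_left hy c⟩
    | one => exact ⟨1, by unfold CC; simp⟩
    | mul z w hz hw ihz ihw =>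
      obtain ⟨c, hc⟩ := ihz
      obtain ⟨d, hd⟩ := ihw
      exact ⟨c * d, CC.mul_left (S.heis.linb (hNB hz)) hc hd⟩
    | inv z hz ihz =>
      obtain ⟨c, hc⟩ := ihz
      refine ⟨c⁻¹, ?_⟩
      have hzl : Lin K z := S.heis.linb (hNB hz)
      unfold CC at *
      have h2 : (h * x * h⁻¹) * z = scal K V c⁻¹ * (z * (h * x * h⁻¹)) := by
        rw [hc, ← mul_assoc, ← map_mul, inv_mul_cancel, map_one, one_mul]
      have h3 : z⁻¹ * ((h * x * h⁻¹) * z) * z⁻¹ =
          z⁻¹ * (scal K V c⁻¹ * (z * (h * x * h⁻¹))) * z⁻¹ := by rw [h2]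
      have h4 : z⁻¹ * scal K V c⁻¹ = scal K V c⁻¹ * z⁻¹ := hzl.inv.scal_comm _
      calc z⁻¹ * (h * x * h⁻¹) = z⁻¹ * ((h * x * h⁻¹) * z) * z⁻¹ := by group
        _ = (z⁻¹ * scal K V c⁻¹) * (z * (h * x * h⁻¹)) * z⁻¹ := by rw [h3]; simp only [mul_assoc]
        _ = _ := by rw [h4]; group
  · subst hr
    rcases H269.TcQEight.QEight.main S hK ha hb ha2 hb2 hab hB hy hv with h1 | h1
    · exact h1
    · exact absurd h1 hsol

theorem T2.main (S : SetB K V A B r) (hs : ∀ h ∈ cl2 A, Semi K h)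
    (hn : ∀ h ∈ cl2 A, ∀ b ∈ B, h * b * h⁻¹ ∈ B) :
    Group.IsSolvable (cl2 A) ∨ Concl K A B := by
  have : Nontrivial V := S.toSetA.nontrivial
  rcases H306.TcEx.Ex.main S with hx | ⟨hr, hK, a, ha, b, hb, ha2, hb2, hab, hB⟩
  · obtain ⟨hp1, hp2⟩ := H306.TcEx.Powr.main S hx
    by_cases hr : r = 2
    · subst hr
      rcases H299.TcFlagTwo.FlagTwo.main S hx (hp2 rfl) with hg | ⟨hK, hE⟩
      · exact Or.inr (H877.Finish.main S hs hn (H352.TcEncTwo.EncTwo.main S hs hn (hp2 rfl) hg) hg)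
      · exact Or.inl (H982.TcECase.ECase.main S hs hn hK hE)
    · have hg := H560.TcFlagOdd.FlagOdd.main S hr (hp1 hr)
      by_cases h9 : r = 3 → ∀ x v, Good K r B x v →
          ∃ a ∈ B, a * x = x * a ∧ ∀ (i : ℕ) (c : Kˣ), a ≠ scal K V c * x ^ i
      · exact Or.inr (H877.Finish.main S hs hn (H604.TcEncOdd.EncOdd.main S hr hs hn (hp1 hr) hg h9) hg)
      · push Not at h9
        obtain ⟨hr3, x, v, hgx, h9⟩ := h9
        right
        obtain ⟨hxB, hxr, hxn, hv0, hxv, hgen⟩ := hgx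
        obtain ⟨z, hz, ω, hω, hzc⟩ := S.heis.exists_cc_ne hxB hxn
        refine H877.Small.main S hs hn (by omega) ⟨x, hxB, z, hz, fun b hb => ?_⟩
        obtain ⟨c, hc⟩ := S.heis.cc hxB hb
        obtain ⟨j, -, hj⟩ := exists_pow_eq S.heis.prime hω (S.heis.cc_pow hxB hz hzc)
          (S.heis.cc_pow hxB hb hc)
        have hzj : CC c x (z ^ j) := hj ▸ hzc.pow_right (S.heis.linb hz) j
        have hcomm : (b * (z ^ j)⁻¹) * x = x * (b * (z ^ j)⁻¹) := by
          have hzl : Lin K (z ^ j) := (S.heis.linb hz).pow j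
          unfold CC at hc hzj
          have e1 : (z ^ j)⁻¹ * x = scal K V c * (x * (z ^ j)⁻¹) := by
            have e2 : x = scal K V c * ((z ^ j) * x) * (z ^ j)⁻¹ := by rw [← hzj]; group
            calc (z ^ j)⁻¹ * x = (z ^ j)⁻¹ * (scal K V c * ((z ^ j) * x) * (z ^ j)⁻¹) := by
                  rw [← e2]
              _ = ((z ^ j)⁻¹ * scal K V c) * ((z ^ j) * x) * (z ^ j)⁻¹ := by
                  simp only [mul_assoc]
              _ = _ := by rw [hzl.inv.scal_comm]; group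
          calc (b * (z ^ j)⁻¹) * x = b * ((z ^ j)⁻¹ * x) := by group
            _ = (b * scal K V c) * (x * (z ^ j)⁻¹) := by rw [e1]; simp only [mul_assoc]
            _ = (scal K V c * (b * x)) * (z ^ j)⁻¹ := by
                rw [(S.heis.linb hb).scal_comm]; simp only [mul_assoc]
            _ = _ := by rw [← hc]; simp only [mul_assoc]
        obtain ⟨i, d, hd⟩ := h9 _ (B.mul_mem hb (B.inv_mem (B.pow_mem hz j))) hcomm
        refine ⟨i, j, d, ?_⟩
        rw [← mul_assoc, ← hd]; group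
  · subst hr
    right
    refine H877.Small.main S hs hn (by norm_num) ⟨a, ha, b, hb, fun x hx => ?_⟩
    obtain ⟨c, h | h | h | h⟩ := hB x hx
    · exact ⟨0, 0, c, by rw [h]; simp⟩
    · exact ⟨1, 0, c, by rw [h]; simp⟩
    · exact ⟨0, 1, c, by rw [h]; simp⟩
    · exact ⟨1, 1, c, by rw [h]; simp⟩

end Cfsg.Agent.H412.Tc
end
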