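import Cfsg.Agent.H412.Tc.Defs
import Cfsg.Agent.H604.TcEncOdd_mg
import Cfsg.Agent.H412.Tc.AssT
import Cfsg.Agent.H183.TcStepB_mg
set_option linter.all false

-- part: H748/TcT0
section
/-!
# The affine semilinear group of a finite field is 3-closed

Lemma T0 of the plan `tools/plans/S3621.md` (helper412).  A permutation agreeing on every
triple with some map `x ↦ α σ(x) + β` is of this form.
-/

set_option autoImplicit false

namespace Cfsg.Agent.H748.TcT0

open Equiv

section
variable {K : Type*} [Field K] [Finite K]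

instance finite_aut : Finite (K ≃+* K) := Finite.of_injective (fun f => (f : K → K)) DFunLike.coe_injective

/-- Artin's theorem, counting form. -/
theorem card_fix (H : Subgroup (K ≃+* K)) :
    Nat.card (FixedPoints.subfield H K) ^ Nat.card H = Nat.card K := by
  have : Fintype K := Fintype.ofFinite K
  have : Fintype H := Fintype.ofFinite H
  have h1 := FixedPoints.finrank_eq_card H K
  have h2 := Module.natCard_eq_pow_finrank (K := FixedPoints.subfield H K) (V := K)
  rw [h2, h1, ← Nat.card_eq_fintype_card]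

/-- The fixed field of `ρ`. -/
noncomputable def fx (ρ : K ≃+* K) : ℕ := Nat.card (FixedPoints.subfield (Subgroup.zpowers ρ) K)

omit [Finite K] in
theorem mem_fix (ρ : K ≃+* K) (x : K) : x ∈ FixedPoints.subfield (Subgroup.zpowers ρ) K ↔ ρ x = x := by
  constructor
  · intro h
    exact h ⟨ρ, Subgroup.mem_zpowers ρ⟩
  · rintro h ⟨g, hg⟩
    obtain ⟨k, rfl⟩ := Subgroup.mem_zpowers_iff.1 hg
    have h1 : ρ ∈ MulAction.stabilizer (K ≃+* K) x := h
    exact (MulAction.stabilizer (K ≃+* K) x).zpow_mem h1 k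

theorem fx_pow (ρ : K ≃+* K) : fx ρ ^ orderOf ρ = Nat.card K := by
  rw [← Nat.card_zpowers]
  exact card_fix _

theorem two_le_fx (ρ : K ≃+* K) : 2 ≤ fx ρ := by
  have : Nontrivial (FixedPoints.subfield (Subgroup.zpowers ρ) K) := inferInstance
  exact Finite.one_lt_card

theorem mem_zpowers_of_fix {ρ τ : K ≃+* K} (h : ∀ x, ρ x = x → τ x = x) : τ ∈ Subgroup.zpowers ρ := by
  let H : Subgroup (K ≃+* K) := Subgroup.zpowers ρ ⊔ Subgroup.zpowers τ
  have h1 : Nat.card (FixedPoints.subfield H K) = fx ρ := by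
    refine Nat.card_congr (Equiv.subtypeEquivRight fun x => ?_)
    rw [mem_fix]
    constructor
    · intro hx
      exact hx ⟨ρ, Subgroup.mem_sup_left (Subgroup.mem_zpowers ρ)⟩
    · rintro hx ⟨g, hg⟩
      have h2 : H ≤ MulAction.stabilizer (K ≃+* K) x := by
        refine sup_le ?_ ?_
        · rw [Subgroup.zpowers_le]; exact hx
        · rw [Subgroup.zpowers_le]; exact h x hx
      exact h2 hg
  have h2 := card_fix H
  rw [h1, ← card_fix (Subgroup.zpowers ρ)] at h2
  have h3 : Nat.card H = Nat.card (Subgroup.zpowers ρ) := Nat.pow_right_injective (two_le_fx ρ) h2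
  have h4 : Subgroup.zpowers ρ = H := Subgroup.eq_of_le_of_card_ge le_sup_left h3.le
  rw [h4]
  exact Subgroup.mem_sup_right (Subgroup.mem_zpowers τ)

end

/-- Numerical estimate. -/
theorem num (o f : ℕ) (ho : 2 ≤ o) (hf : 2 ≤ f) : ((o - 1) * (f - 1)) ^ 2 ≤ f ^ o := by
  obtain ⟨g, rfl⟩ : ∃ g, f = g + 1 := ⟨f - 1, by omega⟩
  obtain ⟨k, rfl⟩ : ∃ k, o = k + 2 := ⟨o - 2, by omega⟩
  have hg : 1 ≤ g := by omega
  simp only [Nat.add_sub_cancel, show k + 2 - 1 = k + 1 by omega]
  clear ho hf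
  induction k with
  | zero =>
    refine Nat.pow_le_pow_left ?_ 2
    omega
  | succ k ih =>
    have e : (g + 1) ^ (k + 1 + 2) = (g + 1) ^ (k + 2) * (g + 1) := pow_succ _ _
    rw [e]
    rcases Nat.lt_or_ge k 2 with hk | hk
    · interval_cases k
      · have e1 : ((0 + 1 + 1) * g) ^ 2 = 4 * (g * g) := by ring
        have e2 : (g + 1) ^ (0 + 2) * (g + 1) = g * g * g + 3 * (g * g) + 3 * g + 1 := by ring
        rw [e1, e2]
        nlinarith [Nat.mul_le_mul_left (g * g) hg]
      · have e1 : ((1 + 1 + 1) * g) ^ 2 = 9 * (g * g) := by ring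
        have e2 : (g + 1) ^ (1 + 2) * (g + 1) = g * g * (g * g) + 4 * (g * g * g) + 6 * (g * g) + 4 * g + 1 := by ring
        rw [e1, e2]
        nlinarith [Nat.mul_le_mul_left (g * g) hg, Nat.mul_le_mul_left (g * g * g) hg]
    · have h1 : ((k + 1 + 1) * g) ^ 2 ≤ ((k + 1) * g) ^ 2 * (g + 1) := by
        have : (k + 1 + 1) ^ 2 ≤ (k + 1) ^ 2 * 2 := by nlinarith
        calc ((k + 1 + 1) * g) ^ 2 = (k + 1 + 1) ^ 2 * g ^ 2 := by ring
          _ ≤ (k + 1) ^ 2 * 2 * g ^ 2 := Nat.mul_le_mul_right _ this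
          _ = ((k + 1) * g) ^ 2 * 2 := by ring
          _ ≤ _ := Nat.mul_le_mul_left _ (by omega)
      exact h1.trans (Nat.mul_le_mul_right _ ih)


section
variable {K : Type*} [Field K] [Fintype K] [DecidableEq K]

/-- The solutions of `ρ x = c x`. -/
def sol (ρ : K ≃+* K) (c : K) : Finset K := Finset.univ.filter fun x => x ≠ 0 ∧ ρ x = c * x

theorem card_sol (ρ : K ≃+* K) (c : K) : (sol ρ c).card ≤ fx ρ - 1 := by
  rcases (sol ρ c).eq_empty_or_nonempty with he | ⟨x0, hx0⟩
  · rw [he]; simp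
  obtain ⟨h1, h2⟩ := (Finset.mem_filter.1 hx0).2
  have hc : c ≠ 0 := by
    rintro rfl
    rw [zero_mul] at h2
    exact h1 ((map_eq_zero_iff ρ ρ.injective).1 h2)
  have hfx : fx ρ = (Finset.univ.filter fun x : K => ρ x = x).card := by
    rw [fx, ← Fintype.card_coe, ← Nat.card_eq_fintype_card]
    refine Nat.card_congr (Equiv.subtypeEquivRight fun x => ?_)
    rw [mem_fix]
    simp
  have h3 : (Finset.univ.filter fun x : K => ρ x = x).erase 0 = (Finset.univ.filter fun x : K => ρ x = x).erase 0 := rfl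
  have h4 : ((Finset.univ.filter fun x : K => ρ x = x).erase 0).card = fx ρ - 1 := by
    rw [Finset.card_erase_of_mem, hfx]
    simp
  rw [← h4]
  refine Finset.card_le_card_of_injOn (fun x => x / x0) ?_ ?_
  · intro x hx
    obtain ⟨h5, h6⟩ := (Finset.mem_filter.1 hx).2
    simp only [Finset.coe_erase, Finset.coe_filter, Finset.mem_univ, true_and, Set.mem_sdiff, Set.mem_ofPred_eq,
      Set.mem_singleton_iff]
    refine ⟨?_, div_ne_zero h5 h1⟩
    rw [map_div₀, h6, h2, mul_div_mul_left _ _ hc]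
  · intro x _ y _ hxy
    exact (div_left_inj' h1).1 hxy

theorem card_units : (Finset.univ.filter fun x : K => x ≠ 0).card = Fintype.card K - 1 := by
  rw [Finset.filter_ne', Finset.card_erase_of_mem (Finset.mem_univ _), Finset.card_univ]

variable [Fintype (K ≃+* K)]

open Classical in
/-- **Fixed points**. -/
theorem card_good (h : Perm K)
    (hagr : ∀ a b c : K, ∃ (α : Kˣ) (σ : K ≃+* K) (β : K),
      h a = α * σ a + β ∧ h b = α * σ b + β ∧ h c = α * σ c + β)
    (h0 : h 0 = 0) {x : K} (hx : h x ≠ x) :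
    (Finset.univ.filter fun b : K => b ≠ 0 ∧ h b = b).card ≤
      ∑ ρ ∈ (Finset.univ : Finset (K ≃+* K)).erase 1, (fx ρ - 1) := by
  have hx0 : x ≠ 0 := by rintro rfl; exact hx h0
  have hx1 : h x ≠ 0 := by rw [← h0]; exact fun h1 => hx0 (h.injective h1)
  have hsub : (Finset.univ.filter fun b : K => b ≠ 0 ∧ h b = b) ⊆
      ((Finset.univ : Finset (K ≃+* K)).erase 1).biUnion fun ρ => sol ρ (ρ x / h x) := by
    intro b hb
    obtain ⟨hb0, hb1⟩ := (Finset.mem_filter.1 hb).2
    obtain ⟨α, σ, β, e0, eb, ex⟩ := hagr 0 b x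
    rw [h0, map_zero, mul_zero, zero_add] at e0
    subst e0
    rw [add_zero] at eb ex
    have hσb : σ b ≠ 0 := fun h1 => hb0 ((map_eq_zero_iff σ σ.injective).1 h1)
    refine Finset.mem_biUnion.2 ⟨σ, Finset.mem_erase.2 ⟨?_, Finset.mem_univ _⟩, Finset.mem_filter.2
      ⟨Finset.mem_univ _, hb0, ?_⟩⟩
    · rintro rfl
      have h2 : (α : K) = 1 := by
        have h3 : (α : K) * b = b := by rw [← hb1]; conv_rhs => rw [eb]
                                        rw [hb1]; rfl
        exact mul_right_cancel₀ hb0 (by rw [h3, one_mul])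
      apply hx
      rw [ex, h2, one_mul]
      rfl
    · rw [hb1] at eb
      rw [div_mul_eq_mul_div, eq_div_iff hx1, ex]
      nth_rewrite 2 [eb]
      ring
  refine (Finset.card_le_card hsub).trans (Finset.card_biUnion_le.trans (Finset.sum_le_sum fun ρ _ => card_sol ρ _))

open Classical in
/-- **Non-fixed points**. -/
theorem card_bad (h : Perm K)
    (hagr : ∀ a b c : K, ∃ (α : Kˣ) (σ : K ≃+* K) (β : K),
      h a = α * σ a + β ∧ h b = α * σ b + β ∧ h c = α * σ c + β)
    (h0 : h 0 = 0) (h1 : h 1 = 1) (ζ : Kˣ) (hζ : ∀ x : Kˣ, x ∈ Subgroup.zpowers ζ) (hζ1 : h ζ = ζ) :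
    (Finset.univ.filter fun x : K => x ≠ 0 ∧ h x ≠ x).card ≤
      ∑ ρ ∈ (Finset.univ : Finset (K ≃+* K)).erase 1, (orderOf ρ - 2) * (fx ρ - 1) := by
  have hsub : (Finset.univ.filter fun x : K => x ≠ 0 ∧ h x ≠ x) ⊆
      ((Finset.univ : Finset (K ≃+* K)).erase 1).biUnion fun ρ =>
        (Finset.univ.filter fun τ : K ≃+* K => τ ∈ Subgroup.zpowers ρ ∧ τ ≠ 1 ∧ τ ≠ ρ⁻¹).biUnion
          fun τ => sol ρ ((τ⁻¹ : K ≃+* K) ζ / ζ) := by
    intro x hx
    obtain ⟨hx0, hx1⟩ := (Finset.mem_filter.1 hx).2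
    obtain ⟨α, σ, β, e0, e1, ex⟩ := hagr 0 1 x
    rw [h0, map_zero, mul_zero, zero_add] at e0
    subst e0
    rw [h1, map_one, mul_one, add_zero] at e1
    rw [← e1, one_mul, add_zero] at ex
    clear e1 α
    obtain ⟨α, τ, β, e0, eζ, ex'⟩ := hagr 0 ζ x
    rw [h0, map_zero, mul_zero, zero_add] at e0
    subst e0
    rw [hζ1, add_zero] at eζ
    rw [add_zero] at ex'
    have hζ0 : (ζ : K) ≠ 0 := ζ.ne_zero
    have hτζ : τ (ζ : K) ≠ 0 := fun h2 => hζ0 ((map_eq_zero_iff τ τ.injective).1 h2)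
    have hτx : τ x ≠ 0 := fun h2 => hx0 ((map_eq_zero_iff τ τ.injective).1 h2)
    have hα : (α : K) = ζ / τ ζ := by rw [eq_div_iff hτζ, ← eζ]
    have hσ1 : σ ≠ 1 := by
      rintro rfl
      exact hx1 ex
    have hτ1 : τ ≠ 1 := by
      rintro rfl
      apply hx1
      rw [ex', hα]
      change (ζ : K) / ζ * x = x
      rw [div_self hζ0, one_mul]
    have hfixζ : ∀ σ : K ≃+* K, σ (ζ : K) = ζ → σ = 1 := by
      intro σ hσ
      ext y
      change σ y = y
      rcases eq_or_ne y 0 with rfl | hy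
      · exact map_zero σ
      obtain ⟨k, hk⟩ := Subgroup.mem_zpowers_iff.1 (hζ (Units.mk0 y hy))
      have h2 : y = (ζ : K) ^ k := by rw [← Units.val_zpow_eq_zpow_val, hk]; rfl
      rw [h2, map_zpow₀, hσ]
    have hστ : σ x = ζ / τ ζ * τ x := by rw [← ex, ex', hα]
    have hρ : (τ⁻¹ * σ : K ≃+* K) x = (τ⁻¹ : K ≃+* K) ζ / ζ * x := by
      have h2 : (τ⁻¹ : K ≃+* K) (σ x) = (τ⁻¹ : K ≃+* K) (ζ / τ ζ * τ x) := by rw [hστ]
      have h3 : ∀ y, (τ⁻¹ : K ≃+* K) (τ y) = y := fun y => τ.symm_apply_apply y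
      rw [map_mul, map_div₀, h3, h3] at h2
      exact h2
    refine Finset.mem_biUnion.2 ⟨τ⁻¹ * σ, Finset.mem_erase.2 ⟨?_, Finset.mem_univ _⟩, Finset.mem_biUnion.2
      ⟨τ, Finset.mem_filter.2 ⟨Finset.mem_univ _, ?_, hτ1, ?_⟩, Finset.mem_filter.2 ⟨Finset.mem_univ _, hx0, hρ⟩⟩⟩
    · intro h2
      have h3 : σ = τ := (inv_mul_eq_one.1 h2).symm
      subst h3
      apply hσ1
      apply hfixζ
      have h4 : (1 : K) * σ x = ζ / σ ζ * σ x := by rw [one_mul]; exact hστ
      have h5 := mul_right_cancel₀ hτx h4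
      exact ((div_eq_one_iff_eq hτζ).1 h5.symm).symm
    · apply mem_zpowers_of_fix
      intro y hy
      rcases eq_or_ne y 0 with rfl | hy0
      · exact map_zero τ
      obtain ⟨k, hk⟩ := Subgroup.mem_zpowers_iff.1 (hζ (Units.mk0 y hy0))
      have h2 : y = (ζ : K) ^ k := by rw [← Units.val_zpow_eq_zpow_val, hk]; rfl
      obtain ⟨m, hm⟩ := Subgroup.mem_zpowers_iff.1 (hζ (Units.mk0 x hx0))
      have h3 : x = (ζ : K) ^ m := by rw [← Units.val_zpow_eq_zpow_val, hm]; rfl
      have h4 : x ^ k = y ^ m := by rw [h2, h3, ← zpow_mul, ← zpow_mul, mul_comm]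
      have h5 : (τ⁻¹ * σ : K ≃+* K) (x ^ k) = x ^ k := by rw [h4, map_zpow₀, hy]
      rw [map_zpow₀, hρ, mul_zpow, mul_eq_right₀ (zpow_ne_zero _ hx0), div_zpow, ← map_zpow₀, ← h2,
        div_eq_one_iff_eq hy0] at h5
      have h6 := congrArg τ h5
      have h7 : ∀ y, τ ((τ⁻¹ : K ≃+* K) y) = y := fun y => τ.apply_symm_apply y
      rw [h7] at h6
      exact h6.symm
    · rw [mul_inv_rev, inv_inv]
      intro h2
      exact hσ1 (inv_eq_one.1 (mul_eq_right.1 h2.symm))
  refine (Finset.card_le_card hsub).trans (Finset.card_biUnion_le.trans (Finset.sum_le_sum fun ρ hρ => ?_))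
  have hρ1 : ρ ≠ 1 := (Finset.mem_erase.1 hρ).1
  refine (Finset.card_biUnion_le.trans (Finset.sum_le_sum fun τ _ => card_sol ρ _)).trans ?_
  rw [Finset.sum_const, smul_eq_mul]
  refine Nat.mul_le_mul_right _ ?_
  have e1 : (Finset.univ.filter fun τ : K ≃+* K => τ ∈ Subgroup.zpowers ρ ∧ τ ≠ 1 ∧ τ ≠ ρ⁻¹) =
      ((Finset.univ.filter fun τ : K ≃+* K => τ ∈ Subgroup.zpowers ρ).erase 1).erase ρ⁻¹ := by
    ext τ
    simp only [Finset.mem_filter, Finset.mem_univ, true_and, Finset.mem_erase]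
    tauto
  rw [e1, Finset.card_erase_of_mem, Finset.card_erase_of_mem]
  · have e2 : (Finset.univ.filter fun τ : K ≃+* K => τ ∈ Subgroup.zpowers ρ).card = orderOf ρ := by
      rw [← Nat.card_zpowers, Nat.card_eq_fintype_card, ← Fintype.card_coe]
      refine Fintype.card_congr (Equiv.subtypeEquivRight fun τ => ?_)
      simp
    rw [e2]
    omega
  · simp
  · simp only [Finset.mem_erase, Finset.mem_filter, Finset.mem_univ, true_and]
    exact ⟨inv_ne_one.2 hρ1, Subgroup.inv_mem _ (Subgroup.mem_zpowers ρ)⟩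


open Classical in
/-- The normalized case. -/
theorem normalized (h : Perm K)
    (hagr : ∀ a b c : K, ∃ (α : Kˣ) (σ : K ≃+* K) (β : K),
      h a = α * σ a + β ∧ h b = α * σ b + β ∧ h c = α * σ c + β)
    (h0 : h 0 = 0) (h1 : h 1 = 1) (ζ : Kˣ) (hζ : ∀ x : Kˣ, x ∈ Subgroup.zpowers ζ) (hζ1 : h ζ = ζ) :
    ∀ x, h x = x := by
  by_contra hcon
  push Not at hcon
  obtain ⟨x, hx⟩ := hcon
  have hg := card_good h hagr h0 hx
  have hb := card_bad h hagr h0 h1 ζ hζ hζ1
  have hu : (Finset.univ.filter fun x : K => x ≠ 0).card =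
      (Finset.univ.filter fun x : K => x ≠ 0 ∧ h x = x).card + (Finset.univ.filter fun x : K => x ≠ 0 ∧ h x ≠ x).card := by
    rw [← Finset.card_filter_add_card_filter_not (s := Finset.univ.filter fun x : K => x ≠ 0) (fun x => h x = x),
      Finset.filter_filter, Finset.filter_filter]
  rw [card_units] at hu
  set q := Fintype.card K with hq
  have hq' : Nat.card K = q := Nat.card_eq_fintype_card
  have ho : ∀ ρ : K ≃+* K, ρ ≠ 1 → 2 ≤ orderOf ρ := by
    intro ρ hρ
    have h2 := orderOf_pos ρ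
    have h3 : orderOf ρ ≠ 1 := fun h4 => hρ (orderOf_eq_one_iff.1 h4)
    omega
  have hT : q - 1 ≤ ∑ ρ ∈ (Finset.univ : Finset (K ≃+* K)).erase 1, (orderOf ρ - 1) * (fx ρ - 1) := by
    rw [hu]
    refine (add_le_add hg hb).trans ?_
    rw [← Finset.sum_add_distrib]
    refine Finset.sum_le_sum fun ρ hρ => ?_
    have h2 := ho ρ (Finset.mem_erase.1 hρ).1
    obtain ⟨k, hk⟩ : ∃ k, orderOf ρ = k + 2 := ⟨orderOf ρ - 2, by omega⟩
    rw [hk, Nat.add_sub_cancel, show k + 2 - 1 = k + 1 by omega]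
    ring_nf
    exact le_refl _
  have hterm : ∀ ρ ∈ (Finset.univ : Finset (K ≃+* K)).erase 1, (orderOf ρ - 1) * (fx ρ - 1) ≤ Nat.sqrt q := by
    intro ρ hρ
    have h2 := num (orderOf ρ) (fx ρ) (ho ρ (Finset.mem_erase.1 hρ).1) (two_le_fx ρ)
    rw [fx_pow, hq'] at h2
    exact Nat.le_sqrt'.2 h2
  have hS := Finset.sum_le_card_nsmul _ _ _ hterm
  rw [Finset.card_erase_of_mem (Finset.mem_univ _), Finset.card_univ, smul_eq_mul] at hS
  set n := Fintype.card (K ≃+* K) with hn
  -- Artin for the whole group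
  obtain ⟨f, hf2, hf⟩ : ∃ f, 2 ≤ f ∧ f ^ n = q := by
    refine ⟨Nat.card (FixedPoints.subfield (⊤ : Subgroup (K ≃+* K)) K), ?_, ?_⟩
    · have : Nontrivial (FixedPoints.subfield (⊤ : Subgroup (K ≃+* K)) K) := inferInstance
      exact Finite.one_lt_card
    · have h3 := card_fix (⊤ : Subgroup (K ≃+* K))
      rw [Subgroup.card_top, Nat.card_eq_fintype_card (α := K ≃+* K), hq'] at h3
      exact h3
  have hs := Nat.sqrt_le' q
  have hq2 : 2 ≤ q := Fintype.one_lt_card
  set s := Nat.sqrt q with hs'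
  have hle := hT.trans hS
  have hn0 : 0 < n := Fintype.card_pos
  -- `n ≠ 1`
  rcases Nat.lt_or_ge n 2 with h2 | h2
  · have h3 : n - 1 = 0 := by omega
    rw [h3, zero_mul] at hle
    omega
  have hs1 : 2 ≤ s := by
    rw [hs', Nat.le_sqrt', ← hf]
    exact Nat.pow_le_pow_left hf2 2 |>.trans (Nat.pow_le_pow_right (by omega) h2)
  by_cases h4 : n ≤ s
  · have h5 : (n - 1) * s ≤ (s - 1) * s := Nat.mul_le_mul_right _ (by omega)
    obtain ⟨t, ht⟩ : ∃ t, s = t + 2 := ⟨s - 2, by omega⟩
    rw [ht] at h5 hs hle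
    have h6 : (t + 2 - 1) * (t + 2) + 2 ≤ (t + 2) ^ 2 := by
      rw [show t + 2 - 1 = t + 1 by omega]
      nlinarith
    omega
  · push Not at h4
    have h5 : q < n ^ 2 := by
      rw [hs', Nat.sqrt_lt'] at h4
      exact h4
    have h6 : 2 ^ n ≤ q := by rw [← hf]; exact Nat.pow_le_pow_left hf2 n
    have h7 : n < 4 := by
      by_contra h8
      push Not at h8
      have h9 : ∀ k, 4 ≤ k → k ^ 2 ≤ 2 ^ k := by
        intro k hk
        induction k, hk using Nat.le_induction with
        | base => norm_num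
        | succ k hk ih => rw [pow_succ 2 k]; nlinarith
      have := h9 n h8
      omega
    have h8 : n = 3 := by
      interval_cases n
      · norm_num at h5 h6; omega
      · rfl
    rw [h8] at h5 hf hle
    have h9 : f = 2 := by
      by_contra h10
      have h11 : 3 ≤ f := by omega
      have h12 := Nat.pow_le_pow_left h11 3
      omega
    rw [h9] at hf
    have h10 : s = 2 := by
      rw [hs', ← hf]
      norm_num
    omega

end

/-- **Lemma T0**. -/
theorem T0.main {K : Type*} [Field K] [Finite K] (h : Perm K)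
    (hagr : ∀ a b c : K, ∃ (α : Kˣ) (σ : K ≃+* K) (β : K),
      h a = α * σ a + β ∧ h b = α * σ b + β ∧ h c = α * σ c + β) :
    ∃ (α : Kˣ) (σ : K ≃+* K) (β : K), ∀ x, h x = α * σ x + β := by
  classical
  have : Fintype K := Fintype.ofFinite K
  have : Fintype (K ≃+* K) := Fintype.ofFinite _
  obtain ⟨ζ, hζ⟩ := IsCyclic.exists_generator (α := Kˣ)
  obtain ⟨α, σ, β, e0, e1, e2⟩ := hagr 0 1 ζ
  have hinv : ∀ y, (σ⁻¹ : K ≃+* K) (σ y) = y := fun y => σ.symm_apply_apply y
  have hinv' : ∀ y, σ ((σ⁻¹ : K ≃+* K) y) = y := fun y => σ.apply_symm_apply y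
  let g : Perm K := h.trans
    { toFun := fun y => (σ⁻¹ : K ≃+* K) ((y - β) / α)
      invFun := fun y => α * σ y + β
      left_inv := fun y => by
        change α * σ ((σ⁻¹ : K ≃+* K) ((y - β) / α)) + β = y
        rw [hinv', mul_div_cancel₀ _ α.ne_zero, sub_add_cancel]
      right_inv := fun y => by
        change (σ⁻¹ : K ≃+* K) ((α * σ y + β - β) / α) = y
        rw [add_sub_cancel_right, mul_div_cancel_left₀ _ α.ne_zero, hinv] }
  have hg : ∀ x, g x = (σ⁻¹ : K ≃+* K) ((h x - β) / α) := fun x => rfl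
  have key : ∀ x, g x = x := by
    refine normalized g ?_ ?_ ?_ ζ hζ ?_
    · intro a b c
      obtain ⟨α', σ', β', ea, eb, ec⟩ := hagr a b c
      have h3 : ∀ x, h x = α' * σ' x + β' → g x =
          ((Units.map ((σ⁻¹ : K ≃+* K) : K →* K) (α' / α) : Kˣ) : K) * (σ⁻¹ * σ') x + (σ⁻¹ : K ≃+* K) ((β' - β) / α) := by
        intro x hx
        have h4 : ((Units.map ((σ⁻¹ : K ≃+* K) : K →* K) (α' / α) : Kˣ) : K) = (σ⁻¹ : K ≃+* K) (α' / α) := by
          rw [Units.coe_map, Units.val_div_eq_div_val]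
          rfl
        have h5 : (σ⁻¹ * σ') x = (σ⁻¹ : K ≃+* K) (σ' x) := rfl
        rw [hg, hx, h4, h5, ← map_mul, ← map_add]
        congr 1
        ring
      exact ⟨_, _, _, h3 a ea, h3 b eb, h3 c ec⟩
    · rw [hg, e0, add_sub_cancel_right, mul_div_cancel_left₀ _ α.ne_zero, hinv]
    · rw [hg, e1, add_sub_cancel_right, mul_div_cancel_left₀ _ α.ne_zero, hinv]
    · rw [hg, e2, add_sub_cancel_right, mul_div_cancel_left₀ _ α.ne_zero, hinv]
  refine ⟨α, σ, β, fun x => ?_⟩
  have h3 := key x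
  rw [hg] at h3
  have h4 : (h x - β) / α = σ x := by rw [← hinv' ((h x - β) / α), h3]
  rw [div_eq_iff α.ne_zero] at h4
  rw [sub_eq_iff_eq_add.1 h4]
  ring

end Cfsg.Agent.H748.TcT0
end

-- part: H529/TcHilbertN
section
/-!
# Semilinear groups whose linear part is scalar (for S3621, helper412)

`main` : `A` an irreducible group of semilinear automorphisms of `V` over the finite field `K` containing the scalars,
whose linear elements are scalars. Then `V` has dimension one (Hilbert's theorem 90, norms of finite fields).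
-/

set_option autoImplicit false

namespace Cfsg.Agent.H529.TcHilbertN

open Cfsg.Agent.H412.Tc

instance finite_aut {K : Type*} [Field K] [Finite K] : Finite (K ≃+* K) :=
  Finite.of_injective (fun f : K ≃+* K => (f : K → K)) DFunLike.coe_injective

theorem isCyclic_sub {K : Type*} [Field K] [Finite K] (Γ : Subgroup (K ≃+* K)) : IsCyclic Γ := by
  let e := FixedPoints.toAlgAutMulEquiv Γ K
  exact isCyclic_of_surjective e.symm.toMonoidHom e.symm.surjective

/-- every element fixed by `γ` is a norm for the group `Γ` generated by `γ` -/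
theorem exists_norm {K : Type*} [Field K] [Finite K] (Γ : Subgroup (K ≃+* K)) (γ : Γ)
    (hγ : ∀ x : Γ, x ∈ Subgroup.zpowers γ) {c : K} (hc0 : c ≠ 0) (hc : (γ : K ≃+* K) c = c) :
    ∃ t : K, t ≠ 0 ∧ ∏ i ∈ Finset.range (orderOf γ), ((γ : K ≃+* K) ^ i) t = c := by
  classical
  let K0 := FixedPoints.subfield Γ K
  have hcK : c ∈ K0 := by
    intro x
    obtain ⟨k, hk⟩ := Subgroup.mem_zpowers_iff.1 (hγ x)
    have h1 : γ ∈ MulAction.stabilizer Γ c := hc
    have h2 := (MulAction.stabilizer Γ c).zpow_mem h1 k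
    rw [hk] at h2
    exact h2
  obtain ⟨t, ht⟩ := FiniteField.norm_surjective K0 K ⟨c, hcK⟩
  let _ : Fintype Γ := Fintype.ofFinite Γ
  have h1 := Algebra.norm_eq_prod_automorphisms K0 t
  rw [ht] at h1
  have h2 : ∏ σ : (K ≃ₐ[K0] K), σ t = ∏ x : Γ, (x : K ≃+* K) t :=
    (Fintype.prod_equiv (FixedPoints.toAlgAutMulEquiv Γ K).toEquiv _ _ (fun x => rfl)).symm
  have h3 : ∏ x : Γ, (x : K ≃+* K) t = ∏ i ∈ Finset.range (orderOf γ), ((γ : K ≃+* K) ^ i) t := by
    rw [← IsCyclic.image_range_orderOf hγ, Finset.prod_image]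
    · refine Finset.prod_congr rfl fun i _ => ?_
      rw [Subgroup.coe_pow]
    · intro i hi j hj hij
      exact pow_injOn_Iio_orderOf (Finset.mem_range.1 hi) (Finset.mem_range.1 hj) hij
  refine ⟨t, ?_, ?_⟩
  · rintro rfl
    rw [Algebra.norm_zero] at ht
    exact hc0 (congrArg Subtype.val ht).symm
  · rw [← h3, ← h2, ← h1]
    rfl

theorem main {K V : Type*} [Field K] [Finite K] [AddCommGroup V] [Module K V] [Finite V]
    [Nontrivial V] (A : Subgroup (GV V)) (hsemi : ∀ g ∈ A, Semi K g)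
    (hscal : ∀ c : Kˣ, scal K V c ∈ A)
    (hcent : ∀ g ∈ A, (∀ (c : K) (v : V), g • c • v = c • g • v) → ∃ c : Kˣ, g = scal K V c)
    (hirr : Irr A) : ∃ v : V, ∀ w, ∃ c : K, w = c • v := by
  classical
  obtain ⟨u, hu⟩ := exists_ne (0 : V)
  have hne : ∀ g : GV V, g • u ≠ 0 := by
    intro g h
    apply hu
    have h1 : g⁻¹ • g • u = u := inv_smul_smul g u
    rw [h, smul_zero] at h1
    exact h1.symm
  -- uniqueness of the field automorphism
  have huniq : ∀ (g : GV V) (σ τ : K ≃+* K), (∀ (c : K) (v : V), g • c • v = σ c • g • v) →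
      (∀ (c : K) (v : V), g • c • v = τ c • g • v) → σ = τ := by
    intro g σ τ h1 h2
    ext c
    have h3 : (σ c - τ c) • (g • u) = 0 := by rw [sub_smul, ← h1, ← h2, sub_self]
    exact sub_eq_zero.1 ((smul_eq_zero.1 h3).resolve_right (hne g))
  choose σ hσ using fun g : A => hsemi g g.2
  let φ : A →* (K ≃+* K) :=
    { toFun := σ
      map_one' := huniq (1 : A) _ _ (hσ 1) (by
        intro c v
        rw [OneMemClass.coe_one, one_smul, one_smul]
        rfl)
      map_mul' := fun g h => huniq (g * h : A) _ _ (hσ (g * h)) (by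
        intro c v
        show ((g : GV V) * (h : GV V)) • c • v = σ g (σ h c) • ((g : GV V) * (h : GV V)) • v
        rw [mul_smul, mul_smul, hσ h, hσ g]) }
  have hφ : ∀ (g : A) (c : K) (v : V), (g : GV V) • c • v = φ g c • (g : GV V) • v := hσ
  have hφ1 : ∀ g : A, φ g = 1 → ∃ c : Kˣ, (g : GV V) = scal K V c := by
    intro g hg
    refine hcent g g.2 fun c v => ?_
    rw [hφ, hg]
    rfl
  have hφs : ∀ c : Kˣ, φ ⟨scal K V c, hscal c⟩ = 1 := by
    intro c
    refine huniq (scal K V c) _ _ (hφ ⟨scal K V c, hscal c⟩) ?_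
    intro d v
    show scal K V c • d • v = d • scal K V c • v
    rw [scal_smul, scal_smul, smul_smul, smul_smul, mul_comm]
  -- a generator
  have hcyc : IsCyclic φ.range := isCyclic_sub φ.range
  obtain ⟨⟨_, g, rfl⟩, hγ⟩ := IsCyclic.exists_generator (α := φ.range)
  set τ : K ≃+* K := φ g with hτ
  set s := orderOf τ with hs
  have hs0 : 0 < s := orderOf_pos τ
  obtain ⟨c0, hc0⟩ := hφ1 (g ^ s) (by rw [map_pow, ← hτ, hs, pow_orderOf_eq_one])
  have hgs : ∀ v : V, ((g : GV V) ^ s) • v = (c0 : K) • v := by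
    intro v
    rw [← Subgroup.coe_pow, hc0, scal_smul]
  have hτc : τ (c0 : K) = c0 := by
    have h1 : (g : GV V) • (c0 : K) • u = (c0 : K) • (g : GV V) • u := by
      rw [← hgs, ← hgs, smul_smul, smul_smul, pow_mul_comm']
    rw [hφ] at h1
    have h3 : (τ (c0 : K) - c0) • ((g : GV V) • u) = 0 := by rw [sub_smul, h1, sub_self]
    exact sub_eq_zero.1 ((smul_eq_zero.1 h3).resolve_right (hne _))
  obtain ⟨t, ht0, ht⟩ := exists_norm φ.range ⟨τ, g, rfl⟩ hγ (c := ((c0 : K))⁻¹) (inv_ne_zero c0.ne_zero)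
    (by
      show τ ((c0 : K))⁻¹ = _
      rw [map_inv₀, hτc])
  have ho : orderOf (⟨τ, g, rfl⟩ : φ.range) = s := Subgroup.orderOf_mk _ _
  rw [ho] at ht
  -- the corrected element
  let g' : A := ⟨scal K V (Units.mk0 t ht0), hscal _⟩ * g
  have hg' : ∀ v : V, (g' : GV V) • v = t • (g : GV V) • v := by
    intro v
    show (scal K V (Units.mk0 t ht0) * (g : GV V)) • v = _
    rw [mul_smul, scal_smul]
    rfl
  have hφg' : φ g' = τ := by
    show φ (⟨scal K V (Units.mk0 t ht0), hscal _⟩ * g) = τ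
    rw [map_mul, hφs, one_mul]
  have hpow : ∀ (i : ℕ) (v : V), ((g' : GV V) ^ i) • v = (∏ j ∈ Finset.range i, (τ ^ j) t) • ((g : GV V) ^ i) • v := by
    intro i
    induction i with
    | zero => intro v; rw [pow_zero, pow_zero, Finset.range_zero, Finset.prod_empty, one_smul, one_smul]
    | succ i ih =>
      intro v
      have e : (∏ j ∈ Finset.range (i + 1), (τ ^ j) t) = t * τ (∏ j ∈ Finset.range i, (τ ^ j) t) := by
        rw [Finset.prod_range_succ', map_prod, mul_comm]
        congr 1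
        refine Finset.prod_congr rfl fun j _ => ?_
        rw [pow_succ']
        rfl
      rw [e, pow_succ' (g' : GV V), mul_smul, ih, hg', hφ, ← hτ, pow_succ' (g : GV V), mul_smul (g : GV V), smul_smul]
  have hone : ∀ v : V, ((g' : GV V) ^ s) • v = v := by
    intro v
    rw [hpow, ht, hgs, smul_smul, inv_mul_cancel₀ c0.ne_zero, one_smul]
  have hsl : ∀ (i : ℕ) (c : K) (v : V), ((g' : GV V) ^ i) • c • v = (τ ^ i) c • ((g' : GV V) ^ i) • v := by
    intro i c v
    have h1 := hφ (g' ^ i) c v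
    rw [map_pow, hφg', Subgroup.coe_pow] at h1
    exact h1
  -- a fixed vector
  have hex : ∃ l : K, ∑ i ∈ Finset.range s, ((g' : GV V) ^ i) • l • u ≠ 0 := by
    by_contra hcon
    push Not at hcon
    obtain ⟨f, hf⟩ : ∃ f : Module.Dual K V, f u ≠ 0 := by
      by_contra h
      push Not at h
      exact hu ((Module.forall_dual_apply_eq_zero_iff K u).1 h)
    have hli : LinearIndependent K (fun i : Fin s => (((τ ^ (i : ℕ) : K ≃+* K) : K →* K) : K → K)) := by
      refine (linearIndependent_monoidHom K K).comp (fun i : Fin s => ((τ ^ (i : ℕ) : K ≃+* K) : K →* K)) ?_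
      intro i j hij
      have h1 : (τ ^ (i : ℕ) : K ≃+* K) = τ ^ (j : ℕ) := by
        ext x
        exact congrArg (fun f : K →* K => f x) hij
      exact Fin.ext (pow_injOn_Iio_orderOf i.2 j.2 h1)
    have h1 := Fintype.linearIndependent_iff.1 hli (fun i => f (((g' : GV V) ^ (i : ℕ)) • u)) (by
      funext l
      have h2 := congrArg f (hcon l)
      rw [map_sum, map_zero, ← Fin.sum_univ_eq_sum_range (fun i => f (((g' : GV V) ^ i) • l • u))] at h2
      rw [Finset.sum_apply, Pi.zero_apply, ← h2]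
      refine Finset.sum_congr rfl fun i _ => ?_
      show f (((g' : GV V) ^ (i : ℕ)) • u) * (τ ^ (i : ℕ)) l = f (((g' : GV V) ^ (i : ℕ)) • l • u)
      rw [hsl, LinearMap.map_smul f, smul_eq_mul, mul_comm]) ⟨0, hs0⟩
    apply hf
    have h3 : f (((g' : GV V) ^ 0) • u) = 0 := h1
    rwa [pow_zero, one_smul] at h3
  obtain ⟨l, hl⟩ := hex
  set v : V := ∑ i ∈ Finset.range s, ((g' : GV V) ^ i) • l • u with hv
  have hfix : (g' : GV V) • v = v := by
    have h1 : (g' : GV V) • v = ∑ i ∈ Finset.range s, ((g' : GV V) ^ (i + 1)) • l • u := by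
      rw [hv, Finset.smul_sum]
      refine Finset.sum_congr rfl fun i _ => ?_
      rw [pow_succ', mul_smul]
    have h2 := Finset.sum_range_succ' (fun i => ((g' : GV V) ^ i) • l • u) s
    have h3 := Finset.sum_range_succ (fun i => ((g' : GV V) ^ i) • l • u) s
    rw [h1]
    have h4 : ((g' : GV V) ^ s) • l • u = ((g' : GV V) ^ 0) • l • u := by rw [hone, pow_zero, one_smul]
    rw [h3, h4] at h2
    exact (add_right_cancel h2).symm
  have hfixz : ∀ k : ℤ, ((g' : GV V) ^ k) • v = v := by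
    intro k
    have h1 : (g' : GV V) ∈ MulAction.stabilizer (GV V) v := hfix
    exact (MulAction.stabilizer (GV V) v).zpow_mem h1 k
  -- the line
  let U : AddSubgroup V :=
    { carrier := {w | ∃ c : K, w = c • v}
      add_mem' := by
        rintro _ _ ⟨c, rfl⟩ ⟨d, rfl⟩
        exact ⟨c + d, (add_smul _ _ _).symm⟩
      zero_mem' := ⟨0, (zero_smul _ _).symm⟩
      neg_mem' := by
        rintro _ ⟨c, rfl⟩
        exact ⟨-c, (neg_smul _ _).symm⟩ }
  have hU : ∀ a ∈ A, ∀ w ∈ U, a • w ∈ U := by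
    rintro a ha _ ⟨c, rfl⟩
    obtain ⟨k, hk⟩ := Subgroup.mem_zpowers_iff.1 (hγ ⟨φ ⟨a, ha⟩, ⟨a, ha⟩, rfl⟩)
    have hk' : τ ^ k = φ ⟨a, ha⟩ := congrArg Subtype.val hk
    obtain ⟨d, hd⟩ := hφ1 (⟨a, ha⟩ * (g' ^ k)⁻¹) (by
      rw [map_mul, map_inv, map_zpow, hφg', hk', mul_inv_cancel])
    have hd' : a * ((g' : GV V) ^ k)⁻¹ = scal K V d := hd
    have h1 : a = scal K V d * (g' : GV V) ^ k := by rw [← hd', inv_mul_cancel_right]
    refine ⟨φ ⟨a, ha⟩ c * d, ?_⟩
    have h2 := hφ ⟨a, ha⟩ c v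
    rw [show ((⟨a, ha⟩ : A) : GV V) = a from rfl] at h2
    have h3 : a • v = (d : K) • v := by
      rw [h1, mul_smul, hfixz, scal_smul]
    rw [h2, h3, smul_smul]
  rcases hirr U hU with h | h
  · exfalso
    have h1 : v ∈ U := ⟨1, (one_smul _ _).symm⟩
    rw [h] at h1
    exact hl h1
  · refine ⟨v, fun w => ?_⟩
    have h1 : w ∈ U := by rw [h]; exact AddSubgroup.mem_top w
    exact h1

end Cfsg.Agent.H529.TcHilbertN
end

-- part: H344/TcStepE
section
/-!
# Three-closures of solvable groups: the semilinear case (lemma StepE of the plan for S3621)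

If `A` consists of `K`-semilinear maps of a `K`-space of dimension at least two, `3 ≤ |K|`, then
the 3-closure of the affine group over `A` is contained in the affine group over `cl2 A`, and
`cl2 A` again consists of semilinear maps.
-/

set_option autoImplicit false

namespace Cfsg.Agent.H344.TcStepE

open Equiv Cfsg.Agent.H412.Tc

section Ind

variable {K V : Type*} [Field K] [AddCommGroup V] [Module K V]

/-- Linear independence of a pair. -/
def Ind (K : Type*) {V : Type*} [Field K] [AddCommGroup V] [Module K V] (a b : V) : Prop :=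
  ∀ s t : K, s • a + t • b = 0 → s = 0 ∧ t = 0

theorem Ind.symm {a b : V} (h : Ind K a b) : Ind K b a := by
  intro s t hst
  rw [add_comm] at hst
  exact (h t s hst).symm

theorem Ind.eq {a b : V} (h : Ind K a b) {s t s' t' : K}
    (he : s • a + t • b = s' • a + t' • b) : s = s' ∧ t = t' := by
  have h1 : (s - s') • a + (t - t') • b = 0 := by
    rw [sub_smul, sub_smul]
    rw [← sub_eq_zero] at he
    rw [← he]
    abel
  obtain ⟨h2, h3⟩ := h _ _ h1
  exact ⟨sub_eq_zero.1 h2, sub_eq_zero.1 h3⟩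

theorem Ind.left_ne {a b : V} (h : Ind K a b) : a ≠ 0 := by
  rintro rfl
  have := (h 1 0 (by simp)).1
  exact one_ne_zero this

theorem Ind.right_ne {a b : V} (h : Ind K a b) : b ≠ 0 := h.symm.left_ne

theorem Ind.add_smul_left {a b : V} (h : Ind K a b) (k : K) : Ind K (a + k • b) b := by
  intro s t hst
  have h1 : s • a + (s * k + t) • b = 0 := by
    rw [← hst, smul_add, add_smul, smul_smul]
    abel
  obtain ⟨h2, h3⟩ := h _ _ h1
  refine ⟨h2, ?_⟩
  rw [h2, zero_mul, zero_add] at h3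
  exact h3

theorem Ind.smul_left {a b : V} (h : Ind K a b) {k : K} (hk : k ≠ 0) : Ind K (k • a) b := by
  intro s t hst
  rw [smul_smul] at hst
  obtain ⟨h2, h3⟩ := h _ _ hst
  exact ⟨(mul_eq_zero.1 h2).resolve_right hk, h3⟩

theorem exists_smul_of_not {a b : V} (h : ¬ Ind K a b) (hb : b ≠ 0) : ∃ k : K, a = k • b := by
  unfold Ind at h
  push Not at h
  obtain ⟨s, t, hst, hne⟩ := h
  by_cases hs : s = 0
  · exfalso
    rw [hs, zero_smul, zero_add, smul_eq_zero] at hst
    exact hst.elim (hne hs) hb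
  · refine ⟨-(s⁻¹ * t), ?_⟩
    have h1 : s⁻¹ • (s • a + t • b) = 0 := by rw [hst, smul_zero]
    rw [smul_add, smul_smul, smul_smul, inv_mul_cancel₀ hs, one_smul] at h1
    rw [neg_smul]
    exact eq_neg_of_add_eq_zero_left h1

theorem ind_of_ne {a d : V} (ha : a ≠ 0) (hd : ∀ c : K, d ≠ c • a) : Ind K a d := by
  by_contra h
  have h' : ¬ Ind K d a := fun h1 => h h1.symm
  obtain ⟨k, hk⟩ := exists_smul_of_not h' ha
  exact hd k hk

theorem smul_eq_zero' (g : GV V) {v : V} (h : g • v = 0) : v = 0 := by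
  have h1 : g⁻¹ • g • v = g⁻¹ • (0 : V) := by rw [h]
  rwa [inv_smul_smul, smul_zero] at h1

theorem Ind.map {a b : V} (h : Ind K a b) {g : GV V} (hg : Semi K g) :
    Ind K (g • a) (g • b) := by
  obtain ⟨σ, hσ⟩ := hg
  intro s t hst
  have h1 : g • (σ.symm s • a + σ.symm t • b) = 0 := by
    rw [smul_add, hσ, hσ, σ.apply_symm_apply, σ.apply_symm_apply, hst]
  obtain ⟨h2, h3⟩ := h _ _ (smul_eq_zero' g h1)
  exact ⟨(map_eq_zero_iff _ σ.symm.injective).1 h2, (map_eq_zero_iff _ σ.symm.injective).1 h3⟩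

end Ind

variable {K V : Type*} [Field K] [Finite K] [AddCommGroup V] [Module K V] [Finite V]

omit [Finite V] in
/-- An additive map agreeing on pairs with semilinear ones is semilinear. -/
theorem semi_of_cl2 (hdim : ∀ v : V, ∃ w, ∀ c : K, w ≠ c • v) (A : Subgroup (GV V))
    (hA : ∀ g ∈ A, Semi K g) (h : GV V) (hh : h ∈ cl2 A) : Semi K h := by
  have hmul : ∀ (c : K) (v : V), ∃ c' : K, h • c • v = c' • h • v := by
    intro c v
    obtain ⟨g, hg, h1, h2⟩ := mem_cl2.1 hh v (c • v)
    obtain ⟨σ, hσ⟩ := hA g hg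
    exact ⟨σ c, by rw [← h2, hσ, h1]⟩
  have hind : ∀ v w : V, Ind K v w → Ind K (h • v) (h • w) := by
    intro v w hvw
    obtain ⟨g, hg, h1, h2⟩ := mem_cl2.1 hh v w
    rw [← h1, ← h2]
    exact hvw.map (hA g hg)
  have key : ∀ (c : K) (v w : V), Ind K v w → ∀ k : K, h • c • v = k • h • v →
      h • c • w = k • h • w := by
    intro c v w hvw k hk
    obtain ⟨l, hl⟩ := hmul c w
    obtain ⟨m, hm⟩ := hmul c (v + w)
    rw [smul_add, smul_add, hk, hl, smul_add, smul_add] at hm
    obtain ⟨h1, h2⟩ := (hind v w hvw).eq hm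
    rw [hl, h1, h2]
  obtain ⟨v0, hv0⟩ := hdim 0
  have hv0' : v0 ≠ 0 := by
    intro h0
    exact hv0 0 (by rw [h0, zero_smul])
  have hhv0 : h • v0 ≠ 0 := fun h1 => hv0' (smul_eq_zero' h h1)
  choose τ hτ using fun c => hmul c v0
  have hall : ∀ (c : K) (v : V), h • c • v = τ c • h • v := by
    intro c v
    by_cases hv : v = 0
    · rw [hv, smul_zero, smul_zero, smul_zero]
    by_cases hi : Ind K v0 v
    · exact key c v0 v hi _ (hτ c)
    · have hi' : ¬ Ind K v v0 := fun h1 => hi h1.symm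
      obtain ⟨k, hk⟩ := exists_smul_of_not hi' hv0'
      have hk0 : k ≠ 0 := by
        rintro rfl
        exact hv (by rw [hk, zero_smul])
      obtain ⟨d, hd⟩ := hdim v0
      have h1 : Ind K v0 d := ind_of_ne hv0' hd
      have h2 := key c v0 d h1 _ (hτ c)
      have h3 : Ind K d v := by
        rw [hk]
        exact (h1.smul_left hk0).symm
      exact key c d v h3 _ h2
  have hcan : ∀ s t : K, s • h • v0 = t • h • v0 → s = t := by
    intro s t hst
    exact smul_left_injective K hhv0 hst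
  let f : K →+* K :=
    { toFun := τ
      map_one' := by
        apply hcan
        rw [← hτ, one_smul, one_smul]
      map_mul' := by
        intro c d
        apply hcan
        rw [← hτ, mul_smul, hall, hτ, mul_smul]
      map_zero' := by
        apply hcan
        rw [← hτ, zero_smul, zero_smul, smul_zero]
      map_add' := by
        intro c d
        apply hcan
        rw [← hτ, add_smul, smul_add, hτ, hτ, add_smul] }
  refine ⟨RingEquiv.ofBijective f ?_, fun c v => hall c v⟩
  exact (Finite.injective_iff_bijective).1 f.injective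

omit [Finite V] in
/-- An element of the 3-closure of the affine group fixing zero is additive on independent
pairs. -/
theorem add_of_ind (hK : 3 ≤ Nat.card K) (A : Subgroup (GV V)) (hA : ∀ g ∈ A, Semi K g)
    (f : V → V) (hf : Function.Injective f)
    (P1 : ∀ x y : V, ∃ g ∈ A, g • x = f x ∧ g • y = f y)
    (P2 : ∀ x y z : V, ∃ g ∈ A, g • (y - x) = f y - f x ∧ g • (z - x) = f z - f x)
    (a b : V) (hab : Ind K a b) : f (a + b) = f a + f b := by
  have hline : ∀ (x y : V) (c : K), ∃ c' : K, f (x + c • (y - x)) = f x + c' • (f y - f x) := by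
    intro x y c
    obtain ⟨g, hg, h1, h2⟩ := P2 x y (x + c • (y - x))
    obtain ⟨σ, hσ⟩ := hA g hg
    refine ⟨σ c, ?_⟩
    rw [add_sub_cancel_left, hσ, h1] at h2
    rw [h2]
    abel
  have hind : ∀ v w : V, Ind K v w → Ind K (f v) (f w) := by
    intro v w hvw
    obtain ⟨g, hg, h1, h2⟩ := P1 v w
    rw [← h1, ← h2]
    exact hvw.map (hA g hg)
  have hmul : ∀ (c : K) (v : V), ∃ c' : K, f (c • v) = c' • f v := by
    intro c v
    obtain ⟨g, hg, h1, h2⟩ := P1 v (c • v)
    obtain ⟨σ, hσ⟩ := hA g hg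
    exact ⟨σ c, by rw [← h2, hσ, h1]⟩
  -- a scalar different from zero and one
  obtain ⟨c, hc0, hc1⟩ : ∃ c : K, c ≠ 0 ∧ c ≠ 1 := by
    by_contra hcon
    push Not at hcon
    have h1 : (Set.univ : Set K) ⊆ {0, 1} := by
      intro c _
      by_cases hc : c = 0
      · exact Or.inl hc
      · exact Or.inr (hcon c hc)
    have h2 : Nat.card K ≤ 2 := by
      rw [← Set.ncard_univ]
      exact (Set.ncard_le_ncard h1).trans (Set.ncard_insert_le _ _ |>.trans (by simp))
    omega
  have hc1' : 1 - c ≠ 0 := sub_ne_zero.2 (Ne.symm hc1)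
  obtain ⟨α, β, hαβ⟩ : ∃ α β : K, f (a + b) = α • f a + β • f b := by
    obtain ⟨c', hc'⟩ := hline ((1 - c)⁻¹ • a) (c⁻¹ • b) c
    obtain ⟨s, hs⟩ := hmul (1 - c)⁻¹ a
    obtain ⟨t, ht⟩ := hmul c⁻¹ b
    have h1 : (1 - c)⁻¹ • a + c • (c⁻¹ • b - (1 - c)⁻¹ • a) = a + b := by
      have e1 : c • (c⁻¹ • b) = b := by rw [smul_smul, mul_inv_cancel₀ hc0, one_smul]
      have e2 : (1 - c)⁻¹ • a - c • (1 - c)⁻¹ • a = a := by
        have : (1 - c)⁻¹ • a - c • (1 - c)⁻¹ • a = (1 - c) • (1 - c)⁻¹ • a := by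
          rw [sub_smul, one_smul]
        rw [this, smul_smul, mul_inv_cancel₀ hc1', one_smul]
      rw [smul_sub, e1]
      calc (1 - c)⁻¹ • a + (b - c • (1 - c)⁻¹ • a)
          = ((1 - c)⁻¹ • a - c • (1 - c)⁻¹ • a) + b := by abel
        _ = a + b := by rw [e2]
    rw [h1, hs, ht] at hc'
    refine ⟨(1 - c') * s, c' * t, ?_⟩
    rw [hc', mul_smul, mul_smul, sub_smul, one_smul, smul_sub]
    abel
  -- the coefficients are one
  have hone : ∀ (a b : V), Ind K a b → ∀ α β : K, f (a + b) = α • f a + β • f b → α = 1 := by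
    intro a b hab α β hαβ
    by_contra hα
    have hα' : 1 - α ≠ 0 := sub_ne_zero.2 (Ne.symm hα)
    choose φ hφ using fun k => hline a (a + b) k
    have hφinj : Function.Injective φ := by
      intro k l hkl
      have h1 : f (a + k • (a + b - a)) = f (a + l • (a + b - a)) := by
        rw [hφ, hφ, hkl]
      have h2 := hf h1
      rw [add_sub_cancel_left] at h2
      exact smul_left_injective K hab.right_ne (add_left_cancel h2)
    obtain ⟨k, hk⟩ := (Finite.injective_iff_surjective.1 hφinj) (1 - α)⁻¹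
    have h1 := hφ k
    rw [hk, hαβ, add_sub_cancel_left] at h1
    have h2 : f a + (1 - α)⁻¹ • (α • f a + β • f b - f a) = ((1 - α)⁻¹ * β) • f b := by
      have e1 : α • f a + β • f b - f a = β • f b - (1 - α) • f a := by
        rw [sub_smul, one_smul]; abel
      rw [e1, smul_sub, smul_smul, smul_smul, inv_mul_cancel₀ hα', one_smul]
      abel
    rw [h2] at h1
    have h3 := hind _ _ (hab.add_smul_left k)
    have h4 := h3 1 (-((1 - α)⁻¹ * β)) (by rw [h1, one_smul, neg_smul]; abel)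
    exact one_ne_zero h4.1
  have h1 := hone a b hab α β hαβ
  have h2 := hone b a hab.symm β α (by rw [add_comm b a, hαβ]; abel)
  rw [hαβ, h1, h2, one_smul, one_smul]

theorem main
    (hK : 3 ≤ Nat.card K) (hdim : ∀ v : V, ∃ w, ∀ c : K, w ≠ c • v) (A : Subgroup (GV V))
    (hA : ∀ g ∈ A, Semi K g) :
    cl (Aff A) ≤ Aff (cl2 A) ∧ ∀ h ∈ cl2 A, Semi K h := by
  refine ⟨?_, fun h hh => semi_of_cl2 hdim A hA h hh⟩
  intro h hh
  let f : V → V := fun x => h x - h 0
  have hf0 : f 0 = 0 := sub_self _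
  have hinj : Function.Injective f := by
    intro x y hxy
    exact h.injective (sub_left_injective hxy)
  have P2 : ∀ x y z : V, ∃ g ∈ A, g • (y - x) = f y - f x ∧ g • (z - x) = f z - f x := by
    intro x y z
    obtain ⟨k, hk, h1, h2, h3⟩ := mem_cl.1 hh x y z
    obtain ⟨g, hg, t, ht⟩ := mem_Aff.1 hk
    refine ⟨g, hg, ?_, ?_⟩
    · have e : f y - f x = h y - h x := by simp only [f]; abel
      rw [e, ← h1, ← h2, ht, ht, smul_sub]
      abel
    · have e : f z - f x = h z - h x := by simp only [f]; abel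
      rw [e, ← h1, ← h3, ht, ht, smul_sub]
      abel
  have P1 : ∀ x y : V, ∃ g ∈ A, g • x = f x ∧ g • y = f y := by
    intro x y
    obtain ⟨g, hg, h1, h2⟩ := P2 0 x y
    rw [sub_zero, hf0, sub_zero] at h1 h2
    exact ⟨g, hg, h1, h2⟩
  have hadd : ∀ a b : V, f (a + b) = f a + f b := by
    intro a b
    by_cases ha : a = 0
    · rw [ha, hf0, zero_add, zero_add]
    by_cases hb : b = 0
    · rw [hb, hf0, add_zero, add_zero]
    by_cases hab : Ind K a b
    · exact add_of_ind hK A hA f hinj P1 P2 a b hab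
    have hba : ¬ Ind K b a := fun h1 => hab h1.symm
    obtain ⟨k, hk⟩ := exists_smul_of_not hba ha
    have hk0 : k ≠ 0 := by
      rintro rfl
      exact hb (by rw [hk, zero_smul])
    obtain ⟨d, hd⟩ := hdim a
    have had : Ind K a d := ind_of_ne ha hd
    have hbd : Ind K b d := by rw [hk]; exact had.smul_left hk0
    have h1 : f (b + d) = f b + f d := add_of_ind hK A hA f hinj P1 P2 b d hbd
    have hda : Ind K (d + k • a) a := had.symm.add_smul_left k
    have h2 : f (a + (b + d)) = f a + f (b + d) := by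
      apply add_of_ind hK A hA f hinj P1 P2
      rw [add_comm b d, hk]
      exact hda.symm
    have h3 : f ((a + b) + d) = f (a + b) + f d := by
      by_cases hab0 : a + b = 0
      · rw [hab0, hf0, zero_add, zero_add]
      · apply add_of_ind hK A hA f hinj P1 P2
        have e : a + b = (1 + k) • a := by rw [add_smul, one_smul, hk]
        rw [e]
        apply had.smul_left
        intro h0
        exact hab0 (by rw [e, h0, zero_smul])
    rw [← add_assoc, h3, h1, ← add_assoc] at h2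
    exact add_right_cancel h2
  let F : V →+ V := ⟨⟨f, hf0⟩, hadd⟩
  let e : V ≃+ V := AddEquiv.ofBijective F ((Finite.injective_iff_bijective).1 hinj)
  let u : GV V := ⟨e.toAddMonoidHom, e.symm.toAddMonoidHom, by ext x; exact e.apply_symm_apply x,
    by ext x; exact e.symm_apply_apply x⟩
  have hu : ∀ x, u • x = f x := fun x => rfl
  refine mem_Aff.2 ⟨u, ?_, h 0, fun x => ?_⟩
  · refine mem_cl2.2 fun x y => ?_
    rw [hu, hu]
    exact P1 x y
  · rw [hu]
    simp only [f]
    abel

end Cfsg.Agent.H344.TcStepE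
end

-- part: H216/TcT3
section
/-!
# Three-closures of solvable groups: the centralizer of the Heisenberg group (helper216)

`T3.main` : in the situation `SetB`, a subgroup of `cl2 A` centralizing `B` is solvable.
-/

set_option autoImplicit false

namespace Cfsg.Agent.H216.TcT3

open Equiv Cfsg.Agent.H412.Tc

universe u

section ring

variable {V : Type*} [AddCommGroup V]

/-- the subring generated by `B` -/
def RR (B : Subgroup (GV V)) : Subring (AddMonoid.End V) :=
  Subring.closure (Units.val '' (B : Set (GV V)))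

theorem mem_RR {B : Subgroup (GV V)} {b : GV V} (hb : b ∈ B) : (b : AddMonoid.End V) ∈ RR B :=
  Subring.subset_closure ⟨b, hb, rfl⟩

theorem conj_RR {B : Subgroup (GV V)} {h : GV V} (hn : ∀ b ∈ B, h * b * h⁻¹ ∈ B)
    {r : AddMonoid.End V} (hr : r ∈ RR B) : (h : AddMonoid.End V) * r * ((h⁻¹ : GV V) : AddMonoid.End V) ∈ RR B := by
  have hh : ((h⁻¹ : GV V) : AddMonoid.End V) * (h : AddMonoid.End V) = 1 := Units.inv_mul h
  have hh' : (h : AddMonoid.End V) * ((h⁻¹ : GV V) : AddMonoid.End V) = 1 := Units.mul_inv h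
  unfold RR at hr
  induction hr using Subring.closure_induction with
  | mem x hx =>
    obtain ⟨b, hb, rfl⟩ := hx
    have := mem_RR (hn b hb)
    rwa [Units.val_mul, Units.val_mul] at this
  | zero => rw [mul_zero, zero_mul]; exact zero_mem _
  | one => rw [mul_one, hh']; exact one_mem _
  | add x y _ _ hx hy => rw [mul_add, add_mul]; exact add_mem hx hy
  | neg x _ hx => rw [mul_neg, neg_mul]; exact neg_mem hx
  | mul x y _ _ hx hy =>
    have e : (h : AddMonoid.End V) * (x * y) * ((h⁻¹ : GV V) : AddMonoid.End V) =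
      ((h : AddMonoid.End V) * x * ((h⁻¹ : GV V) : AddMonoid.End V)) *
        ((h : AddMonoid.End V) * y * ((h⁻¹ : GV V) : AddMonoid.End V)) := by
      calc (h : AddMonoid.End V) * (x * y) * ((h⁻¹ : GV V) : AddMonoid.End V)
          = (h : AddMonoid.End V) * x * (((h⁻¹ : GV V) : AddMonoid.End V) * (h : AddMonoid.End V)) * y *
              ((h⁻¹ : GV V) : AddMonoid.End V) := by rw [hh, mul_one]; simp only [mul_assoc]
        _ = _ := by simp only [mul_assoc]
    rw [e]; exact mul_mem hx hy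

theorem comm_RR {B : Subgroup (GV V)} {h : GV V} (hc : ∀ b ∈ B, h * b = b * h)
    {r : AddMonoid.End V} (hr : r ∈ RR B) : (h : AddMonoid.End V) * r = r * h := by
  unfold RR at hr
  induction hr using Subring.closure_induction with
  | mem x hx =>
    obtain ⟨b, hb, rfl⟩ := hx
    exact congrArg Units.val (hc b hb)
  | zero => rw [mul_zero, zero_mul]
  | one => rw [mul_one, one_mul]
  | add x y _ _ hx hy => rw [mul_add, add_mul, hx, hy]
  | neg x _ hx => rw [mul_neg, neg_mul, hx]
  | mul x y _ _ hx hy => rw [← mul_assoc, hx, mul_assoc, hy, mul_assoc]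

variable (R : Subring (AddMonoid.End V))

/-- `u` generates a simple submodule -/
def Simp (u : V) : Prop := u ≠ 0 ∧ ∀ r ∈ R, r u ≠ 0 → ∃ s ∈ R, s (r u) = u

/-- the vectors killed by the annihilator of `u` -/
def Ve (u : V) : AddSubgroup V where
  carrier := {v | ∀ r ∈ R, r u = 0 → r v = 0}
  add_mem' := fun {a b} ha hb r hr h => by rw [map_add, ha r hr h, hb r hr h, add_zero]
  zero_mem' := fun r _ _ => map_zero r
  neg_mem' := fun {a} ha r hr h => by rw [map_neg, ha r hr h, neg_zero]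

theorem mem_Ve {u v : V} : v ∈ Ve R u ↔ ∀ r ∈ R, r u = 0 → r v = 0 := Iff.rfl

theorem self_mem_Ve (u : V) : u ∈ Ve R u := fun _ _ h => h

variable {R}

theorem exists_simp [Finite V] {v : V} (hv : v ≠ 0) : ∃ u, Simp R u := by
  let ev : V → (AddMonoid.End V →+ V) := fun v =>
    { toFun := fun f => f v, map_zero' := rfl, map_add' := fun _ _ => rfl }
  obtain ⟨u, hu, hmin⟩ := Set.exists_min_image {v : V | v ≠ 0}
    (fun v => Nat.card (R.toAddSubgroup.map (ev v))) (Set.toFinite _) ⟨v, hv⟩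
  refine ⟨u, hu, fun r hr hru => ?_⟩
  have h1 : R.toAddSubgroup.map (ev (r u)) ≤ R.toAddSubgroup.map (ev u) := by
    rintro _ ⟨s, hs, rfl⟩
    exact ⟨s * r, R.mul_mem hs hr, rfl⟩
  have h2 := AddSubgroup.eq_of_le_of_card_ge h1 (hmin _ hru)
  have h3 : u ∈ R.toAddSubgroup.map (ev (r u)) := by
    rw [h2]; exact ⟨1, R.one_mem, rfl⟩
  obtain ⟨s, hs, h⟩ := h3
  exact ⟨s, hs, h⟩

theorem Simp.ann {u x : V} (hu : Simp R u) (hx : x ∈ Ve R u) (hx0 : x ≠ 0) {r : AddMonoid.End V} (hr : r ∈ R) :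
    r x = 0 ↔ r u = 0 := by
  refine ⟨fun h => ?_, hx r hr⟩
  by_contra hru
  obtain ⟨s, hs, hsu⟩ := hu.2 r hr hru
  apply hx0
  have h1 : (s * r - 1) x = 0 := hx _ (R.sub_mem (R.mul_mem hs hr) R.one_mem) (by
    show s (r u) - u = 0
    rw [hsu, sub_self])
  have h2 : s (r x) - x = 0 := h1
  rw [h, map_zero, zero_sub, neg_eq_zero] at h2
  exact h2

theorem Simp.Ve_eq {u x : V} (hu : Simp R u) (hx : x ∈ Ve R u) (hx0 : x ≠ 0) : Ve R x = Ve R u := by
  ext v
  exact ⟨fun h r hr hru => h r hr ((hu.ann hx hx0 hr).2 hru), fun h r hr hrx => h r hr ((hu.ann hx hx0 hr).1 hrx)⟩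

/-- elements normalizing `R` -/
def Nm (R : Subring (AddMonoid.End V)) (h : GV V) : Prop :=
  ∀ r ∈ R, (h : AddMonoid.End V) * r * ((h⁻¹ : GV V) : AddMonoid.End V) ∈ R

theorem Nm.app {h : GV V} (r : AddMonoid.End V) (v : V) :
    ((h : AddMonoid.End V) * r * ((h⁻¹ : GV V) : AddMonoid.End V)) (h • v) = h • r v := by
  show (h : AddMonoid.End V) (r (h⁻¹ • h • v)) = _
  rw [inv_smul_smul]; rfl

theorem Nm.smul_mem {h : GV V} (hh' : Nm R h⁻¹) {u v : V} (hv : v ∈ Ve R u) : h • v ∈ Ve R (h • u) := by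
  intro r hr h1
  have h2 := hh' r hr
  have h3 := hv _ h2 (by
    have := Nm.app (h := h⁻¹) r (h • u)
    rw [inv_smul_smul] at this
    rw [this, h1, smul_zero])
  have h4 := Nm.app (h := h⁻¹) r (h • v)
  rw [inv_smul_smul, h3] at h4
  rw [← smul_eq_zero_iff_eq h⁻¹, ← h4]

theorem Nm.simp {h : GV V} (hh : Nm R h) (hh' : Nm R h⁻¹) {u : V} (hu : Simp R u) : Simp R (h • u) := by
  refine ⟨fun h0 => hu.1 ((smul_eq_zero_iff_eq h).1 h0), fun r hr h1 => ?_⟩
  have h2 := hh' r hr
  have h3 := Nm.app (h := h⁻¹) r (h • u)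
  rw [inv_smul_smul] at h3
  obtain ⟨s, hs, hsu⟩ := hu.2 _ h2 (by
    rw [h3]
    intro h0
    exact h1 ((smul_eq_zero_iff_eq h⁻¹).1 h0))
  refine ⟨_, hh s hs, ?_⟩
  rw [h3] at hsu
  have h4 := Nm.app (h := h) s (h⁻¹ • r (h • u))
  rw [smul_inv_smul] at h4
  rw [h4, hsu]

/-- `R` is a field if some `Ve R u`, `u` simple, is everything -/
theorem comm_of_top [Finite V] {u : V} (hu : Simp R u) (ht : Ve R u = ⊤) {a b : AddMonoid.End V} (ha : a ∈ R)
    (hb : b ∈ R) : a * b = b * a := by
  have h0 : ∀ r ∈ R, r u = 0 → r = 0 := by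
    intro r hr h
    ext v
    have : v ∈ Ve R u := ht ▸ AddSubgroup.mem_top v
    exact this r hr h
  have hfin : Finite (AddMonoid.End V) :=
    Finite.of_injective (fun f : AddMonoid.End V => (f : V → V)) DFunLike.coe_injective
  have hinv : ∀ r : R, r ≠ 0 → ∃ s : R, s * r = 1 := by
    intro r hr
    obtain ⟨s, hs, hsu⟩ := hu.2 r r.2 (fun h => hr (Subtype.ext (h0 r r.2 h)))
    refine ⟨⟨s, hs⟩, Subtype.ext ?_⟩
    have h1 := h0 (s * r - 1) (R.sub_mem (R.mul_mem hs r.2) R.one_mem) (by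
      show s ((r : AddMonoid.End V) u) - u = 0
      rw [hsu, sub_self])
    exact sub_eq_zero.1 h1
  have hnt : Nontrivial R := by
    refine ⟨⟨1, 0, fun h => hu.1 ?_⟩⟩
    have h1 : ((1 : R) : AddMonoid.End V) u = ((0 : R) : AddMonoid.End V) u := by rw [h]
    exact h1
  have hnz : NoZeroDivisors R := by
    refine ⟨fun {a b} hab => ?_⟩
    by_contra hcon
    push Not at hcon
    obtain ⟨s, hs⟩ := hinv a hcon.1
    apply hcon.2
    calc b = (s * a) * b := by rw [hs, one_mul]
      _ = 0 := by rw [mul_assoc, hab, mul_zero]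
  have hdom : IsDomain R := NoZeroDivisors.to_isDomain R
  have hf := Finite.isDomain_to_isField R
  exact congrArg Subtype.val (hf.mul_comm ⟨a, ha⟩ ⟨b, hb⟩)

end ring

section stab

variable {V : Type u} [AddCommGroup V]

/-- the stabilizer of the additive subgroup `W` in `H` -/
def St (H : Subgroup (GV V)) (W : AddSubgroup V) : Subgroup (GV V) where
  carrier := {h | h ∈ H ∧ ∀ v, h • v ∈ W ↔ v ∈ W}
  mul_mem' := by
    rintro a b ⟨ha, ha'⟩ ⟨hb, hb'⟩
    exact ⟨H.mul_mem ha hb, fun v => by rw [mul_smul, ha', hb']⟩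
  one_mem' := ⟨H.one_mem, fun v => by rw [one_smul]⟩
  inv_mem' := by
    rintro a ⟨ha, ha'⟩
    exact ⟨H.inv_mem ha, fun v => by rw [← ha', smul_inv_smul]⟩

/-- the restriction to `W` -/
def res (H : Subgroup (GV V)) (W : AddSubgroup V) : St H W →* GV W where
  toFun h :=
    { val := { toFun := fun w => ⟨(h : GV V) • (w : V), (h.2.2 w).2 w.2⟩
               map_zero' := Subtype.ext (smul_zero _)
               map_add' := fun a b => Subtype.ext (smul_add _ _ _) }
      inv := { toFun := fun w => ⟨((h⁻¹ : St H W) : GV V) • (w : V), ((h⁻¹).2.2 w).2 w.2⟩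
               map_zero' := Subtype.ext (smul_zero _)
               map_add' := fun a b => Subtype.ext (smul_add _ _ _) }
      val_inv := by
        apply AddMonoidHom.ext
        intro w
        exact Subtype.ext (smul_inv_smul (h : GV V) (w : V))
      inv_val := by
        apply AddMonoidHom.ext
        intro w
        exact Subtype.ext (inv_smul_smul (h : GV V) (w : V)) }
  map_one' := by
    apply Units.ext
    apply AddMonoidHom.ext
    intro w
    exact Subtype.ext (one_smul _ (w : V))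
  map_mul' a b := by
    apply Units.ext
    apply AddMonoidHom.ext
    intro w
    exact Subtype.ext (mul_smul (a : GV V) (b : GV V) (w : V))

theorem res_apply (H : Subgroup (GV V)) (W : AddSubgroup V) (h : St H W) (w : W) :
    ((res H W h • w : W) : V) = (h : GV V) • (w : V) := rfl

end stab

theorem T3.main {K V : Type u} [Field K] [Finite K] [AddCommGroup V] [Finite V] [Module K V]
    {A B : Subgroup (GV V)} {r : ℕ} (S : SetB K V A B r) (hs : ∀ h ∈ cl2 A, Semi K h)
    (hn : ∀ h ∈ cl2 A, ∀ b ∈ B, h * b * h⁻¹ ∈ B) (M : Subgroup (GV V)) (hM : M ≤ cl2 A)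
    (hc : ∀ m ∈ M, ∀ b ∈ B, m * b = b * m) : Group.IsSolvable M := by
  set R := RR B with hR
  have hNm : ∀ h ∈ cl2 A, Nm R h := fun h hh r hr => conj_RR (hn h hh) hr
  have hNm' : ∀ h ∈ cl2 A, Nm R h⁻¹ := fun h hh => hNm _ ((cl2 A).inv_mem hh)
  have hV : ∃ v : V, v ≠ 0 := by
    have h3 := S.card
    by_contra hcon
    push Not at hcon
    have : Subsingleton V := ⟨fun a b => by rw [hcon a, hcon b]⟩
    rw [Nat.card_of_subsingleton (0 : V)] at h3
    omega
  obtain ⟨v0, hv0⟩ := hV
  -- the simple vectors generate `V`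
  have hgen : AddSubgroup.closure {u : V | Simp R u} = ⊤ := by
    rcases S.irr (AddSubgroup.closure {u : V | Simp R u}) (by
      intro g hg u hu
      have hg' := le_cl2 A hg
      induction hu using AddSubgroup.closure_induction with
      | mem x hx => exact AddSubgroup.subset_closure (Nm.simp (hNm g hg') (hNm' g hg') hx)
      | zero => rw [smul_zero]; exact zero_mem _
      | add x y _ _ hx hy => rw [smul_add]; exact add_mem hx hy
      | neg x _ hx => rw [smul_neg]; exact neg_mem hx) with h | h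
    · exfalso
      obtain ⟨u, hu⟩ := exists_simp (R := R) hv0
      have : u ∈ AddSubgroup.closure {u : V | Simp R u} := AddSubgroup.subset_closure hu
      rw [h, AddSubgroup.mem_bot] at this
      exact hu.1 this
    · exact h
  -- `Ve R u` is proper
  have hprop : ∀ u, Simp R u → Ve R u ≠ ⊤ := by
    intro u hu ht
    obtain ⟨b, hb, hbs⟩ := S.ns
    obtain ⟨c, hc⟩ := S.heis.cent b hb fun a ha => Units.ext (comm_of_top hu ht (mem_RR hb) (mem_RR ha))
    exact hbs c hc
  -- stabilizers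
  have hstab : ∀ u, Simp R u → ∀ g ∈ cl2 A, ∀ x ∈ Ve R u, x ≠ 0 → g • x ∈ Ve R u → g ∈ St (cl2 A) (Ve R u) := by
    intro u hu g hg x hx hx0 hgx
    refine ⟨hg, fun v => ?_⟩
    have h1 := hu.Ve_eq hx hx0
    have h2 := hu.Ve_eq hgx (fun h => hx0 ((smul_eq_zero_iff_eq g).1 h))
    constructor
    · intro h
      have h3 := Nm.smul_mem (h := g⁻¹) (u := g • x) (v := g • v) (by rw [inv_inv]; exact hNm g hg) (by rw [h2]; exact h)
      rw [inv_smul_smul, inv_smul_smul, h1] at h3
      exact h3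
    · intro h
      have h3 := Nm.smul_mem (h := g) (u := x) (v := v) (hNm' g hg) (by rw [h1]; exact h)
      rw [h2] at h3
      exact h3
  have hsol : ∀ u, Simp R u → Group.IsSolvable (res (cl2 A) (Ve R u)).range := by
    intro u hu
    have hcard : Nat.card (Ve R u) < Nat.card V := by
      refine lt_of_le_of_ne (Nat.card_le_card_of_injective _ Subtype.val_injective) fun h => hprop u hu ?_
      exact AddSubgroup.eq_top_of_card_eq _ h
    have hG : Group.IsSolvable (A.subgroupOf (St (cl2 A) (Ve R u))) := by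
      have h1 := S.solv
      refine Group.isSolvable_of_isSolvable_injective (G := A.subgroupOf (St (cl2 A) (Ve R u))) (G' := A)
        (f := { toFun := fun x => ⟨((x : St (cl2 A) (Ve R u)) : GV V), x.2⟩
                map_one' := rfl
                map_mul' := fun _ _ => rfl }) ?_
      intro a b hab
      have h2 : ((a : St (cl2 A) (Ve R u)) : GV V) = ((b : St (cl2 A) (Ve R u)) : GV V) :=
        congrArg (fun z : A => (z : GV V)) hab
      exact Subtype.ext (Subtype.ext h2)
    refine S.ih.lin hcard (res (cl2 A) (Ve R u)) (A.subgroupOf (St (cl2 A) (Ve R u))) hG ?_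
    intro h x y
    by_cases hxy : x = 0 ∧ y = 0
    · refine ⟨1, one_mem _, ?_, ?_⟩
      · rw [hxy.1, smul_zero, smul_zero]
      · rw [hxy.2, smul_zero, smul_zero]
    · obtain ⟨g, hg, h1, h2⟩ := h.2.1 (x : V) (y : V)
      have h3 : g ∈ St (cl2 A) (Ve R u) := by
        by_cases hx : x = 0
        · have hy : y ≠ 0 := fun hy => hxy ⟨hx, hy⟩
          exact hstab u hu g (le_cl2 A hg) y y.2 (fun h => hy (Subtype.ext h)) (by
            rw [h2]; exact (h.2.2 _).2 y.2)
        · exact hstab u hu g (le_cl2 A hg) x x.2 (fun h => hx (Subtype.ext h)) (by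
            rw [h1]; exact (h.2.2 _).2 x.2)
      exact ⟨⟨g, h3⟩, hg, Subtype.ext h1, Subtype.ext h2⟩
  -- `M` stabilizes everything
  have hMS : ∀ u, Simp R u → M ≤ St (cl2 A) (Ve R u) := by
    intro u hu m hm
    refine hstab u hu m (hM hm) u (self_mem_Ve R u) hu.1 fun r hr hru => ?_
    have h1 := congrArg (fun f : AddMonoid.End V => f u) (comm_RR (hc m hm) hr)
    have h2 : m • (r u) = r (m • u) := h1
    rw [← h2, hru, smul_zero]
  refine solvable_of_family (ι := {u : V // Simp R u}) (H := fun u => GV (Ve R (u : V)))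
    (fun u => (res (cl2 A) (Ve R (u : V))).comp (Subgroup.inclusion (hMS u u.2))) (fun u => ?_) ?_
  · refine solvable_of_le ?_ (hsol u u.2)
    rintro _ ⟨m, rfl⟩
    exact ⟨_, rfl⟩
  · intro m hm
    have h1 : ∀ u, Simp R u → (m : GV V) • u = u := by
      intro u hu
      have h2 := hm ⟨u, hu⟩
      have h3 := congrArg (fun f : GV (Ve R u) => ((f • (⟨u, self_mem_Ve R u⟩ : Ve R u) : Ve R u) : V)) h2
      have h4 : (((1 : GV (Ve R u)) • (⟨u, self_mem_Ve R u⟩ : Ve R u) : Ve R u) : V) = u := by rw [one_smul]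
      exact h3.trans h4
    apply Subtype.ext
    apply Units.ext
    apply AddMonoidHom.ext
    intro v
    have h2 : v ∈ AddSubgroup.closure {u : V | Simp R u} := by rw [hgen]; exact AddSubgroup.mem_top v
    show (m : GV V) • v = v
    induction h2 using AddSubgroup.closure_induction with
    | mem x hx => exact h1 x hx
    | zero => exact smul_zero _
    | add x y _ _ hx hy => rw [smul_add, hx, hy]
    | neg x _ hx => rw [smul_neg, hx]

end Cfsg.Agent.H216.TcT3
end

-- part: H680/TcSelB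
section
/-!
# S3621, lemma SelB: the minimal normal subgroup of Heisenberg type
-/

set_option autoImplicit false

namespace Cfsg.Agent.H680.TcSelB

open Cfsg.Agent.H412.Tc
open scoped commutatorElement

universe u

section

variable {K V : Type*} [Field K] [AddCommGroup V] [Module K V]

theorem semi_inv {g : GV V} {σ : K ≃+* K} (h : ∀ (c : K) (v : V), g • c • v = σ c • g • v) (c : K) (v : V) :
    g⁻¹ • c • v = σ.symm c • g⁻¹ • v := by
  rw [inv_smul_eq_iff, h, σ.apply_symm_apply, smul_inv_smul]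

theorem conj_scal {g : GV V} {σ : K ≃+* K} (h : ∀ (c : K) (v : V), g • c • v = σ c • g • v) (c : Kˣ) :
    g * scal K V c * g⁻¹ = scal K V (Units.map (σ : K →* K) c) := GV_ext fun v => by
  rw [mul_smul, mul_smul, scal_smul, scal_smul, h, smul_inv_smul]
  rfl

theorem conj_lin {g : GV V} {σ : K ≃+* K} (h : ∀ (c : K) (v : V), g • c • v = σ c • g • v) {b : GV V}
    (hb : Lin K b) : Lin K (g * b * g⁻¹) := fun c v => by
  rw [mul_smul, mul_smul, semi_inv h, hb, h, σ.apply_symm_apply, mul_smul, mul_smul]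

/-- the linear elements of `A` -/
def linSub (K : Type*) {V : Type*} [Field K] [AddCommGroup V] [Module K V] (A : Subgroup (GV V)) :
    Subgroup (GV V) where
  carrier := {g | g ∈ A ∧ Lin K g}
  one_mem' := ⟨one_mem _, Lin.one⟩
  mul_mem' ha hb := ⟨mul_mem ha.1 hb.1, ha.2.mul hb.2⟩
  inv_mem' ha := ⟨inv_mem ha.1, ha.2.inv⟩

/-- scalars times `D` -/
def scalMul (K : Type*) {V : Type*} [Field K] [AddCommGroup V] [Module K V] (D : Subgroup (GV V))
    (hD : ∀ d ∈ D, Lin K d) : Subgroup (GV V) where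
  carrier := {g | ∃ c : Kˣ, ∃ d ∈ D, g = scal K V c * d}
  one_mem' := ⟨1, 1, one_mem _, by rw [map_one, one_mul]⟩
  mul_mem' := by
    rintro _ _ ⟨c, d, hd, rfl⟩ ⟨c', d', hd', rfl⟩
    refine ⟨c * c', d * d', mul_mem hd hd', ?_⟩
    rw [map_mul, mul_assoc, ← mul_assoc d, (hD d hd).scal_comm]
    simp only [mul_assoc]
  inv_mem' := by
    rintro _ ⟨c, d, hd, rfl⟩
    refine ⟨c⁻¹, d⁻¹, inv_mem hd, ?_⟩
    rw [mul_inv_rev, map_inv, ← map_inv, (hD d hd).inv.scal_comm]

/-- elements with scalar `r`-th power -/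
def powSub {B : Subgroup (GV V)} (hlin : ∀ b ∈ B, Lin K b)
    (hcc : ∀ a ∈ B, ∀ b ∈ B, ∃ c : Kˣ, CC c a b) (r : ℕ) : Subgroup (GV V) where
  carrier := {g | g ∈ B ∧ ∃ c : Kˣ, g ^ r = scal K V c}
  one_mem' := ⟨one_mem _, 1, by rw [one_pow, map_one]⟩
  mul_mem' := by
    rintro a b ⟨ha, c, hc⟩ ⟨hb, d, hd⟩
    obtain ⟨e, he⟩ := hcc b hb a ha
    refine ⟨mul_mem ha hb, e ^ (r * (r - 1) / 2) * (c * d), ?_⟩
    rw [he.mul_pow (hlin a ha) (hlin b hb), hc, hd, map_mul, map_mul]
  inv_mem' := by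
    rintro a ⟨ha, c, hc⟩
    exact ⟨inv_mem ha, c⁻¹, by rw [inv_pow, hc, map_inv]⟩

end

theorem main {K V : Type u} [Field K] [Finite K] [AddCommGroup V] [Finite V] [Module K V] {A : Subgroup (GV V)}
    (S : SetA K V A) (hns : ∃ g ∈ A, Lin K g ∧ ∀ c : Kˣ, g ≠ scal K V c) :
    ∃ (B : Subgroup (GV V)) (r : ℕ), SetB K V A B r := by
  classical
  have hfinE : Finite (AddMonoid.End V) := Finite.of_injective (fun f : AddMonoid.End V => (f : V → V))
    DFunLike.coe_injective
  have hfin : Finite (GV V) := inferInstance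
  have hfinS : Finite (Subgroup (GV V)) := inferInstance
  have hnt : Nontrivial V := Finite.one_lt_card_iff_nontrivial.1 (by have := S.card; omega)
  -- the family
  let P : Subgroup (GV V) → Prop := fun N => (∀ c : Kˣ, scal K V c ∈ N) ∧ N ≤ linSub K A ∧
    (∀ g ∈ A, ∀ b ∈ N, g * b * g⁻¹ ∈ N) ∧ ∃ b ∈ N, ∀ c : Kˣ, b ≠ scal K V c
  have hP : P (linSub K A) := by
    refine ⟨fun c => ⟨S.scal_mem c, lin_scal c⟩, le_rfl, fun g hg b hb => ?_, ?_⟩
    · obtain ⟨σ, hσ⟩ := S.semi g hg
      exact ⟨mul_mem (mul_mem hg hb.1) (inv_mem hg), conj_lin hσ hb.2⟩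
    · obtain ⟨g, hg, hl, hc⟩ := hns
      exact ⟨g, ⟨hg, hl⟩, hc⟩
  obtain ⟨B, hB, hmin⟩ : ∃ B, P B ∧ ∀ N, P N → N ≤ B → B ≤ N := by
    obtain ⟨B, hB⟩ := (Set.toFinite {N | P N}).exists_minimal ⟨_, hP⟩
    exact ⟨B, hB.1, fun N hN hle => hB.2 hN hle⟩
  obtain ⟨hBs, hBl, hBn, hBns⟩ := hB
  have hlin : ∀ b ∈ B, Lin K b := fun b hb => (hBl hb).2
  have hBA : B ≤ A := fun b hb => (hBl hb).1
  have hmin' : ∀ N : Subgroup (GV V), (∀ c : Kˣ, scal K V c ∈ N) → N ≤ B →
      (∀ g ∈ A, ∀ b ∈ N, g * b * g⁻¹ ∈ N) → (∀ b ∈ N, ∃ c : Kˣ, b = scal K V c) ∨ B ≤ N := by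
    intro N h1 h2 h3
    by_cases h4 : ∀ b ∈ N, ∃ c : Kˣ, b = scal K V c
    · exact Or.inl h4
    · push Not at h4
      exact Or.inr (hmin N ⟨h1, h2.trans hBl, h3, h4⟩ h2)
  -- commutators are scalar
  have hD : ∀ d ∈ ⁅B, B⁆, Lin K d := fun d hd => hlin d (Subgroup.commutator_le_self B hd)
  have hDn : ∀ g ∈ A, ∀ d ∈ ⁅B, B⁆, g * d * g⁻¹ ∈ ⁅B, B⁆ := by
    intro g hg d hd
    have h1 : B.map (MulAut.conj g).toMonoidHom ≤ B := by
      rintro _ ⟨b, hb, rfl⟩
      exact hBn g hg b hb
    have h2 : (MulAut.conj g).toMonoidHom d ∈ ⁅B, B⁆.map (MulAut.conj g).toMonoidHom := ⟨d, hd, rfl⟩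
    rw [Subgroup.map_commutator] at h2
    exact Subgroup.commutator_mono h1 h1 h2
  have hcc : ∀ a ∈ B, ∀ b ∈ B, ∃ c : Kˣ, CC c a b := by
    have hsc : ∀ d ∈ ⁅B, B⁆, ∃ c : Kˣ, d = scal K V c := by
      rcases hmin' (scalMul K ⁅B, B⁆ hD) (fun c => ⟨c, 1, one_mem _, by rw [mul_one]⟩)
        (by
          rintro _ ⟨c, d, hd, rfl⟩
          exact mul_mem (hBs c) (Subgroup.commutator_le_self B hd))
        (by
          rintro g hg _ ⟨c, d, hd, rfl⟩
          obtain ⟨σ, hσ⟩ := S.semi g hg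
          refine ⟨Units.map (σ : K →* K) c, g * d * g⁻¹, hDn g hg d hd, ?_⟩
          rw [← conj_scal hσ]
          group) with h | h
      · intro d hd
        exact h d ⟨1, d, hd, by rw [map_one, one_mul]⟩
      · -- `⁅B, B⁆` is perfect
        exfalso
        have hperf : ⁅B, B⁆ ≤ ⁅⁅B, B⁆, ⁅B, B⁆⁆ := by
          rw [Subgroup.commutator_le]
          intro a ha b hb
          obtain ⟨c, d, hd, rfl⟩ := h ha
          obtain ⟨c', d', hd', rfl⟩ := h hb
          have e : ⁅scal K V c * d, scal K V c' * d'⁆ = ⁅d, d'⁆ := by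
            have h1 : Commute d (scal K V c') := (hD d hd).scal_commute c'
            have h2 : Commute d' (scal K V c) := (hD d' hd').scal_commute c
            have h3 : Commute (scal K V c) (scal K V c') := (lin_scal c).scal_commute c'
            have h4 : Commute d (scal K V c) := (hD d hd).scal_commute c
            have h5 : Commute d' (scal K V c') := (hD d' hd').scal_commute c'
            have h6 : (scal K V c * d) * (scal K V c' * d') = (scal K V c * scal K V c') * (d * d') := by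
              rw [mul_assoc, ← mul_assoc d, h1.eq]
              simp only [mul_assoc]
            have h7 : (scal K V c' * d') * (scal K V c * d) = (scal K V c * scal K V c') * (d' * d) := by
              rw [mul_assoc, ← mul_assoc d', h2.eq, h3.eq]
              simp only [mul_assoc]
            have h8 : ⁅scal K V c * d, scal K V c' * d'⁆ =
                (scal K V c * d) * (scal K V c' * d') * ((scal K V c' * d') * (scal K V c * d))⁻¹ := by
              rw [commutatorElement_def]; group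
            have h9 : Commute (d * d') ((scal K V c * scal K V c')) :=
              (h4.mul_right h1).mul_left (h2.mul_right h5)
            have h10 : Commute (d' * d) ((scal K V c * scal K V c')) :=
              (h2.mul_right h5).mul_left (h4.mul_right h1)
            have h11 : Commute (scal K V c * scal K V c') (d * d' * (d' * d)⁻¹) := (h9.mul_left h10.inv_left).symm
            have h12 : (scal K V c * scal K V c') * (d * d') * ((scal K V c * scal K V c') * (d' * d))⁻¹ =
                (scal K V c * scal K V c') * (d * d' * (d' * d)⁻¹) * (scal K V c * scal K V c')⁻¹ := by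
              simp only [mul_inv_rev, mul_assoc]
            rw [h8, h6, h7, h12, h11.eq, mul_inv_cancel_right, commutatorElement_def, mul_inv_rev]
            simp only [mul_assoc]
          rw [e]
          exact Subgroup.commutator_mem_commutator hd hd'
        have hsol : Group.IsSolvable ↥⁅B, B⁆ := by
          have hA := S.solv
          exact Group.isSolvable_of_isSolvable_injective (Subgroup.inclusion_injective
            ((Subgroup.commutator_le_self B).trans hBA))
        have hD0 : ⁅B, B⁆ = ⊥ := by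
          by_contra hne
          have hnt2 : Nontrivial ↥⁅B, B⁆ := (Subgroup.nontrivial_iff_ne_bot _).2 hne
          have h1 := Group.IsSolvable.commutator_lt_top_of_nontrivial ↥⁅B, B⁆
          apply h1.ne
          apply Subgroup.map_injective (Subgroup.subtype_injective ⁅B, B⁆)
          rw [Subgroup.map_subtype_commutator, ← MonoidHom.range_eq_map, Subgroup.range_subtype]
          exact le_antisymm (Subgroup.commutator_le_self _) hperf
        obtain ⟨b, hb, hc⟩ := hBns
        obtain ⟨c, d, hd, rfl⟩ := h hb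
        rw [hD0, Subgroup.mem_bot] at hd
        exact hc c (by rw [hd, mul_one])
    intro a ha b hb
    obtain ⟨c, hc⟩ := hsc _ (Subgroup.commutator_mem_commutator ha hb)
    refine ⟨c, ?_⟩
    unfold CC
    rw [← hc, commutatorElement_def]
    group
  -- the exponent
  obtain ⟨r, hr, hpow⟩ : ∃ r : ℕ, r.Prime ∧ ∀ b ∈ B, ∃ c : Kˣ, b ^ r = scal K V c := by
    obtain ⟨b, hb, hbc⟩ := hBns
    have hex : ∃ n, 0 < n ∧ ∃ c : Kˣ, b ^ n = scal K V c :=
      ⟨orderOf b, orderOf_pos b, 1, by rw [pow_orderOf_eq_one, map_one]⟩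
    obtain ⟨hn0, hn1⟩ := Nat.find_spec hex
    have hn2 := fun m hm => Nat.find_min hex (m := m) hm
    generalize Nat.find hex = n at hn0 hn1 hn2
    have hn3 : n ≠ 1 := by
      rintro rfl
      obtain ⟨c, hc⟩ := hn1
      exact hbc c (by rw [← hc, pow_one])
    obtain ⟨r, hr, k, hk⟩ := Nat.exists_prime_and_dvd hn3
    refine ⟨r, hr, ?_⟩
    rcases hmin' (powSub hlin hcc r)
      (fun c => ⟨hBs c, c ^ r, by rw [map_pow]⟩) (fun x hx => hx.1)
      (by
        rintro g hg x ⟨hx, c, hc⟩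
        obtain ⟨σ, hσ⟩ := S.semi g hg
        exact ⟨hBn g hg x hx, Units.map (σ : K →* K) c, by rw [conj_pow, hc, conj_scal hσ]⟩) with h | h
    · exfalso
      have hk0 : 0 < k := by
        rcases Nat.eq_zero_or_pos k with h0 | h0
        · rw [h0, mul_zero] at hk; omega
        · exact h0
      have hkn : k < n := by
        rw [hk]
        have := hr.one_lt
        nlinarith
      obtain ⟨c, hc⟩ := h (b ^ k) ⟨pow_mem hb k, by
        rw [← pow_mul, mul_comm k r, ← hk]
        exact hn1⟩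
      exact hn2 k hkn ⟨hk0, c, hc⟩
    · exact fun x hx => (h hx).2
  -- the centre
  have hcent : ∀ a ∈ B, (∀ b ∈ B, a * b = b * a) → ∃ c : Kˣ, a = scal K V c := by
    let Zs : Set (AddMonoid.End V) := {f | ∃ a ∈ B, (∀ b ∈ B, a * b = b * a) ∧ f = (a : AddMonoid.End V)}
    have hZc : ∀ x ∈ Zs, ∀ y ∈ Zs, x * y = y * x := by
      rintro _ ⟨a, ha, hac, rfl⟩ _ ⟨b, hb, hbc, rfl⟩
      rw [← Units.val_mul, ← Units.val_mul, hac b hb]
    have hRc : ∀ a ∈ Subring.closure Zs, ∀ b ∈ Subring.closure Zs, a * b = b * a := by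
      intro a ha b hb
      have h := (Subring.isMulCommutative_closure hZc).is_comm.comm ⟨a, ha⟩ ⟨b, hb⟩
      exact congrArg Subtype.val h
    have hRn : ∀ g ∈ A, ∀ r ∈ Subring.closure Zs,
        (g : AddMonoid.End V) * r * ((g⁻¹ : GV V) : AddMonoid.End V) ∈ Subring.closure Zs := by
      intro g hg x hx
      have hgi : ((g⁻¹ : GV V) : AddMonoid.End V) * (g : AddMonoid.End V) = 1 := by
        rw [← Units.val_mul, inv_mul_cancel, Units.val_one]
      have hgi' : (g : AddMonoid.End V) * ((g⁻¹ : GV V) : AddMonoid.End V) = 1 := by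
        rw [← Units.val_mul, mul_inv_cancel, Units.val_one]
      induction hx using Subring.closure_induction with
      | mem x hx =>
        apply Subring.subset_closure
        obtain ⟨a, ha, hac, rfl⟩ := hx
        refine ⟨g * a * g⁻¹, hBn g hg a ha, fun b hb => ?_, ?_⟩
        · have h1 := hac (g⁻¹ * b * g) (by
            have := hBn g⁻¹ (inv_mem hg) b hb
            rwa [inv_inv] at this)
          calc g * a * g⁻¹ * b = g * (a * (g⁻¹ * b * g)) * g⁻¹ := by group
            _ = g * ((g⁻¹ * b * g) * a) * g⁻¹ := by rw [h1]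
            _ = b * (g * a * g⁻¹) := by group
        · rw [Units.val_mul, Units.val_mul]
      | zero => rw [mul_zero, zero_mul]; exact zero_mem _
      | one => rw [mul_one, hgi']; exact one_mem _
      | add x y _ _ h1 h2 => rw [mul_add, add_mul]; exact add_mem h1 h2
      | neg x _ h1 => rw [mul_neg, neg_mul]; exact neg_mem h1
      | mul x y _ _ h1 h2 =>
        have e : (g : AddMonoid.End V) * (x * y) * ((g⁻¹ : GV V) : AddMonoid.End V) =
            ((g : AddMonoid.End V) * x * ((g⁻¹ : GV V) : AddMonoid.End V)) *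
              ((g : AddMonoid.End V) * y * ((g⁻¹ : GV V) : AddMonoid.End V)) := by
          have : (g : AddMonoid.End V) * x * ((g⁻¹ : GV V) : AddMonoid.End V) *
              ((g : AddMonoid.End V) * y * ((g⁻¹ : GV V) : AddMonoid.End V)) =
              (g : AddMonoid.End V) * x * (((g⁻¹ : GV V) : AddMonoid.End V) * (g : AddMonoid.End V)) * y *
                ((g⁻¹ : GV V) : AddMonoid.End V) := by
            simp only [mul_assoc]
          rw [this, hgi, mul_one]
          simp only [mul_assoc]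
        rw [e]
        exact mul_mem h1 h2
    have hRK : ∀ c : K, Module.toAddMonoidEnd K V c ∈ Subring.closure Zs := by
      intro c
      by_cases hc : c = 0
      · rw [hc, map_zero]; exact zero_mem _
      · apply Subring.subset_closure
        refine ⟨scal K V (Units.mk0 c hc), hBs _, fun b hb => ((hlin b hb).scal_comm _).symm, rfl⟩
    intro a ha hac
    obtain ⟨c, hc⟩ := S.max (Subring.closure Zs) hRc hRn hRK a (Subring.subset_closure ⟨a, ha, hac, rfl⟩)
    obtain ⟨v, hv⟩ := exists_ne (0 : V)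
    have hc0 : c ≠ 0 := by
      rintro rfl
      apply hv
      rw [← smul_eq_zero_iff_eq a]
      have h1 : a • v = (a : AddMonoid.End V) v := rfl
      rw [h1, hc, map_zero]
      rfl
    refine ⟨Units.mk0 c hc0, ?_⟩
    apply Units.ext
    rw [hc]
    rfl
  refine ⟨B, r, { toSetA := S, heis := ?_, le := hBA, norm := hBn, min := hmin', ns := hBns }⟩
  exact ⟨hr, hlin, hBs, hpow, hcc, hcent⟩

end Cfsg.Agent.H680.TcSelB
end

-- part: H877/TcLast
section
/-!
# S3621: the last step (helper877)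
-/

set_option autoImplicit false

namespace Cfsg.Agent.H877.TcLast

open Cfsg.Agent.H412.Tc

universe u

theorem solv_step {G : Type*} [Group G] (N M : Subgroup G) (hMN : M ≤ N)
    (h : ∀ a ∈ N, ∀ b ∈ N, a * b * a⁻¹ * b⁻¹ ∈ M) (hM : Group.IsSolvable M) : Group.IsSolvable N := by
  have hn : (M.subgroupOf N).Normal := by
    constructor
    intro m hm g
    rw [Subgroup.mem_subgroupOf] at hm ⊢
    have h1 := h g.1 g.2 m.1 m.2
    have h2 := M.mul_mem h1 hm
    have h3 : g.1 * m.1 * g.1⁻¹ * m.1⁻¹ * m.1 = g.1 * m.1 * g.1⁻¹ := by group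
    rw [h3] at h2
    exact h2
  rw [Group.isSolvable_iff_subgroup_quotient (M.subgroupOf N)]
  constructor
  · exact Group.isSolvable_of_isSolvable_injective
      (f := (Subgroup.subgroupOfEquivOfLe hMN).toMonoidHom)
      (Subgroup.subgroupOfEquivOfLe hMN).injective
  · refine Group.isSolvable_of_comm ?_
    intro x y
    induction x using QuotientGroup.induction_on with
    | H a =>
    induction y using QuotientGroup.induction_on with
    | H b =>
    rw [← QuotientGroup.mk_mul, ← QuotientGroup.mk_mul, QuotientGroup.eq, Subgroup.mem_subgroupOf]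
    have h1 := h b.1⁻¹ (N.inv_mem b.2) a.1⁻¹ (N.inv_mem a.2)
    have h2 : ((a * b)⁻¹ * (b * a) : N).1 = b.1⁻¹ * a.1⁻¹ * b.1⁻¹⁻¹ * a.1⁻¹⁻¹ := by
      show (a.1 * b.1)⁻¹ * (b.1 * a.1) = _
      group
    rw [h2]
    exact h1

/-- Automorphisms of a finite field commute. -/
theorem aut_comm {K : Type*} [Field K] [Finite K] (σ τ : K ≃+* K) (x : K) : σ (τ x) = τ (σ x) := by
  classical
  obtain ⟨ζ, hζ⟩ := IsCyclic.exists_generator (α := Kˣ)
  by_cases hx : x = 0
  · subst hx; simp only [map_zero]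
  have key : ∀ σ : K ≃+* K, ∃ i : ℤ, ∀ u : Kˣ, Units.map (σ : K →* K) u = u ^ i := by
    intro σ
    obtain ⟨i, hi⟩ := hζ (Units.map (σ : K →* K) ζ)
    refine ⟨i, fun u => ?_⟩
    obtain ⟨m, rfl⟩ := hζ u
    simp only at hi ⊢
    rw [map_zpow, ← hi, ← zpow_mul, ← zpow_mul, mul_comm]
  obtain ⟨i, hi⟩ := key σ
  obtain ⟨j, hj⟩ := key τ
  have h1 : Units.map (σ : K →* K) (Units.map (τ : K →* K) (Units.mk0 x hx)) =
      Units.map (τ : K →* K) (Units.map (σ : K →* K) (Units.mk0 x hx)) := by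
    rw [hi, hj, hj, hi, ← zpow_mul, ← zpow_mul, mul_comm]
  exact congrArg Units.val h1

variable {K V : Type u} [Field K] [Finite K] [AddCommGroup V] [Finite V] [Module K V]
  {A B : Subgroup (GV V)} {r : ℕ}

omit [Finite V] in
theorem semi_comm {g h : GV V} (hg : Semi K g) (hh : Semi K h) : Lin K (g * h * g⁻¹ * h⁻¹) := by
  obtain ⟨σ, hσ⟩ := hg
  obtain ⟨τ, hτ⟩ := hh
  have hgi : ∀ (c : K) (v : V), g⁻¹ • c • v = σ.symm c • g⁻¹ • v := by
    intro c v
    rw [inv_smul_eq_iff, hσ, smul_inv_smul, RingEquiv.apply_symm_apply]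
  have hhi : ∀ (c : K) (v : V), h⁻¹ • c • v = τ.symm c • h⁻¹ • v := by
    intro c v
    rw [inv_smul_eq_iff, hτ, smul_inv_smul, RingEquiv.apply_symm_apply]
  intro c v
  simp only [mul_smul]
  rw [hhi, hgi, hτ, hσ]
  congr 1
  rw [aut_comm σ τ, RingEquiv.apply_symm_apply, RingEquiv.apply_symm_apply]

end Cfsg.Agent.H877.TcLast

namespace Cfsg.Agent.H877

open Cfsg.Agent.H412.Tc Cfsg.Agent.H877.TcLast

universe u

variable {K V : Type u} [Field K] [Finite K] [AddCommGroup V] [Finite V] [Module K V]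
  {A B : Subgroup (GV V)} {r : ℕ}

theorem Last.main (S : SetB K V A B r) (hs : ∀ h ∈ cl2 A, Semi K h)
    (hn : ∀ h ∈ cl2 A, ∀ b ∈ B, h * b * h⁻¹ ∈ B) (hc : Concl K A B)
    (hT3 : ∀ M : Subgroup (GV V), M ≤ cl2 A → (∀ m ∈ M, ∀ b ∈ B, m * b = b * m) →
      Group.IsSolvable M) : Group.IsSolvable (cl2 A) := by
  obtain ⟨Q, _, φ, hφ, hk⟩ := hc
  have hcc : ∀ h ∈ φ.ker, ∀ b ∈ B, ∃ c : Kˣ, CC c h.1 b := by
    intro h hh b hb
    obtain ⟨c, hc⟩ := hk h hh b hb
    refine ⟨c, ?_⟩
    unfold CC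
    rw [← mul_assoc, ← hc, inv_mul_cancel_right]
  -- the linear elements of the kernel
  let N2 : Subgroup ↥(cl2 A) :=
    { carrier := {h | h ∈ φ.ker ∧ Lin K h.1}
      mul_mem' := fun {a b} ha hb => ⟨φ.ker.mul_mem ha.1 hb.1, ha.2.mul hb.2⟩
      one_mem' := ⟨φ.ker.one_mem, Lin.one⟩
      inv_mem' := fun {a} ha => ⟨φ.ker.inv_mem ha.1, ha.2.inv⟩ }
  let M : Subgroup ↥(cl2 A) :=
    { carrier := {h | h ∈ N2 ∧ ∀ b ∈ B, h.1 * b = b * h.1}
      mul_mem' := fun {a b} ha hb => ⟨N2.mul_mem ha.1 hb.1, fun x hx => by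
        show a.1 * b.1 * x = x * (a.1 * b.1)
        rw [mul_assoc, hb.2 x hx, ← mul_assoc, ha.2 x hx, mul_assoc]⟩
      one_mem' := ⟨N2.one_mem, fun x _ => by
        show (1 : GV V) * x = x * 1
        rw [one_mul, mul_one]⟩
      inv_mem' := fun {a} ha => ⟨N2.inv_mem ha.1, fun x hx => by
        show a.1⁻¹ * x = x * a.1⁻¹
        have h1 : a.1 * x = x * a.1 := ha.2 x hx
        rw [inv_mul_eq_iff_eq_mul, ← mul_assoc, h1, mul_inv_cancel_right]⟩ }
  have hM : Group.IsSolvable M := by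
    have h1 := hT3 (M.map (cl2 A).subtype) (by
      rintro _ ⟨m, _, rfl⟩
      exact m.2) (by
      rintro _ ⟨m, hm, rfl⟩ b hb
      exact hm.2 b hb)
    exact Group.isSolvable_of_isSolvable_injective
      (f := (cl2 A).subtype.subgroupMap M)
      (fun a b hab => by
        apply Subtype.ext
        apply Subtype.ext
        exact congrArg (fun y : ↥(M.map (cl2 A).subtype) => y.1) hab)
  have hN2 : Group.IsSolvable N2 := by
    refine solv_step N2 M (fun m hm => hm.1) ?_ hM
    intro a ha b hb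
    refine ⟨N2.mul_mem (N2.mul_mem (N2.mul_mem ha hb) (N2.inv_mem ha)) (N2.inv_mem hb), ?_⟩
    intro x hx
    obtain ⟨c, hc⟩ := hcc a ha.1 x hx
    obtain ⟨d, hd⟩ := hcc b hb.1 x hx
    have inv : ∀ {e : Kˣ} {g : GV V}, Lin K g → CC e g x → CC e⁻¹ g⁻¹ x := by
      intro e g hg he
      unfold CC at *
      have h2 : x * g = scal K V e⁻¹ * (g * x) := by
        rw [he, ← mul_assoc, ← map_mul, inv_mul_cancel, map_one, one_mul]
      rw [inv_mul_eq_iff_eq_mul, ← mul_assoc, hg.scal_comm, mul_assoc, ← mul_assoc g, ← mul_assoc (scal K V e⁻¹),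
        ← h2, mul_inv_cancel_right]
    have h1 := ((hc.mul_left ha.2 hd).mul_left (ha.2.mul hb.2) (inv ha.2 hc)).mul_left
      ((ha.2.mul hb.2).mul ha.2.inv) (inv hb.2 hd)
    rw [mul_right_comm c d, mul_inv_cancel, one_mul, mul_inv_cancel, cc_one_iff] at h1
    exact h1
  have hN1 : Group.IsSolvable φ.ker := by
    refine solv_step φ.ker N2 (fun m hm => hm.1) ?_ hN2
    intro a ha b hb
    exact ⟨φ.ker.mul_mem (φ.ker.mul_mem (φ.ker.mul_mem ha hb) (φ.ker.inv_mem ha))
      (φ.ker.inv_mem hb), semi_comm (hs a.1 a.2) (hs b.1 b.2)⟩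
  exact Group.isSolvable_of_ker_le_range φ.ker.subtype φ.rangeRestrict (by
    rw [MonoidHom.ker_rangeRestrict, Subgroup.range_subtype])

end Cfsg.Agent.H877
end

-- part: H412/Tc/Star
section
/-!
# The affine case, and the main theorem
-/

set_option autoImplicit false

namespace Cfsg.Agent.H412.Tc

open Equiv

universe u

theorem finite_End (V : Type*) [AddCommGroup V] [Finite V] : Finite (AddMonoid.End V) :=
  Finite.of_injective (fun f : AddMonoid.End V => (f : V → V)) DFunLike.coe_injective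

/-- The one-dimensional case. -/
theorem case_one {K V : Type u} [Field K] [Finite K] [AddCommGroup V] [Finite V] [Module K V]
    (A : Subgroup (GV V)) (hsemi : ∀ g ∈ A, Semi K g) (v : V) (hv0 : v ≠ 0)
    (hv : ∀ w, ∃ c : K, w = c • v) : Group.IsSolvable (cl (Aff A)) := by
  classical
  -- coordinates
  have hinj : Function.Injective fun c : K => c • v := smul_left_injective K hv0
  let e : K ≃ V := Equiv.ofBijective (fun c : K => c • v)
    ⟨hinj, fun w => by obtain ⟨c, hc⟩ := hv w; exact ⟨c, hc.symm⟩⟩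
  have he : ∀ c : K, e c = c • v := fun c => rfl
  -- the group of maps `x ↦ α σ x` on `K`
  let G : Subgroup (GV K) :=
    { carrier := {g | ∃ (α : Kˣ) (σ : K ≃+* K), ∀ x : K, g • x = α * σ x}
      mul_mem' := by
        rintro g h ⟨α, σ, hg⟩ ⟨β, τ, hh⟩
        refine ⟨α * Units.map (σ : K →* K) β, σ * τ, fun x => ?_⟩
        rw [mul_smul, hh, hg, map_mul]
        simp [mul_assoc]
      one_mem' := ⟨1, RingEquiv.refl K, fun x => by simp⟩
      inv_mem' := by
        rintro g ⟨α, σ, hg⟩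
        refine ⟨Units.map (σ.symm : K →* K) α⁻¹, σ.symm, fun x => ?_⟩
        rw [inv_smul_eq_iff, hg, map_mul]
        simp }
  let M : Subgroup (GV K) :=
    { carrier := {g | ∃ α : Kˣ, ∀ x : K, g • x = α * x}
      mul_mem' := by
        rintro g h ⟨α, hg⟩ ⟨β, hh⟩
        refine ⟨α * β, fun x => ?_⟩
        rw [mul_smul, hh, hg]
        simp [mul_assoc]
      one_mem' := ⟨1, fun x => by simp⟩
      inv_mem' := by
        rintro g ⟨α, hg⟩
        refine ⟨α⁻¹, fun x => ?_⟩
        rw [inv_smul_eq_iff, hg]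
        simp }
  have hM : Group.IsSolvable M := by
    refine Group.isSolvable_of_comm ?_
    rintro ⟨g, α, hg⟩ ⟨h, β, hh⟩
    apply Subtype.ext
    apply GV_ext
    intro x
    simp only [Subgroup.coe_mul, mul_smul, hg, hh]
    ring
  have hG : Group.IsSolvable G := by
    refine solvable_ext hM ?_
    rintro g ⟨α, σ, hg⟩ h ⟨β, τ, hh⟩
    -- `g h = γ h g` up to a scalar
    refine ⟨α * Units.map (σ : K →* K) β * (β * Units.map (τ : K →* K) α)⁻¹, fun x => ?_⟩
    obtain ⟨z, rfl⟩ : ∃ z : K, (h * g) • z = x := ⟨(h * g)⁻¹ • x, smul_inv_smul _ _⟩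
    have h1 : (g * h * g⁻¹ * h⁻¹) • (h * g) • z = (g * h) • z := by
      rw [← mul_smul]; congr 1; group
    rw [h1, mul_smul, mul_smul, hh, hg, hg, hh, map_mul, map_mul]
    have h2 : σ (τ z) = τ (σ z) := by
      have := aut_comm σ τ
      exact congrArg (fun f : K ≃+* K => f z) this
    rw [h2]
    have h3 : (τ α : K) ≠ 0 := by
      simp
    simp only [Units.val_mul, Units.coe_map, mul_inv, Units.val_inv_eq_inv_val,
      MonoidHom.coe_coe]
    change ((α : K) * (σ β * τ (σ z))) =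
      α * σ β * ((β : K)⁻¹ * (τ α)⁻¹) * (β * (τ α * τ (σ z)))
    have h4 : (β : K) ≠ 0 := β.ne_zero
    field_simp
  -- transport
  let f : Perm V →* Perm K := (e.symm.permCongrHom : Perm V ≃* Perm K).toMonoidHom
  have hf : ∀ (p : Perm V) (x : K), f p x = e.symm (p (e x)) := fun p x => rfl
  have h1 : (cl (Aff A)).map f ≤ Aff G := by
    rintro _ ⟨h, hh, rfl⟩
    obtain ⟨α, σ, β, hασ⟩ := Cfsg.Agent.H748.TcT0.T0.main (f h) (by
      intro a b c
      obtain ⟨p, hp, h1, h2, h3⟩ := hh (e a) (e b) (e c)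
      obtain ⟨g, hg, t, hgt⟩ := hp
      obtain ⟨σ, hσ⟩ := hsemi g hg
      obtain ⟨α, hα⟩ := hv (g • v)
      obtain ⟨β, hβ⟩ := hv t
      have hα0 : α ≠ 0 := by
        rintro rfl
        rw [zero_smul] at hα
        exact hv0 ((smul_eq_zero_iff_eq g).1 hα)
      have hx : ∀ x : K, f p x = α * σ x + β := by
        intro x
        rw [hf, Equiv.symm_apply_eq, he, he, hgt, hσ, hα, hβ, smul_smul, ← add_smul, mul_comm]
      refine ⟨Units.mk0 α hα0, σ, β, ?_, ?_, ?_⟩
      · rw [hf, ← h1, ← hf, hx, Units.val_mk0]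
      · rw [hf, ← h2, ← hf, hx, Units.val_mk0]
      · rw [hf, ← h3, ← hf, hx, Units.val_mk0])
    let g0 : GV K := (⟨
      { toFun := fun x => α * σ x
        map_zero' := by simp
        map_add' := fun x y => by simp [mul_add] },
      { toFun := fun x => σ.symm (α⁻¹ * x)
        map_zero' := by simp
        map_add' := fun x y => by simp [mul_add] },
      by
        ext x
        change (α : K) * σ (σ.symm (((α⁻¹ : Kˣ) : K) * x)) = x
        simp,
      by
        ext x
        change σ.symm (((α⁻¹ : Kˣ) : K) * ((α : K) * σ x)) = x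
        simp⟩ :
        (AddMonoid.End K)ˣ)
    refine ⟨g0, ⟨α, σ, fun x => rfl⟩, β, fun x => ?_⟩
    rw [hασ]
    rfl
  have h2 : Group.IsSolvable ((cl (Aff A)).map f) := solvable_of_le h1 (solvable_Aff G hG)
  have h3 : Function.Injective f := (e.symm.permCongrHom : Perm V ≃* Perm K).injective
  exact Group.isSolvable_of_isSolvable_injective (f := f.subgroupMap (cl (Aff A)))
    (fun a b hab => by
      apply Subtype.ext
      have h4 := congrArg Subtype.val hab
      exact h3 h4)

/-- Solvability of `cl2 A` in the main case. -/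
theorem case_two {K V : Type u} [Field K] [Finite K] [AddCommGroup V] [Finite V] [Module K V]
    {A : Subgroup (GV V)} (S : SetA K V A) (hns : ∃ g ∈ A, Lin K g ∧ ∀ c : Kˣ, g ≠ scal K V c) :
    Group.IsSolvable (cl (Aff A)) := by
  have : Nontrivial V := S.nontrivial
  obtain ⟨B, r, SB⟩ := H680.TcSelB.main S hns
  obtain ⟨b, hb, hbn⟩ := SB.ns
  obtain ⟨ω, hω, -⟩ := SB.heis.exists_root hb hbn
  have hK : 3 ≤ Nat.card K := by
    have h1 : 1 < Nat.card Kˣ := Finite.one_lt_card_iff_nontrivial.2 ⟨⟨ω, 1, hω⟩⟩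
    have h2 := Nat.card_units K
    have h3 : 0 < Nat.card K := Nat.card_pos
    omega
  have hdim : ∀ v : V, ∃ w, ∀ c : K, w ≠ c • v := by
    intro v
    by_contra hcon
    push Not at hcon
    have hv0 : v ≠ 0 := by
      rintro rfl
      obtain ⟨w, hw⟩ := exists_ne (0 : V)
      obtain ⟨c, hc⟩ := hcon w
      rw [smul_zero] at hc
      exact hw hc
    obtain ⟨c, hc⟩ := hcon (b • v)
    obtain ⟨d, hd⟩ := unit_of_smul hv0 hc
    refine hbn d (GV_ext fun w => ?_)
    obtain ⟨e, rfl⟩ := hcon w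
    rw [SB.heis.linb hb, hd, scal_smul, smul_comm]
  obtain ⟨h1, hs⟩ := Cfsg.Agent.H344.TcStepE.main hK hdim A S.semi
  refine solvable_of_le h1 (solvable_Aff _ ?_)
  rcases T1.main SB hs with h2 | hn
  · exact h2
  rcases T2.main SB hs hn with h2 | h2
  · exact h2
  exact H877.Last.main SB hs hn h2 (Cfsg.Agent.H216.TcT3.T3.main SB hs hn)

theorem semi_of_conj {K V : Type u} [Field K] [Finite K] [AddCommGroup V] [Nontrivial V]
    [Module K V] (g : GV V)
    (hg : ∀ c : K, ∃ d : K, (g : AddMonoid.End V) * Module.toAddMonoidEnd K V c *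
      ((g⁻¹ : GV V) : AddMonoid.End V) = Module.toAddMonoidEnd K V d) : Semi K g := by
  choose σ hσ using hg
  have hntE : Nontrivial (AddMonoid.End V) := ⟨1, 0, fun h => by
    obtain ⟨v, hv⟩ := exists_ne (0 : V)
    exact hv (congrArg (fun f : AddMonoid.End V => f v) h)⟩
  have hinj : Function.Injective (Module.toAddMonoidEnd K V) :=
    (Module.toAddMonoidEnd K V).injective
  have hgg : ((g⁻¹ : GV V) : AddMonoid.End V) * (g : AddMonoid.End V) = 1 := g.inv_mul
  have hgg' : (g : AddMonoid.End V) * ((g⁻¹ : GV V) : AddMonoid.End V) = 1 := g.mul_inv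
  let f : K →+* K :=
    { toFun := σ
      map_one' := by
        apply hinj
        rw [← hσ, map_one, mul_one, hgg']
      map_mul' := fun a b => by
        apply hinj
        rw [map_mul, ← hσ, ← hσ, ← hσ, map_mul]
        simp only [mul_assoc]
        rw [← mul_assoc ((g⁻¹ : GV V) : AddMonoid.End V) (g : AddMonoid.End V), hgg, one_mul]
      map_zero' := by
        apply hinj
        rw [← hσ, map_zero, mul_zero, zero_mul]
      map_add' := fun a b => by
        apply hinj
        rw [map_add, ← hσ, ← hσ, ← hσ, map_add, mul_add, add_mul] }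
  have hf : Function.Bijective f := (Finite.injective_iff_bijective).1 f.injective
  refine ⟨RingEquiv.ofBijective f hf, fun c v => ?_⟩
  have h1 : (g : AddMonoid.End V) * Module.toAddMonoidEnd K V c =
      Module.toAddMonoidEnd K V (σ c) * (g : AddMonoid.End V) := by
    rw [← hσ, mul_assoc, hgg, mul_one]
  exact congrArg (fun k : AddMonoid.End V => k v) h1

theorem star_field {K V : Type u} [Field K] [Finite K] [AddCommGroup V] [Finite V]
    (hc : 3 ≤ Nat.card V)
    (hI : IH.{u} (Nat.card V)) (A : Subgroup (GV V)) (hA : Group.IsSolvable A) (hirr : Irr A)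
    (j : K →+* AddMonoid.End V)
    (hj : ∀ g ∈ A, ∀ c : K, ∃ d : K, (g : AddMonoid.End V) * j c *
      ((g⁻¹ : GV V) : AddMonoid.End V) = j d)
    (hmax : ∀ R : Subring (AddMonoid.End V), (∀ a ∈ R, ∀ b ∈ R, a * b = b * a) →
      (∀ g ∈ A, ∀ r ∈ R, (g : AddMonoid.End V) * r * ((g⁻¹ : GV V) : AddMonoid.End V) ∈ R) →
      (∀ c : K, j c ∈ R) → ∀ r ∈ R, ∃ c : K, r = j c) :
    Group.IsSolvable (cl (Aff A)) := by
  classical
  have hnt : Nontrivial V := Finite.one_lt_card_iff_nontrivial.1 (by omega)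
  let _ : Module K V := Module.compHom V j
  have hjM : ∀ c : K, Module.toAddMonoidEnd K V c = j c := fun c => rfl
  have hsemi : ∀ g ∈ A, Semi K g := by
    intro g hg
    exact semi_of_conj g (hj g hg)
  let T : Subgroup (GV V) := (scal K V).range
  have hT : Group.IsSolvable T := by
    refine Group.isSolvable_of_comm ?_
    rintro ⟨_, c, rfl⟩ ⟨_, d, rfl⟩
    apply Subtype.ext
    change scal K V c * scal K V d = scal K V d * scal K V c
    rw [← map_mul, ← map_mul, mul_comm]
  let A1 : Subgroup (GV V) := A ⊔ T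
  have hA1s : Group.IsSolvable A1 := by
    refine solvable_sup hA hT ?_
    rintro a ha _ ⟨c, rfl⟩
    obtain ⟨d, hd⟩ := (hsemi a ha).conj_scal c
    exact ⟨d, hd.symm⟩
  have hle : A ≤ A1 := le_sup_left
  have hsemi1 : ∀ g ∈ A1, Semi K g := by
    have h1 : A1 ≤ SemiG K V := by
      refine sup_le (fun g hg => hsemi g hg) ?_
      rintro _ ⟨c, rfl⟩
      exact Semi.of_lin (lin_scal c)
    exact h1
  have hirr1 : Irr A1 := fun U hU => hirr U fun g hg => hU g (hle hg)
  have S : SetA K V A1 :=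
    { ih := hI
      card := hc
      solv := hA1s
      irr := hirr1
      semi := hsemi1
      scal_mem := fun c => (le_sup_right : T ≤ A1) ⟨c, rfl⟩
      max := fun R h1 h2 h3 => hmax R h1 (fun g hg => h2 g (hle hg)) h3 }
  refine solvable_of_le (cl_mono (Aff_mono hle)) ?_
  by_cases hcase : ∃ g ∈ A1, Lin K g ∧ ∀ c : Kˣ, g ≠ scal K V c
  · exact case_two S hcase
  · push Not at hcase
    obtain ⟨v, hv⟩ := Cfsg.Agent.H529.TcHilbertN.main A1 hsemi1 S.scal_mem
      (fun g hg hl => hcase g hg hl) hirr1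
    have hv0 : v ≠ 0 := by
      rintro rfl
      obtain ⟨w, hw⟩ := exists_ne (0 : V)
      obtain ⟨c, hc⟩ := hv w
      rw [smul_zero] at hc
      exact hw hc
    exact case_one A1 hsemi1 v hv0 hv

theorem star (V : Type u) [AddCommGroup V] [Finite V] (hc : 3 ≤ Nat.card V)
    (hI : IH.{u} (Nat.card V)) (A : Subgroup (GV V)) (hA : Group.IsSolvable A) (hirr : Irr A) :
    Group.IsSolvable (cl (Aff A)) := by
  classical
  by_contra hns
  have hnt : Nontrivial V := Finite.one_lt_card_iff_nontrivial.1 (by omega)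
  have hfE := finite_End V
  let P : Subring (AddMonoid.End V) → Prop := fun R =>
    (∀ a ∈ R, ∀ b ∈ R, a * b = b * a) ∧
    ∀ g ∈ A, ∀ r ∈ R, (g : AddMonoid.End V) * r * ((g⁻¹ : GV V) : AddMonoid.End V) ∈ R
  have hfin : Finite (Subring (AddMonoid.End V)) :=
    Finite.of_injective (fun R : Subring (AddMonoid.End V) => (R : Set (AddMonoid.End V)))
      SetLike.coe_injective
  have hP0 : P ⊥ := by
    have h1 : ∀ r ∈ (⊥ : Subring (AddMonoid.End V)), ∀ a, a * r = r * a := by
      intro r hr a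
      rw [Subring.mem_bot] at hr
      obtain ⟨n, rfl⟩ := hr
      exact (Int.commute_cast a n).eq
    refine ⟨fun a ha b hb => h1 b hb a, fun g hg r hr => ?_⟩
    rw [h1 r hr, mul_assoc]
    have : (g : AddMonoid.End V) * ((g⁻¹ : GV V) : AddMonoid.End V) = 1 := g.mul_inv
    rw [this, mul_one]
    exact hr
  obtain ⟨R, hR, hRmax⟩ := (Set.toFinite {R | P R}).exists_maximal ⟨⊥, hP0⟩
  obtain ⟨hRc, hRn⟩ := hR
  have hinv := (Cfsg.Agent.H734.TcDich.Dich.main hI A hA hirr R hRc hRn).resolve_left hns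
  -- the field
  have hfield : IsField R :=
    { exists_pair_ne := ⟨0, 1, fun h => by
        have h1 : (0 : AddMonoid.End V) = 1 := congrArg Subtype.val h
        obtain ⟨v, hv⟩ := exists_ne (0 : V)
        exact hv (congrArg (fun f : AddMonoid.End V => f v) h1).symm⟩
      mul_comm := fun a b => Subtype.ext (hRc a a.2 b b.2)
      mul_inv_cancel := by
        intro a ha
        obtain ⟨s, hs, h1⟩ := hinv a a.2 (fun h => ha (Subtype.ext h))
        exact ⟨⟨s, hs⟩, Subtype.ext h1⟩ }
  let _ : Field R := hfield.toField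
  refine hns (star_field (K := R) hc hI A hA hirr R.subtype ?_ ?_)
  · intro g hg c
    exact ⟨⟨_, hRn g hg c c.2⟩, rfl⟩
  · intro R' h1 h2 h3 r hr
    have h4 : R ≤ R' := fun x hx => h3 ⟨x, hx⟩
    exact ⟨⟨r, hRmax ⟨h1, h2⟩ h4 hr⟩, rfl⟩

/-- The 3-closure of a solvable permutation group is solvable. -/
theorem cl_solvable {Ω : Type u} [Finite Ω] (G : Subgroup (Perm Ω)) (hG : Group.IsSolvable G) :
    Group.IsSolvable (cl G) :=
  Cfsg.Agent.H183.TcStepB.StepB.main (fun V _ _ hc hI A hA hirr => star V hc hI A hA hirr) G hG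

end Cfsg.Agent.H412.Tc
end
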